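import Cfsg.Agent.Chevalley.All
import Cfsg.Agent.Chevalley.HighRoot
import Cfsg.Agent.Chevalley.FoldFixed
import Cfsg.Agent.ChevField.Map

/-!
Tools for subfield subgroups of Chevalley groups: coordinates at root vectors, the action of the
monomial elements on root vectors, height cuts, and orbits of roots.
-/

set_option autoImplicit false

namespace CfsgLib.ChevSubfield

open Cfsg.Lie CfsgLib.Chevalley CfsgLib.ChevField
open scoped Matrix

variable {D : ChevalleyDatum} {F : Type*} [Field F]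

/-! ### Coordinates -/

/-- The root vector `e_s`. -/
def evec (D : ChevalleyDatum) (F : Type*) [Field F] (s : ℕ) : D.Idx → F := bv D F (D.rank + s)

/-- The coordinate at the root vector `e_u`. -/
def crd (D : ChevalleyDatum) {F : Type*} [Field F] (v : D.Idx → F) (u : ℕ) : F :=
  if h : u < D.nroots then v (Sum.inr ⟨u, h⟩) else 0

theorem crd_add (v w : D.Idx → F) (u : ℕ) : crd D (v + w) u = crd D v u + crd D w u := by
  unfold crd; split_ifs <;> simp

theorem crd_neg (v : D.Idx → F) (u : ℕ) : crd D (-v) u = -crd D v u := by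
  unfold crd; split_ifs <;> simp

theorem crd_sub (v w : D.Idx → F) (u : ℕ) : crd D (v - w) u = crd D v u - crd D w u := by
  unfold crd; split_ifs <;> simp

theorem crd_zero (u : ℕ) : crd D (0 : D.Idx → F) u = 0 := by unfold crd; split_ifs <;> simp

theorem crd_smul (c : F) (v : D.Idx → F) (u : ℕ) : crd D (c • v) u = c * crd D v u := by
  unfold crd; split_ifs <;> simp

theorem crd_evec {u : ℕ} (hu : u < D.nroots) (s : ℕ) :
    crd D (evec D F s) u = if u = s then 1 else 0 := by
  rw [crd, dif_pos hu, evec, bv_inr_apply]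

theorem crd_sum {ι : Type*} (A : Finset ι) (f : ι → D.Idx → F) (u : ℕ) :
    crd D (∑ i ∈ A, f i) u = ∑ i ∈ A, crd D (f i) u := by
  classical
  induction A using Finset.induction_on with
  | empty => simp [crd_zero]
  | insert i A hi ih => rw [Finset.sum_insert hi, Finset.sum_insert hi, crd_add, ih]

theorem crd_mulVec {u : ℕ} (hu : u < D.nroots) (g : Matrix D.Idx D.Idx F) (v : D.Idx → F) :
    crd D (g *ᵥ v) u = ∑ col, g (Sum.inr ⟨u, hu⟩) col * v col := by
  rw [crd, dif_pos hu]; rfl

theorem evec_eq_single {s : ℕ} (hs : s < D.nroots) :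
    evec D F s = Pi.single (Sum.inr ⟨s, hs⟩) 1 := bv_inr D F ⟨s, hs⟩

theorem crd_mulVec_evec {u s : ℕ} (hu : u < D.nroots) (hs : s < D.nroots)
    (g : Matrix D.Idx D.Idx F) :
    crd D (g *ᵥ evec D F s) u = g (Sum.inr ⟨u, hu⟩) (Sum.inr ⟨s, hs⟩) := by
  rw [evec_eq_single hs, Matrix.mulVec_single, crd, dif_pos hu]
  simp

/-- The coefficient of `e_u` in `x_r(t) b_c`. -/
theorem crd_x_bv (W : WellFormed D) {r c u : ℕ} (hr : r < D.nroots) (hc : c < D.rank + D.nroots)
    (hu : u < D.nroots) (t : F) :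
    crd D (D.x F r t *ᵥ bv D F c) u = (((colTerms D r c).filter fun q => q.1 == D.rank + u).map
      fun q => (q.2.1 : F) * t ^ q.2.2).sum := by
  rw [x_bv W hr hc]
  induction colTerms D r c with
  | nil => simp [crd_zero]
  | cons q L ih =>
    rw [List.map_cons, List.sum_cons, crd_add, ih, crd_smul, List.filter_cons]
    by_cases h : q.1 = D.rank + u
    · rw [if_pos (by simp [h]), h, ← evec, crd_evec hu, if_pos rfl, mul_one, List.map_cons,
        List.sum_cons]
    · rw [if_neg (by simp [h]), crd, dif_pos hu, bv_apply_ne (row := Sum.inr ⟨u, hu⟩)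
        (fun e => h e.symm), mul_zero, zero_add]

end CfsgLib.ChevSubfield

namespace CfsgLib.Chevalley.Sys

open Cfsg.Lie CfsgLib.ChevSubfield CfsgLib.ChevField
open scoped Matrix

variable {D : ChevalleyDatum} (S : Sys D) (F : Type*) [Field F]
include S

theorem tor_evec (c : ℕ → Fˣ) {s : ℕ} (hs : s < D.nroots) :
    (tor D F c : Matrix D.Idx D.Idx F) *ᵥ evec D F s = (torusVal D c s : F) • evec D F s := by
  rw [evec, S.tor_val, dg_bve _ hs]

theorem wN_act (L : List (Fin D.rank)) (s : Fin D.nroots) :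
    ∃ e : F, (e = 1 ∨ e = -1) ∧
      (∀ t : F, (S.wN F L : GL D.Idx F) * S.xG F s t * (S.wN F L : GL D.Idx F)⁻¹ =
        S.xG F (S.wperm L s) (e * t)) ∧
      ((S.wN F L : GL D.Idx F) : Matrix D.Idx D.Idx F) *ᵥ evec D F s =
        e • evec D F (S.wperm L s) := by
  induction L with
  | nil => exact ⟨1, Or.inl rfl, fun t => by simp [wN, wperm], by simp [wN, wperm]⟩
  | cons i L ih =>
    obtain ⟨e, he, h1, h2⟩ := ih
    set u := S.wperm L s
    refine ⟨(S.eta i u : F) * e, ?_, fun t => ?_, ?_⟩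
    · rcases S.eta_sign i i.isLt u u.isLt with h | h <;> rcases he with rfl | rfl <;> simp [h]
    · have hn := S.nG_conj_xG F i.isLt u.isLt (e * t)
      rw [S.wN_cons, Subgroup.coe_mul, mul_inv_rev, S.wperm_cons, Equiv.Perm.mul_apply,
        S.srefl_val]
      calc (S.nN F i : GL D.Idx F) * S.wN F L * S.xG F s t *
            ((S.wN F L : GL D.Idx F)⁻¹ * (S.nN F i : GL D.Idx F)⁻¹)
          = S.nG F (D.simple i) 1 * ((S.wN F L : GL D.Idx F) * S.xG F s t *
            (S.wN F L : GL D.Idx F)⁻¹) * (S.nG F (D.simple i) 1)⁻¹ := by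
            simp only [nN]; group
        _ = _ := by rw [h1, hn, mul_inv_cancel_right, mul_assoc]
    · rw [S.wN_cons, Subgroup.coe_mul, Units.val_mul, ← Matrix.mulVec_mulVec, h2,
        Matrix.mulVec_smul, S.wperm_cons, Equiv.Perm.mul_apply, S.srefl_val]
      show e • ((S.nG F (D.simple i) 1 : Matrix D.Idx D.Idx F) *ᵥ evec D F u) = _
      rw [S.nG_val, evec, S.n_bv F i.isLt u.isLt, smul_smul, mul_comm e]
      rfl

/-- An element of `N` has the same scalar on a root vector and on its root subgroup. -/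
theorem monomial_act (n : ↥(D.monomialSubgroup F)) (s : Fin D.nroots) :
    ∃ c : F, c ≠ 0 ∧
      (∀ t : F, (n : GL D.Idx F) * S.xG F s t * (n : GL D.Idx F)⁻¹ =
        S.xG F (S.perm F n s) (c * t)) ∧
      ((n : GL D.Idx F) : Matrix D.Idx D.Idx F) *ᵥ evec D F s = c • evec D F (S.perm F n s) := by
  obtain ⟨L, h, hh, rfl⟩ := S.exists_wN F n
  rw [map_mul, S.perm_of_mem_hSub F hh, mul_one, S.perm_wN]
  rw [hSub, Subgroup.mem_subgroupOf, S.diagonal_eq] at hh
  obtain ⟨d, hd⟩ := hh
  obtain ⟨e, he, h1, h2⟩ := S.wN_act F L s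
  refine ⟨e * (torusVal D d s : F), mul_ne_zero ?_ (Units.ne_zero _), fun t => ?_, ?_⟩
  · rcases he with rfl | rfl <;> simp
  · rw [Subgroup.coe_mul, mul_inv_rev, ← hd]
    calc (S.wN F L : GL D.Idx F) * tor D F d * S.xG F s t *
          ((tor D F d)⁻¹ * (S.wN F L : GL D.Idx F)⁻¹)
        = (S.wN F L : GL D.Idx F) * (tor D F d * S.xG F s t * (tor D F d)⁻¹) *
          (S.wN F L : GL D.Idx F)⁻¹ := by group
      _ = _ := by rw [S.tor_conj F d s.isLt, h1, mul_assoc]
  · rw [Subgroup.coe_mul, Units.val_mul, ← Matrix.mulVec_mulVec, ← hd, S.tor_evec F d s.isLt,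
      Matrix.mulVec_smul, h2, smul_smul, mul_comm (torusVal D d s : F)]

theorem wN_mem_fixed (σ : F →+* F) (L : List (Fin D.rank)) :
    gmap D σ (S.wN F L : GL D.Idx F) = S.wN F L := gmap_wN S σ L

/-! ### The rows of the lowest roots -/

theorem pos_unipotent_row_zero {u : GL D.Idx F} (hu : u ∈ D.posUnipotent F) (h0 : 0 < D.nroots / 2)
    (v : D.Idx → F) : crd D ((u : Matrix D.Idx D.Idx F) *ᵥ v) 0 = crd D v 0 := by
  have hn : 0 < D.nroots := by omega
  rw [crd_mulVec hn, crd, dif_pos hn]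
  rw [Finset.sum_eq_single (Sum.inr ⟨0, hn⟩)]
  · suffices h : (u : Matrix D.Idx D.Idx F) (Sum.inr ⟨0, hn⟩) (Sum.inr ⟨0, hn⟩) = 1 by
      rw [h, one_mul]
    by_contra hne
    have := (S.posUnipotent_le F hu).1 _ _ (by
      rw [Matrix.sub_apply, Matrix.one_apply_eq]; exact sub_ne_zero.mpr hne)
    omega
  · intro col _ hcol
    have h : (u : Matrix D.Idx D.Idx F) (Sum.inr ⟨0, hn⟩) col = 0 := by
      by_contra hne
      have := (S.posUnipotent_le F hu).1 (Sum.inr ⟨0, hn⟩) col (by
        rw [Matrix.sub_apply, Matrix.one_apply_ne (Ne.symm hcol), sub_zero]; exact hne)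
      simp only [pos, h0, if_true] at this
      omega
    rw [h, zero_mul]
  · intro h; exact absurd (Finset.mem_univ _) h

theorem pos_unipotent_row_one {u : GL D.Idx F} (hu : u ∈ D.posUnipotent F) (h1 : 1 < D.nroots / 2)
    (v : D.Idx → F) : crd D ((u : Matrix D.Idx D.Idx F) *ᵥ v) 1 =
      crd D v 1 + crd D ((u : Matrix D.Idx D.Idx F) *ᵥ evec D F 0) 1 * crd D v 0 := by
  have hn : 1 < D.nroots := by omega
  have hn0 : 0 < D.nroots := by omega
  rw [crd_mulVec_evec hn hn0, crd_mulVec hn, crd, dif_pos hn, crd, dif_pos hn0]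
  rw [Finset.sum_eq_add (Sum.inr ⟨1, hn⟩) (Sum.inr ⟨0, hn0⟩) (by simp)]
  · suffices h : (u : Matrix D.Idx D.Idx F) (Sum.inr ⟨1, hn⟩) (Sum.inr ⟨1, hn⟩) = 1 by
      rw [h, one_mul]
    by_contra hne
    have := (S.posUnipotent_le F hu).1 _ _ (by
      rw [Matrix.sub_apply, Matrix.one_apply_eq]; exact sub_ne_zero.mpr hne)
    omega
  · intro col _ hcol
    have h : (u : Matrix D.Idx D.Idx F) (Sum.inr ⟨1, hn⟩) col = 0 := by
      by_contra hne
      have := (S.posUnipotent_le F hu).1 (Sum.inr ⟨1, hn⟩) col (by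
        rw [Matrix.sub_apply, Matrix.one_apply_ne (Ne.symm hcol.1), sub_zero]; exact hne)
      simp only [pos, h1, if_true] at this
      rcases col with j | k
      · simp only at this; omega
      · simp only at this
        have : (k : ℕ) = 0 := by split_ifs at this <;> omega
        exact hcol.2 (congrArg Sum.inr (Fin.ext this))
    rw [h, zero_mul]
  · intro h; exact absurd (Finset.mem_univ _) h
  · intro h; exact absurd (Finset.mem_univ _) h

/-! ### Height cuts -/

/-- The roots of height at least `h`. -/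
def cut (h : ℤ) : Set ℕ := {r | h ≤ S.height r}

theorem closed_cut' (h : ℤ) : S.Closed (S.cut h) :=
  FoldData.closed_cut (fun _ hr _ _ => hr) fun _ _ _ hr => le_of_lt hr

theorem cut_one : uSub D F (S.cut 1) = D.posUnipotent F := by
  refine le_antisymm (uSub_le_posUnipotent F _) ?_
  rw [← uSub_univ]
  exact S.uSub_le F fun r _ h1 h2 t =>
    S.xG_mem_uSub F (show 1 ≤ S.height r from FoldData.height_pos h2 h1) h1 h2 t

theorem height_commTerm {r s : ℕ} (hr : r < D.nroots) (hs : s < D.nroots)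
    {c : ℕ × ℤ × ℕ × ℕ} (hc : c ∈ D.commTerms r s) :
    S.height c.1 = c.2.2.1 * S.height r + c.2.2.2 * S.height s :=
  FoldData.height_add (S.commTerms_vec hr hs hc).2.2

theorem commTerm_pos {r s : ℕ} (hr : r < D.nroots) (hpr : D.nroots / 2 ≤ r) (hs : s < D.nroots)
    (hps : D.nroots / 2 ≤ s) {c : ℕ × ℤ × ℕ × ℕ} (hc : c ∈ D.commTerms r s) :
    D.nroots / 2 ≤ c.1 := by
  have := S.commTerms_pos hr hpr hs hps hc
  omega

/-- A positive root subgroup normalises a set between two consecutive cuts. -/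
theorem xG_conj_between {R : Set ℕ} {h : ℤ}
    (h1 : ∀ s ∈ R, D.nroots / 2 ≤ s → s < D.nroots → h ≤ S.height s)
    (h2 : ∀ s, D.nroots / 2 ≤ s → s < D.nroots → h < S.height s → s ∈ R)
    {r : ℕ} (hr : r < D.nroots) (hp : D.nroots / 2 ≤ r) (t : F) {g : GL D.Idx F}
    (hg : g ∈ uSub D F R) : S.xG F r t * g * (S.xG F r t)⁻¹ ∈ uSub D F R := by
  refine closure_conj_mem ?_ hg
  rintro x ⟨s, u, ⟨hsR, hsp⟩, hx⟩
  obtain ⟨hs1, hs2⟩ := (S.pos_iff s).mp hsp
  rw [S.eq_xG F hx]
  by_cases he : s = r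
  · subst he
    rw [S.xG_add, S.xG_inv, S.xG_add, show t + u + -t = u by ring]
    exact S.xG_mem_uSub F hsR hs1 hs2 u
  have hneg : s ≠ D.neg r := fun e => by
    have := (S.neg_half r hr).mpr hp
    omega
  rw [show S.xG F r t = (S.xG F r (-t))⁻¹ by rw [S.xG_inv, neg_neg], inv_inv,
    S.xG_comm F hr hs2 he hneg]
  refine mul_mem (S.xG_mem_uSub F hsR hs1 hs2 u) (S.wG_commWord_mem F hr hs2 _ u fun c hc => ?_)
  have hc1 := S.commTerm_pos hr hp hs2 hs1 hc
  refine ⟨h2 _ hc1 (S.commTerms_lt hr hs2 hc) ?_, hc1⟩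
  obtain ⟨hi, hj, -⟩ := S.commTerms_vec hr hs2 hc
  rw [S.height_commTerm hr hs2 hc]
  have a1 := FoldData.height_pos (SE := S) hr hp
  have a2 := h1 s hsR hs1 hs2
  have a3 := FoldData.height_pos (SE := S) hs2 hs1
  nlinarith

theorem posUnipotent_conj_between {R : Set ℕ} {h : ℤ}
    (h1 : ∀ s ∈ R, D.nroots / 2 ≤ s → s < D.nroots → h ≤ S.height s)
    (h2 : ∀ s, D.nroots / 2 ≤ s → s < D.nroots → h < S.height s → s ∈ R)
    {v : GL D.Idx F} (hv : v ∈ D.posUnipotent F) {g : GL D.Idx F}
    (hg : g ∈ uSub D F R) : v * g * v⁻¹ ∈ uSub D F R := by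
  suffices D.posUnipotent F ≤ Subgroup.normalizer (uSub D F R : Set (GL D.Idx F)) from
    (Subgroup.mem_normalizer_iff.mp (this hv) g).mp hg
  rw [S.posUnipotent_eq, Subgroup.closure_le]
  rintro _ ⟨r, ⟨hp, hr⟩, t, rfl⟩
  rw [SetLike.mem_coe, Subgroup.mem_normalizer_iff]
  refine fun g => ⟨S.xG_conj_between F h1 h2 hr hp t, fun hg => ?_⟩
  have := S.xG_conj_between F h1 h2 hr hp (-t) hg
  rw [← S.xG_inv, inv_inv] at this
  simpa [mul_assoc] using this

/-- An element of the unipotent subgroup of an empty cut. -/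
theorem cut_top {h : ℤ} (hh : ∀ r < D.nroots, D.nroots / 2 ≤ r → S.height r < h) :
    uSub D F (S.cut h) = ⊥ :=
  uSub_empty_of fun r hr hp => by
    obtain ⟨h1, h2⟩ := (S.pos_iff r).mp hp
    exact absurd hr (not_le.mpr (hh r h2 h1))

/-- A root whose root subgroup is central in `U` may be moved to the end of an ordered product. -/
theorem ordProd_central {a : ℕ} (ha : a < D.nroots)
    (hc : ∀ (r : ℕ) (t u : F), D.nroots / 2 ≤ r → r < D.nroots →
      Commute (S.xG F a t) (S.xG F r u))
    (t : ℕ → F) : ∀ n m, D.nroots - m = n → D.nroots / 2 ≤ m → S.ordProd F t m =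
      S.ordProd F (fun r => if r = a then 0 else t r) m *
        (if m ≤ a then S.xG F a (t a) else 1) := by
  intro n
  induction n with
  | zero =>
    intro m hm _
    rw [S.ordProd_of_le F _ (by omega), S.ordProd_of_le F _ (by omega), if_neg (by omega), one_mul]
  | succ n ih =>
    intro m hm hhalf
    rw [S.ordProd_succ F t (show m < D.nroots by omega),
      S.ordProd_succ F (fun r => if r = a then 0 else t r) (show m < D.nroots by omega),
      ih (m + 1) (by omega) (by omega)]
    by_cases h : m = a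
    · subst h
      rw [if_pos rfl, if_neg (by omega), mul_one, S.xG_zero, one_mul, if_pos le_rfl]
      have hcen : ∀ g ∈ uSub D F Set.univ, Commute (S.xG F m (t m)) g := fun g hg => by
        induction hg using Subgroup.closure_induction with
        | mem x hx =>
          obtain ⟨r, u, ⟨-, hp⟩, hx⟩ := hx
          obtain ⟨h1, h2⟩ := (S.pos_iff r).mp hp
          rw [S.eq_xG F hx]
          exact hc r _ u h1 h2
        | one => exact Commute.one_right _
        | mul _ _ _ _ x y => exact x.mul_right y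
        | inv _ _ x => exact x.inv_right
      exact (hcen _ (S.ordProd_mem F _ (by omega) fun r _ _ => Or.inl (Set.mem_univ r))).eq
    · rw [if_neg h, mul_assoc]
      by_cases h' : m ≤ a
      · rw [if_pos h', if_pos (by omega)]
      · rw [if_neg h', if_neg (by omega)]

/-! ### Orbits -/

omit F in
/-- The check that the roots satisfying `Q` are all in the orbit of `seed`. -/
theorem orbit_sound {Q : ℕ → Bool} {seed : ℕ} (hseed : seed < D.nroots)
    (h : ((List.range D.nroots).all fun s => !Q s || s == seed ||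
      (List.range D.rank).any fun i =>
        Q (D.reflectRoot i s) && decide (s < D.reflectRoot i s)) = true)
    {s : ℕ} (hs : s < D.nroots) (hQ : Q s = true) :
    ∃ L : List (Fin D.rank), S.wperm L ⟨seed, hseed⟩ = ⟨s, hs⟩ := by
  simp only [List.all_eq_true, List.mem_range, Bool.or_eq_true, Bool.not_eq_true', beq_iff_eq,
    List.any_eq_true, Bool.and_eq_true, decide_eq_true_eq] at h
  induction hn : D.nroots - s using Nat.strong_induction_on generalizing s with
  | _ n ih =>
    rcases h s hs with (h1 | h1) | ⟨i, hi, h1, h2⟩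
    · rw [hQ] at h1; exact absurd h1 (by simp)
    · subst h1; exact ⟨[], by simp [wperm]⟩
    · have hlt := S.w_lt i hi s hs
      obtain ⟨L, hL⟩ := ih _ (by omega) hlt h1 rfl
      refine ⟨⟨i, hi⟩ :: L, ?_⟩
      rw [S.wperm_cons, Equiv.Perm.mul_apply, hL]
      exact Fin.ext (S.w_w i hi s hs)

end CfsgLib.Chevalley.Sys
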