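import Cfsg.Agent.ChevSubfield.Uni

/-!
From the unipotent part to the torus; elements of the group on the highest root.
-/

set_option autoImplicit false

namespace CfsgLib.ChevSubfield

open Cfsg.Lie CfsgLib.Chevalley CfsgLib.ChevField
open scoped Matrix

variable {D : ChevalleyDatum} {S : Sys D} {e ℓ : ℕ}
variable {K : Type*} [Field K] {σ : K →+* K} {H : Subgroup (GL D.Idx K)}
  (hfix : RootsIn S σ H)
  (hUni : ∀ g ∈ H, g ∈ D.posUnipotent K → gmap D σ g = g)

include hfix hUni in
/-- The torus part of an element of `H ∩ B` has subfield values on the fundamental roots. -/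
theorem torus_fixed {v h : GL D.Idx K} (hv : v ∈ D.posUnipotent K)
    (hH : v * h ∈ H) {i : ℕ} (hi : i < D.rank) {lam : K}
    (hlam : h * S.xG K (D.simple i) 1 * h⁻¹ = S.xG K (D.simple i) lam) : σ lam = lam := by
  have hl := S.wf.simple_lt i hi
  have hp := S.simple_pos i hi
  have hx : S.xG K (D.simple i) 1 ∈ H :=
    hfix _ hl 1 (map_one σ)
  have hxU : ∀ t, S.xG K (D.simple i) t ∈ D.posUnipotent K := fun t => by
    rw [← uSub_univ]; exact S.xG_mem_uSub K (Set.mem_univ _) hp hl t
  have hc : v * h * S.xG K (D.simple i) 1 * (v * h)⁻¹ = v * S.xG K (D.simple i) lam * v⁻¹ := by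
    rw [← hlam]; group
  have hcH : v * S.xG K (D.simple i) lam * v⁻¹ ∈ H := by
    rw [← hc]; exact mul_mem (mul_mem hH hx) (inv_mem hH)
  have hcσ := hUni _ hcH (mul_mem (mul_mem hv (hxU _)) (inv_mem hv))
  obtain ⟨u, hu, t, rfl⟩ := S.posUnipotent_split K hi hv
  set c := u * S.xG K (D.simple i) t * S.xG K (D.simple i) lam *
    (u * S.xG K (D.simple i) t)⁻¹ with hcdef
  have hcR : (S.xG K (D.simple i) lam)⁻¹ * c ∈ uSub D K (S.others i) := by
    have h1 : S.xG K (D.simple i) (-lam) * u * (S.xG K (D.simple i) (-lam))⁻¹ ∈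
        uSub D K (S.others i) := S.xG_conj_others K hi (Or.inl rfl) _ hu
    have h2 := mul_mem h1 (inv_mem hu)
    have e1 : (S.xG K (D.simple i) lam)⁻¹ * c =
        S.xG K (D.simple i) (-lam) * u * (S.xG K (D.simple i) (-lam))⁻¹ * u⁻¹ := by
      rw [hcdef, mul_inv_rev, S.xG_inv, S.xG_inv, S.xG_inv, neg_neg]
      calc S.xG K (D.simple i) (-lam) * (u * S.xG K (D.simple i) t * S.xG K (D.simple i) lam *
            (S.xG K (D.simple i) (-t) * u⁻¹))
          = S.xG K (D.simple i) (-lam) * u * (S.xG K (D.simple i) t *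
            S.xG K (D.simple i) lam * S.xG K (D.simple i) (-t)) * u⁻¹ := by group
        _ = _ := by
          rw [S.xG_add, S.xG_add]; congr 3; ring
    rw [e1]; exact h2
  have hσ2 : (S.xG K (D.simple i) (σ lam))⁻¹ * c ∈ uSub D K (S.others i) := by
    have := gmap_mem_uSub S σ hcR
    rwa [map_mul, map_inv, gmap_xG S, hcσ] at this
  have h3 := mul_mem hcR (inv_mem hσ2)
  rw [mul_inv_rev, inv_inv, mul_assoc, mul_inv_cancel_left, S.xG_inv, S.xG_add] at h3
  have h4 := FoldData.eq_zero_of_mem_uSub (S.closed_others hi) hl hp (fun hm => hm rfl) h3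
  linear_combination h4

/-- `U` fixes the highest root vector. -/
theorem pos_fix_top (T : SubFacts S e ℓ) {u : GL D.Idx K} (huU : u ∈ D.posUnipotent K) :
    (u : Matrix D.Idx D.Idx K) *ᵥ evec D K (topIdx D) = evec D K (topIdx D) := by
    suffices ∀ w ∈ uSub D K Set.univ,
        (w : Matrix D.Idx D.Idx K) *ᵥ evec D K (topIdx D) = evec D K (topIdx D) from
      this u (by rw [uSub_univ]; exact huU)
    intro w hw
    induction hw using Subgroup.closure_induction with
    | mem x hx =>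
      obtain ⟨r, t, ⟨-, hp⟩, hx⟩ := hx
      obtain ⟨h1, h2⟩ := (S.pos_iff r).mp hp
      have hc := T.topCol
      simp only [List.all_eq_true, List.mem_range, Bool.or_eq_true, decide_eq_true_eq,
        beq_iff_eq] at hc
      rcases hc r h2 with h3 | h3
      · omega
      rw [hx, evec, x_bv S.wf h2 (by have := T.high.lt; omega), h3]
      simp
    | one => simp
    | mul x y _ _ hx hy => rw [Units.val_mul, ← Matrix.mulVec_mulVec, hy, hx]
    | inv x _ hx =>
      conv_lhs => rw [← hx, Matrix.mulVec_mulVec, ← Units.val_mul, inv_mul_cancel, Units.val_one,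
        Matrix.one_mulVec]

/-- The shape of a group element with a nonzero entry in the lowest row of the highest root. -/
theorem corner_form (T : SubFacts S e ℓ) {g : GL D.Idx K} (hg : g ∈ D.group K)
    (h0 : crd D ((g : Matrix D.Idx D.Idx K) *ᵥ evec D K (topIdx D)) 0 ≠ 0) :
    ∃ v ∈ D.posUnipotent K,
      (∀ t, g * S.xG K (topIdx D) t * g⁻¹ = v * S.xG K 0
        (crd D ((g : Matrix D.Idx D.Idx K) *ᵥ evec D K (topIdx D)) 0 * t) * v⁻¹) ∧
      (g : Matrix D.Idx D.Idx K) *ᵥ evec D K (topIdx D) =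
        crd D ((g : Matrix D.Idx D.Idx K) *ᵥ evec D K (topIdx D)) 0 •
          ((v : Matrix D.Idx D.Idx K) *ᵥ evec D K 0) := by
  obtain ⟨b, hb, n, u, hu, rfl⟩ := S.normal_form_exists K hg
  have huU : u ∈ D.posUnipotent K := uSub_le_posUnipotent K _ hu
  have hufix := pos_fix_top T huU
  obtain ⟨c', hc', hconj, hvec⟩ := S.monomial_act K n ⟨topIdx D, T.high.lt⟩
  obtain ⟨v, hv, d, rfl⟩ := (S.mem_borel K).mp hb
  set k := S.perm K n ⟨topIdx D, T.high.lt⟩
  set χ := (torusVal D d k : K) with hχ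
  have hge : ((v * tor D K d * (n : GL D.Idx K) * u : GL D.Idx K) : Matrix D.Idx D.Idx K) *ᵥ
      evec D K (topIdx D) = (c' * χ) • ((v : Matrix D.Idx D.Idx K) *ᵥ evec D K k) := by
    simp only [Units.val_mul, ← Matrix.mulVec_mulVec]
    rw [hufix, hvec, Matrix.mulVec_smul, S.tor_evec K d k.isLt, smul_smul, Matrix.mulVec_smul]
  have h2 : 0 < D.nroots / 2 := by have := T.two_le; omega
  have hrow : crd D ((v : Matrix D.Idx D.Idx K) *ᵥ evec D K k) 0 =
      if 0 = (k : ℕ) then 1 else 0 := by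
    rw [S.pos_unipotent_row_zero K hv h2, crd_evec T.high.pos]
  rw [hge, crd_smul, hrow] at h0
  have hk : (k : ℕ) = 0 := by
    by_contra hne
    rw [if_neg (Ne.symm hne), mul_zero] at h0
    exact h0 rfl
  rw [hge, crd_smul, hrow, if_pos hk.symm, mul_one, hk]
  refine ⟨v, hv, fun t => ?_, rfl⟩
  have hcu : u * S.xG K (topIdx D) t * u⁻¹ = S.xG K (topIdx D) t := by
    rw [← (S.top_commute_pos K T.high huU t).eq, mul_inv_cancel_right]
  calc v * tor D K d * (n : GL D.Idx K) * u * S.xG K (topIdx D) t *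
        (v * tor D K d * (n : GL D.Idx K) * u)⁻¹
      = v * (tor D K d * ((n : GL D.Idx K) * (u * S.xG K (topIdx D) t * u⁻¹) *
          (n : GL D.Idx K)⁻¹) * (tor D K d)⁻¹) * v⁻¹ := by group
    _ = _ := by
      rw [hcu, hconj, S.tor_conj K d k.isLt, ← hk, hχ, ← mul_assoc, mul_comm c']

end CfsgLib.ChevSubfield
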