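import Cfsg.Agent.ChevSubfield.TwoKey

/-!
Evaluated words in characteristic two.
-/

set_option autoImplicit false

namespace CfsgLib.ChevSubfield

open Cfsg.Lie CfsgLib.Chevalley CfsgLib.ChevField
open scoped Matrix

variable {D : ChevalleyDatum}

/-- The coefficient of `e_u` in a formal vector modulo two, all parameters one. -/
def parAt (D : ChevalleyDatum) (v : List (ℕ × Mon)) (u : ℕ) : Bool :=
  ((v.filter fun x => x.1 == D.rank + u).map fun x => x.2.1).sum % 2 == 1

theorem crd_vev {K : Type*} [Field K] {u : ℕ} (hu : u < D.nroots) (t s : K)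
    (v : List (ℕ × Mon)) :
    crd D (vev D K t s v) u = ((v.filter fun x => x.1 == D.rank + u).map fun x =>
      (x.2.1 : K) * t ^ x.2.2.1 * s ^ x.2.2.2).sum := by
  induction v with
  | nil => simp [vev, crd_zero]
  | cons q L ih =>
    rw [vev_cons, crd_add, ih, crd_smul, List.filter_cons]
    by_cases h : q.1 = D.rank + u
    · rw [if_pos (by simp [h]), h, ← evec, crd_evec hu, if_pos rfl, mul_one, List.map_cons,
        List.sum_cons]
    · rw [if_neg (by simp [h]), crd, dif_pos hu, bv_apply_ne (row := Sum.inr ⟨u, hu⟩)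
        (fun e => h e.symm), mul_zero, zero_add]

theorem crd_vev_one {K : Type*} [Field K] [CharP K 2] {u : ℕ} (hu : u < D.nroots)
    (v : List (ℕ × Mon)) :
    crd D (vev D K 1 1 v) u = if parAt D v u then 1 else 0 := by
  rw [crd_vev hu]
  simp only [one_pow, mul_one, parAt]
  set L := v.filter fun x => x.1 == D.rank + u
  have h1 : (L.map fun x => (x.2.1 : K)).sum = (((L.map fun x => x.2.1).sum : ℤ) : K) := by
    induction L with
    | nil => simp
    | cons x L ih => simp [ih]
  rw [h1]
  set z := (L.map fun x => x.2.1).sum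
  have h2 : ((2 : ℤ) : K) = 0 := by exact_mod_cast CharP.cast_eq_zero K 2
  have h3 : (z : K) = ((z % 2 : ℤ) : K) := by
    conv_lhs => rw [← Int.emod_add_mul_ediv z 2, Int.cast_add, Int.cast_mul, h2, zero_mul, add_zero]
  rw [h3]
  rcases Int.emod_two_eq_zero_or_one z with e | e <;> simp only [z, L] at e ⊢ <;> simp [e]

/-- The word `n_j x_b(e)`. -/
def fourWord (D : ChevalleyDatum) (j b : ℕ) (e : Bool) : List (ℕ × List Mon) :=
  nW D (D.simple j) ++ (if e then [(b, [(1, 0, 0)])] else [])

/-- The check on its two lowest rows. -/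
def chkFour (D : ChevalleyDatum) (j b : ℕ) : Bool :=
  decide (2 < D.nroots) && [false, true].all fun e =>
    ((fourWord D j b e).all fun x => decide (x.1 < D.nroots)) &&
    (List.range (D.rank + D.nroots)).all fun c =>
      let v := evalCol D (fourWord D j b e) c
      parAt D v 0 == (c == D.rank) &&
      parAt D v 1 == (xor (c == D.rank + 2) (e && c == D.rank + 1))

variable {S : Sys D} {e ℓ k : ℕ}
variable {K : Type*} [Field K] [CharP K 2] {σ : K →+* K} {H : Subgroup (GL D.Idx K)}
  (hfix : RootsIn S σ H)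
  (hUni : ∀ g ∈ H, g ∈ D.posUnipotent K → gmap D σ g = g)
variable (T : SubFacts S e ℓ) (A : AdjFacts S k) (W : TwoFacts S k)

/-- The entry of `g` in the lowest row of the highest root column. -/
def ent (D : ChevalleyDatum) {K : Type*} [Field K] (g : GL D.Idx K) (u : ℕ) : K :=
  crd D ((g : Matrix D.Idx D.Idx K) *ᵥ evec D K (topIdx D)) u

include hfix hUni T A W in
/-- A subfield ratio of the two lowest entries. -/
theorem ent_dep {g : GL D.Idx K} (hgH : g ∈ H) (hgG : g ∈ D.group K)
    (hc : σ (ent D g 0) ≠ ent D g 0) {d : K} (hd : σ d = d)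
    (hdep : ent D g 1 = ent D g 0 * d) : False := by
  have hc0 : ent D g 0 ≠ 0 := fun h => hc (by rw [h, map_zero])
  obtain ⟨v, hv, hconj, hvec⟩ := corner_form T hgG hc0
  obtain ⟨d', hd', hd''⟩ := delta_exists T A W hv
  have : ent D g 1 = ent D g 0 * d' := by
    conv_lhs => rw [ent, hvec, crd_smul, hd'']
    rfl
  rw [hdep] at this
  rw [← mul_left_cancel₀ hc0 this] at hd'
  exact dep_false T A W hfix hUni hgH hc hconj hv hd' hd

variable [Finite H] {q : ℕ}

include hfix hUni T A W in
/-- The entry lies in the subfield, except for two elements and a ratio with `d² + d = 1`. -/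
theorem ent_two (P : FrobData σ 2 q) {g : GL D.Idx K} (hgH : g ∈ H) (hgG : g ∈ D.group K)
    (hc : σ (ent D g 0) ≠ ent D g 0) :
    q = 2 ∧ ∃ d, d ^ 2 + d = 1 ∧ ent D g 1 = ent D g 0 * d := by
  have hc0 : ent D g 0 ≠ 0 := fun h => hc (by rw [h, map_zero])
  obtain ⟨v, hv, hconj, hvec⟩ := corner_form T hgG hc0
  obtain ⟨d, hd', hd''⟩ := delta_exists T A W hv
  have he : ent D g 1 = ent D g 0 * d := by
    conv_lhs => rw [ent, hvec, crd_smul, hd'']
    rfl
  have hdF : σ d ≠ d := fun h => ent_dep hfix hUni T A W hgH hgG hc h he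
  obtain ⟨h1, h2⟩ := indep_root T A W hfix hUni P hgH hc hconj hv hd' hdF
  exact ⟨h1, d, h2, he⟩

include hfix hUni T A W in
/-- The types with a node outside the two next to the highest root. -/
theorem ent_fixed_four (P : FrobData σ 2 q) {j b : ℕ}
    (hchk : chkFour D j b = true) {g : GL D.Idx K} (hgH : g ∈ H) (hgG : g ∈ D.group K) :
    σ (ent D g 0) = ent D g 0 := by
  classical
  by_contra hc
  obtain ⟨-, d, hd, hed⟩ := ent_two hfix hUni T A W P hgH hgG hc
  have hc0 : ent D g 0 ≠ 0 := fun h => hc (by rw [h, map_zero])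
  simp only [chkFour, Bool.and_eq_true, decide_eq_true_eq, List.all_eq_true, List.mem_range,
    beq_iff_eq] at hchk
  obtain ⟨hn, hall⟩ := hchk
  -- the ratio at the third lowest entry, with or without the second one added
  have hratio : ∀ e : Bool, ∃ d' : K, d' ^ 2 + d' = 1 ∧
      ent D g 2 + (if e then ent D g 1 else 0) = ent D g 0 * d' := by
    intro e
    obtain ⟨hw, hrows⟩ := hall e (by cases e <;> simp)
    set w := fourWord D j b e
    set m := S.wG K (w.map fun x => (x.1, pev K 1 1 x.2))
    have hfixpev : ∀ P : List Mon, σ (pev K 1 1 P) = pev K 1 1 P := fun P => by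
      simp [pev, map_list_sum, Function.comp_def]
    have hwlt : ∀ x ∈ w.map (fun x => (x.1, pev K 1 1 x.2)), x.1 < D.nroots := fun x hx => by
      obtain ⟨y, hy, rfl⟩ := List.mem_map.mp hx
      exact hw y hy
    have hmG : m ∈ D.group K := S.wG_mem K hwlt
    have hmH : m ∈ H := by
      refine Subgroup.list_prod_mem _ fun x hx => ?_
      simp only [List.map_map, List.mem_map, Function.comp_apply] at hx
      obtain ⟨y, hy, rfl⟩ := hx
      exact hfix _ (hw y hy) _ (hfixpev _)
    have hrow : ∀ (c : D.Idx) (u : ℕ) (hu : u < D.nroots),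
        (m : Matrix D.Idx D.Idx K) (Sum.inr ⟨u, hu⟩) c =
          if parAt D (evalCol D w (enc D c)) u then 1 else 0 := by
      intro c u hu
      have h1 := vev_evalCol (F := K) S.wf 1 1 w hw (enc D c)
      rw [← S.wG_val] at h1
      have h2 := crd_vev_one (K := K) hu (evalCol D w (enc D c))
      rw [← h1, bv_enc, Matrix.mulVec_single, crd, dif_pos hu] at h2
      simpa using h2
    have henc : ∀ c : D.Idx, enc D c < D.rank + D.nroots := fun c => by
      rcases c with i | i <;> simp only [enc] <;> omega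
    set x := (g : Matrix D.Idx D.Idx K) *ᵥ evec D K (topIdx D)
    have hent : ∀ u : ℕ, ∀ hu : u < D.nroots, x (Sum.inr ⟨u, hu⟩) = ent D g u := fun u hu => by
      rw [ent, crd, dif_pos hu]
    have hnew : ∀ u, ent D (m * g) u = crd D ((m : Matrix D.Idx D.Idx K) *ᵥ x) u := fun u => by
      rw [ent, Units.val_mul, ← Matrix.mulVec_mulVec]
    have hind : ∀ (u : ℕ) (hu : u < D.nroots) (c : D.Idx),
        (enc D c == D.rank + u) = decide (c = Sum.inr ⟨u, hu⟩) := fun u hu c => by
      rw [Bool.eq_iff_iff, beq_iff_eq, decide_eq_true_eq]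
      exact ⟨fun h => enc_injective D h, fun h => by rw [h]; rfl⟩
    have n0 : ent D (m * g) 0 = ent D g 0 := by
      rw [hnew, crd_mulVec (by omega)]
      rw [Finset.sum_eq_single (Sum.inr ⟨0, by omega⟩)]
      · rw [hrow, (hrows _ (henc _)).1, hent _ (by omega)]
        simp [enc]
      · intro c _ hne
        rw [hrow, (hrows _ (henc _)).1]
        have := hind 0 (by omega) c
        rw [Nat.add_zero] at this
        simp [this, hne]
      · intro h; exact absurd (Finset.mem_univ _) h
    have n1 : ent D (m * g) 1 = ent D g 2 + (if e then ent D g 1 else 0) := by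
      rw [hnew, crd_mulVec (by omega)]
      have hterm : ∀ c : D.Idx, (m : Matrix D.Idx D.Idx K) (Sum.inr ⟨1, by omega⟩) c * x c =
          (if c = Sum.inr ⟨2, hn⟩ then x c else 0) +
            (if e then (if c = Sum.inr ⟨1, by omega⟩ then x c else 0) else 0) := by
        intro c
        rw [hrow, (hrows _ (henc c)).2]
        rw [hind 2 hn, hind 1 (by omega)]
        by_cases h2 : c = Sum.inr ⟨2, hn⟩
        · subst h2; cases e <;> simp
        · by_cases h1 : c = Sum.inr ⟨1, by omega⟩
          · subst h1; cases e <;> simp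
          · cases e <;> simp [h2, h1]
      simp only [hterm, Finset.sum_add_distrib]
      cases e <;> simp [hent]
    obtain ⟨-, d', hd', he'⟩ := ent_two hfix hUni T A W P (mul_mem hmH hgH) (mul_mem hmG hgG)
      (by rw [n0]; exact hc)
    rw [n0, n1] at he'
    exact ⟨d', hd', he'⟩
  obtain ⟨d1, h1, e1⟩ := hratio false
  obtain ⟨d2, h2, e2⟩ := hratio true
  simp only [Bool.false_eq_true, if_false, add_zero] at e1
  simp only [if_true, e1, hed] at e2
  have hsum : d2 = d1 + d := mul_left_cancel₀ hc0 (by linear_combination -e2)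
  rw [hsum] at h2
  have h20 : (2 : K) = 0 := CharP.cast_eq_zero K 2
  exact one_ne_zero (α := K) (by linear_combination h2 - h1 - hd - d1 * d * h20)

end CfsgLib.ChevSubfield
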