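import Cfsg.Agent.ChevSubfield.LargeRoot
import Cfsg.Agent.Chevalley.HighData

/-!
The tabulated facts for the seven types.
-/

set_option autoImplicit false
-- sequential kernel evaluation keeps the peak memory of the certificates low
set_option Elab.async false

namespace CfsgLib.ChevSubfield

open Cfsg.Lie CfsgLib.Chevalley

variable (D : ChevalleyDatum) (e ℓ : ℕ)

/-- The check for `SubFacts`. -/
def chkSub : Bool :=
  decide (1 < D.nroots / 2) && decide (e < D.nroots) && decide (D.nroots / 2 ≤ e) &&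
  (ℓ == 1 || !(e == topIdx D)) && lng D 0 &&
  ((List.range D.nroots).all fun s => !lng D s || s == topIdx D ||
      (List.range D.rank).any fun i =>
        lng D (D.reflectRoot i s) && decide (s < D.reflectRoot i s)) &&
  ((List.range D.nroots).all fun s => !(!lng D s) || s == e ||
      (List.range D.rank).any fun i =>
        !lng D (D.reflectRoot i s) && decide (s < D.reflectRoot i s)) &&
  ((List.range D.nroots).all fun a => lng D a || (List.range D.nroots).any fun r =>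
      lng D r && (D.pairing r a).natAbs == 1) &&
  ((List.range D.nroots).all fun a => decide (a < D.nroots / 2) || a == topIdx D ||
      gcdN D a == 1 || (a == e && gcdN D a == ℓ)) &&
  ((List.range D.nroots).all fun r => decide (r < D.nroots / 2) ||
      (D.commTerms e r).all fun c => decide ((ℓ : ℤ) ∣ c.2.1)) &&
  ((List.range D.nroots).all fun r => decide (r < D.nroots / 2) ||
      colTerms D r (D.rank + topIdx D) == [(D.rank + topIdx D, 1, 0)])

/-- The check for `AdjFacts`. -/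
def chkAdj (k : ℕ) : Bool :=
  decide (k < D.rank) && lng D (D.simple k) && lng D (D.nroots - 2) &&
  (match D.commTerms (D.simple k) (D.nroots - 2) with
    | [c] => c.1 == topIdx D && c.2.1.natAbs == 1 && c.2.2 == (1, 1)
    | _ => false) &&
  !(D.nroots - 2 == D.simple k) && !(D.nroots - 2 == D.neg (D.simple k))

variable {D e ℓ}

theorem subFacts_of_chk (S : Sys D) (hH : S.HighFacts) (h : chkSub D e ℓ = true) :
    SubFacts S e ℓ := by
  simp only [chkSub, Bool.and_eq_true] at h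
  obtain ⟨⟨⟨⟨⟨⟨⟨⟨⟨⟨h1, h2⟩, h3⟩, h4⟩, h5⟩, h6⟩, h7⟩, h8⟩, h9⟩, h10⟩, h11⟩ := h
  refine ⟨hH, of_decide_eq_true h1, of_decide_eq_true h2, of_decide_eq_true h3, ?_, h5, h6, h7,
    h8, h9, h10, h11⟩
  intro hl
  simpa [hl] using h4

theorem adjFacts_of_chk (S : Sys D) {k : ℕ} (h : chkAdj D k = true) : AdjFacts S k := by
  simp only [chkAdj, Bool.and_eq_true, decide_eq_true_eq, Bool.not_eq_true',
    beq_eq_false_iff_ne] at h
  obtain ⟨⟨⟨⟨⟨h1, h2⟩, h3⟩, h4⟩, h5⟩, h6⟩ := h
  refine ⟨h1, h2, h3, ?_, h5, h6⟩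
  split at h4
  · rename_i c hc
    obtain ⟨k', N, ij⟩ := c
    simp only [Bool.and_eq_true, beq_iff_eq] at h4
    obtain ⟨⟨e1, e2⟩, e3⟩ := h4
    exact ⟨N, e2, by rw [hc, e1, e3]⟩
  · exact absurd h4 (by simp)

private theorem foldl_gcd_dvd (f : ℕ → ℕ) : ∀ (l : List ℕ) (g : ℕ),
    l.foldl (fun g r => Nat.gcd g (f r)) g ∣ g ∧
      ∀ r ∈ l, l.foldl (fun g r => Nat.gcd g (f r)) g ∣ f r
  | [], g => ⟨dvd_refl g, fun r hr => by simp at hr⟩
  | a :: l, g => by
    obtain ⟨h1, h2⟩ := foldl_gcd_dvd f l (Nat.gcd g (f a))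
    refine ⟨h1.trans (Nat.gcd_dvd_left _ _), fun r hr => ?_⟩
    rcases List.mem_cons.1 hr with rfl | hr
    · exact h1.trans (Nat.gcd_dvd_right _ _)
    · exact h2 r hr

/-- The clause on `gcdN` follows from one coefficient `1` for each root. -/
theorem gcd_clause_of_wit
    (h : ((List.range D.nroots).all fun a => decide (a < D.nroots / 2) || a == topIdx D ||
      (List.range D.nroots).any fun r =>
        (decide (D.nroots / 2 ≤ r) && !(r == a)) && (leadN D r a == 1)) = true) :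
    ((List.range D.nroots).all fun a => decide (a < D.nroots / 2) || a == topIdx D ||
      gcdN D a == 1 || (a == e && gcdN D a == ℓ)) = true := by
  rw [List.all_eq_true] at h ⊢
  intro a ha
  have := h a ha
  simp only [Bool.or_eq_true, List.any_eq_true, Bool.and_eq_true] at this ⊢
  rcases this with h1 | ⟨r, hr, ⟨hc1, hc2⟩, h2⟩
  · exact Or.inl (Or.inl h1)
  · refine Or.inl (Or.inr ?_)
    have hd := (foldl_gcd_dvd (fun r => leadN D r a)
      ((List.range D.nroots).filter fun r => decide (D.nroots / 2 ≤ r) && !(r == a)) 0).2 r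
      (List.mem_filter.2 ⟨hr, by exact Bool.and_eq_true_iff.2 ⟨hc1, hc2⟩⟩)
    simp only [beq_iff_eq] at h2 ⊢
    exact Nat.dvd_one.1 (h2 ▸ hd)

theorem chkHigh_B2 : chkHigh Cfsg.Lie.chevB2 tabB2 = true := by decide +kernel
theorem chkHigh_F4 : chkHigh Cfsg.Lie.chevF4 tabF4 = true := by decide +kernel

theorem chkSub_G2 : chkSub Cfsg.Lie.chevG2 9 3 = true := by decide +kernel
theorem chkSub_B2 : chkSub Cfsg.Lie.chevB2 6 2 = true := by decide +kernel
theorem chkSub_D4 : chkSub Cfsg.Lie.chevD4 23 1 = true := by decide +kernel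
theorem chkSub_F4 : chkSub Cfsg.Lie.chevF4 44 2 = true := by decide +kernel
theorem chkSub_E6 : chkSub Cfsg.Lie.chevE6 71 1 = true := by decide +kernel
theorem chkSub_E7 : chkSub Cfsg.Lie.chevE7 125 1 = true := by
  simp only [chkSub, Bool.and_eq_true]
  refine ⟨⟨⟨⟨⟨⟨⟨⟨⟨⟨?_, ?_⟩, ?_⟩, ?_⟩, ?_⟩, ?_⟩, ?_⟩, ?_⟩, gcd_clause_of_wit ?_⟩, ?_⟩, ?_⟩
    <;> decide +kernel
theorem chkSub_E8 : chkSub Cfsg.Lie.chevE8 239 1 = true := by
  simp only [chkSub, Bool.and_eq_true]
  refine ⟨⟨⟨⟨⟨⟨⟨⟨⟨⟨?_, ?_⟩, ?_⟩, ?_⟩, ?_⟩, ?_⟩, ?_⟩, ?_⟩, gcd_clause_of_wit ?_⟩, ?_⟩, ?_⟩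
    <;> decide +kernel
theorem chkAdj_G2 : chkAdj Cfsg.Lie.chevG2 1 = true := by decide +kernel
theorem chkAdj_D4 : chkAdj Cfsg.Lie.chevD4 1 = true := by decide +kernel
theorem chkAdj_F4 : chkAdj Cfsg.Lie.chevF4 3 = true := by decide +kernel
theorem chkAdj_E6 : chkAdj Cfsg.Lie.chevE6 1 = true := by decide +kernel
theorem chkAdj_E7 : chkAdj Cfsg.Lie.chevE7 0 = true := by decide +kernel
theorem chkAdj_E8 : chkAdj Cfsg.Lie.chevE8 7 = true := by decide +kernel

end CfsgLib.ChevSubfield
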