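import Mathlib

/-!
The fixed field of `x ↦ x ^ q`, in general and in a field with `q ^ r` elements, `r` a prime; finite
sets closed under the ring operations; two small lemmas on groups: generation of `SL₂` by
transvections and the alternative for two involutions.
-/

set_option autoImplicit false

namespace CfsgLib.ChevSubfield

open scoped MatrixGroups

section field

variable {K : Type*} [Field K]

/-- The elements fixed by an endomorphism. -/
def fixField (σ : K →+* K) : Subfield K := σ.eqLocusField (RingHom.id K)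

theorem mem_fixField {σ : K →+* K} {x : K} : x ∈ fixField σ ↔ σ x = x := Iff.rfl

/-- `σ` is `x ↦ x ^ q` in characteristic `p`; if `q ≠ 2` it fixes more than `0` and `1`. -/
structure FrobData (σ : K →+* K) (p q : ℕ) : Prop where
  prime : p.Prime
  char : CharP K p
  σ_eq : ∀ x, σ x = x ^ q
  exists_ne_zero_one : q ≠ 2 → ∃ f ∈ fixField σ, f ≠ 0 ∧ f ≠ 1

namespace FrobData

variable {σ : K →+* K} {p q : ℕ} (P : FrobData σ p q)
include P

theorem mem_of_pow_mem {x : K} (h : x ^ p ∈ fixField σ) : x ∈ fixField σ := by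
  have := P.char
  have := Fact.mk P.prime
  rw [mem_fixField, map_pow] at h
  exact frobenius_inj K p h

theorem zero_or_one (hq : q = 2) {x : K} (h : x ∈ fixField σ) : x = 0 ∨ x = 1 := by
  rw [mem_fixField, P.σ_eq, hq] at h
  rcases eq_or_ne x 0 with h0 | h0
  · exact Or.inl h0
  · refine Or.inr ?_
    exact mul_left_cancel₀ h0 (by rw [← pow_two, h, mul_one])

end FrobData

/-- A finite set closed under sums and products, containing `0` and `1`, is a subfield. -/
theorem exists_subfield_of_finite {A : Set K} (hA : A.Finite) (h0 : (0 : K) ∈ A) (h1 : (1 : K) ∈ A)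
    (hadd : ∀ x ∈ A, ∀ y ∈ A, x + y ∈ A) (hmul : ∀ x ∈ A, ∀ y ∈ A, x * y ∈ A) :
    ∃ R : Subfield K, (R : Set K) = A := by
  have := hA.to_subtype
  have hinv : ∀ x ∈ A, x⁻¹ ∈ A := by
    intro x hx
    rcases eq_or_ne x 0 with rfl | hx0
    · simpa using h0
    obtain ⟨y, hy⟩ := (Finite.injective_iff_surjective (α := A)
      (f := fun y => ⟨x * y, hmul x hx _ y.2⟩)).mp
      (fun a b e => Subtype.ext (mul_left_cancel₀ hx0 (congrArg Subtype.val e))) ⟨1, h1⟩
    rw [inv_eq_of_mul_eq_one_right (congrArg Subtype.val hy)]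
    exact y.2
  have hneg : ∀ x ∈ A, -x ∈ A := by
    intro x hx
    obtain ⟨y, hy⟩ := (Finite.injective_iff_surjective (α := A)
      (f := fun y => ⟨x + y, hadd x hx _ y.2⟩)).mp
      (fun a b e => Subtype.ext (add_left_cancel (congrArg Subtype.val e))) ⟨0, h0⟩
    rw [← eq_neg_of_add_eq_zero_right (congrArg Subtype.val hy)]
    exact y.2
  exact ⟨{ carrier := A
           mul_mem' := fun {a b} ha hb => hmul a ha b hb
           one_mem' := h1
           add_mem' := fun {a b} ha hb => hadd a ha b hb
           zero_mem' := h0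
           neg_mem' := fun {a} ha => hneg a ha
           inv_mem' := hinv }, rfl⟩

/-- The subfield generated by an element algebraic over the prime field is finite. -/
theorem finite_closure_of_root (p : ℕ) [Fact p.Prime] [CharP K p] {x : K}
    (h : ∃ P : Polynomial (ZMod p), P.Monic ∧ P.eval₂ (ZMod.castHom dvd_rfl K) x = 0) :
    Finite ↥(Subfield.closure ({x} : Set K)) := by
  let _ : Algebra (ZMod p) K := (ZMod.castHom dvd_rfl K).toAlgebra
  obtain ⟨P, hP, hx⟩ := h
  have hi : IsIntegral (ZMod p) x := ⟨P, hP, hx⟩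
  have := IntermediateField.adjoin.finiteDimensional hi
  have : Finite ↥(IntermediateField.adjoin (ZMod p) ({x} : Set K)) :=
    Module.finite_of_finite (ZMod p)
  have hle : (Subfield.closure ({x} : Set K) : Set K) ⊆
      (IntermediateField.adjoin (ZMod p) ({x} : Set K) : Set K) :=
    Subfield.closure_le (t := (IntermediateField.adjoin (ZMod p) ({x} : Set K)).toSubfield) |>.mpr
      (Set.singleton_subset_iff.mpr (IntermediateField.mem_adjoin_simple_self (ZMod p) x))
  have hfin : (IntermediateField.adjoin (ZMod p) ({x} : Set K) : Set K).Finite := Set.toFinite _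
  exact (hfin.subset hle).to_subtype

/-- A finite subfield with other than two elements has more than `0` and `1`. -/
theorem exists_ne_zero_one_of_card (R : Subfield K) [Finite R] (hR : Nat.card R ≠ 2) :
    ∃ f ∈ R, f ≠ 0 ∧ f ≠ 1 := by
  classical
  by_contra h
  push Not at h
  refine hR (le_antisymm ?_ ?_)
  · have h1 : Nat.card ↥R ≤ Nat.card Bool :=
      Nat.card_le_card_of_injective (fun x => decide ((x : K) = 0)) fun a b e => by
        simp only [decide_eq_decide] at e
        refine Subtype.ext ?_
        rcases eq_or_ne (a : K) 0 with ha | ha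
        · rw [ha, e.1 ha]
        · rw [h _ a.2 ha, h _ b.2 fun hb => ha (e.2 hb)]
    rwa [Nat.card_eq_fintype_card (α := Bool), Fintype.card_bool] at h1
  · exact Finite.one_lt_card

/-- In an algebraically closed field exactly `p ^ n` elements satisfy `x ^ (p ^ n) = x`. -/
theorem card_fixField_of_isAlgClosed [IsAlgClosed K] (p : ℕ) [Fact p.Prime] [CharP K p] {n : ℕ}
    (hn : n ≠ 0) {σ : K →+* K} (hσ : ∀ x, σ x = x ^ p ^ n) :
    Nat.card (fixField σ) = p ^ n := by
  classical
  have hp : 1 < p ^ n := Nat.one_lt_pow hn (Fact.out : p.Prime).one_lt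
  set f : Polynomial K := Polynomial.X ^ p ^ n - Polynomial.X
  have hf : f ≠ 0 := FiniteField.X_pow_card_sub_X_ne_zero K hp
  have hset : (fixField σ : Set K) = ↑f.roots.toFinset := by
    ext x
    rw [SetLike.mem_coe, mem_fixField, hσ, Finset.mem_coe, Multiset.mem_toFinset,
      Polynomial.mem_roots hf]
    simp [f, sub_eq_zero]
  rw [show Nat.card (fixField σ) = Nat.card ↥(fixField σ : Set K) from rfl, hset,
    Nat.card_coe_set_eq, Set.ncard_coe_finset,
    Multiset.toFinset_card_of_nodup (Polynomial.nodup_roots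
      (galois_poly_separable p (p ^ n) (dvd_pow_self p hn))),
    IsAlgClosed.card_roots_eq_natDegree, FiniteField.X_pow_card_sub_X_natDegree_eq K hp]

/-- `σ` is `x ↦ x ^ q` on a field with `q ^ r` elements, `q` a prime power, `r` a prime. -/
structure PowData (σ : K →+* K) (p q r : ℕ) : Prop where
  prime : p.Prime
  char : CharP K p
  q_eq : ∃ a, 1 ≤ a ∧ q = p ^ a
  r_prime : r.Prime
  card : Nat.card K = q ^ r
  σ_eq : ∀ x, σ x = x ^ q

namespace PowData

variable {σ : K →+* K} {p q r : ℕ} (P : PowData σ p q r)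
include P

theorem two_le_q : 2 ≤ q := by
  obtain ⟨a, ha, rfl⟩ := P.q_eq
  exact P.prime.two_le.trans (Nat.le_self_pow (by omega) p)

theorem finite : Finite K := by
  refine Nat.finite_of_card_ne_zero ?_
  rw [P.card]
  exact pow_ne_zero _ (by have := P.two_le_q; omega)

theorem card_fixField : Nat.card (fixField σ) = q := by
  classical
  have := P.finite
  have := Fintype.ofFinite K
  have h2 := P.two_le_q
  have hcyc : Fintype.card Kˣ = q ^ r - 1 := by
    rw [Fintype.card_units, ← Nat.card_eq_fintype_card, P.card]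
  have hdvd : q - 1 ∣ q ^ r - 1 := by simpa using Nat.sub_dvd_pow_sub_pow q 1 r
  obtain ⟨g, hg⟩ := IsCyclic.exists_generator (α := Kˣ)
  have hord : orderOf g = q ^ r - 1 := by
    rw [orderOf_eq_card_of_forall_mem_zpowers hg, Nat.card_eq_fintype_card, hcyc]
  obtain ⟨m, hm⟩ := hdvd
  have hpos : 0 < q ^ r - 1 := by
    have : q ≤ q ^ r := Nat.le_self_pow P.r_prime.ne_zero q
    omega
  have hm0 : m ≠ 0 := fun e => by rw [e, mul_zero] at hm; omega
  have hzord : orderOf (g ^ m) = q - 1 := by
    rw [orderOf_pow' _ hm0, hord, hm, Nat.gcd_eq_right (Dvd.intro_left _ rfl),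
      Nat.mul_div_cancel _ (Nat.pos_of_ne_zero hm0)]
  refine le_antisymm ?_ ?_
  · have hp : (Polynomial.X ^ q - Polynomial.X : Polynomial K) ≠ 0 :=
      FiniteField.X_pow_card_sub_X_ne_zero K (by omega)
    have hsub : (fixField σ : Set K).toFinset ⊆
        (Polynomial.X ^ q - Polynomial.X : Polynomial K).roots.toFinset := by
      intro x hx
      rw [Set.mem_toFinset, SetLike.mem_coe, mem_fixField, P.σ_eq] at hx
      rw [Multiset.mem_toFinset, Polynomial.mem_roots hp]
      simp [hx]
    have h1 := (Finset.card_le_card hsub).trans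
      ((Multiset.toFinset_card_le _).trans (Polynomial.card_roots' _))
    rw [FiniteField.X_pow_card_sub_X_natDegree_eq K (by omega : 1 < q)] at h1
    rw [Set.toFinset_card, ← Nat.card_eq_fintype_card] at h1
    exact h1
  · let f : Option ↥(Subgroup.zpowers (g ^ m)) → ↥(fixField σ) := fun o =>
      match o with
      | none => 0
      | some z => ⟨((z : Kˣ) : K), by
          obtain ⟨n, hn⟩ := z.2
          rw [mem_fixField, P.σ_eq]
          have h1 : (z : Kˣ) ^ (q - 1) = 1 := by
            rw [← hn]
            dsimp only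
            rw [← zpow_natCast, ← zpow_mul, mul_comm, zpow_mul, zpow_natCast, ← hzord,
              pow_orderOf_eq_one, one_zpow]
          conv_lhs => rw [show q = q - 1 + 1 by omega, pow_succ, ← Units.val_pow_eq_pow_val, h1,
            Units.val_one, one_mul]⟩
    have hf : Function.Injective f := by
      rintro (_ | a) (_ | b) h <;> simp only [f, Subtype.ext_iff] at h
      · rfl
      · exact absurd h.symm (Units.ne_zero _)
      · exact absurd h (Units.ne_zero _)
      · exact congrArg some (Subtype.ext (Units.ext h))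
    have := Nat.card_le_card_of_injective f hf
    rw [Finite.card_option, Nat.card_zpowers, hzord] at this
    omega

theorem exists_not_mem : ∃ t : K, t ∉ fixField σ := by
  by_contra h
  push Not at h
  have := P.finite
  have h2 := P.two_le_q
  have h1 : Nat.card K ≤ Nat.card (fixField σ) :=
    Nat.card_le_card_of_injective (fun x => (⟨x, h x⟩ : ↥(fixField σ)))
      fun a b e => congrArg Subtype.val e
  rw [P.card, P.card_fixField] at h1
  have h3 : q ^ 1 < q ^ r := Nat.pow_lt_pow_right (by omega) P.r_prime.one_lt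
  rw [pow_one] at h3
  omega

/-- A set closed under the ring operations, containing the fixed field and something else, is
everything. -/
theorem eq_univ {A : Set K} (hF : ∀ x ∈ fixField σ, x ∈ A) (hadd : ∀ x ∈ A, ∀ y ∈ A, x + y ∈ A)
    (hmul : ∀ x ∈ A, ∀ y ∈ A, x * y ∈ A) {t : K} (htA : t ∈ A) (ht : t ∉ fixField σ) :
    ∀ x, x ∈ A := by
  classical
  have := P.finite
  have := Fintype.ofFinite K
  have hneg : ∀ x ∈ A, -x ∈ A := fun x hx => by
    simpa using hmul _ (hF _ (neg_mem (one_mem _))) _ hx
  have hpow : ∀ x ∈ A, ∀ n : ℕ, x ^ n ∈ A := by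
    intro x hx n
    induction n with
    | zero => simpa using hF 1 (one_mem _)
    | succ n ih => rw [pow_succ]; exact hmul _ ih _ hx
  have hinv : ∀ x ∈ A, x⁻¹ ∈ A := by
    intro x hx
    rcases eq_or_ne x 0 with rfl | h0
    · simpa using hx
    · have h := FiniteField.pow_card_sub_one_eq_one x h0
      have h2 := Fintype.one_lt_card (α := K)
      rw [show Fintype.card K - 1 = (Fintype.card K - 2) + 1 by omega, pow_succ] at h
      rw [← eq_inv_of_mul_eq_one_left h]
      exact hpow x hx _
  let R : Subfield K :=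
    { carrier := A
      mul_mem' := fun ha hb => hmul _ ha _ hb
      one_mem' := hF 1 (one_mem _)
      add_mem' := fun ha hb => hadd _ ha _ hb
      zero_mem' := hF 0 (zero_mem _)
      neg_mem' := fun ha => hneg _ ha
      inv_mem' := hinv }
  have hle : fixField σ ≤ R := hF
  let _ := (Subfield.inclusion hle).toAlgebra
  have e1 := Module.natCard_eq_pow_finrank (K := ↥(fixField σ)) (V := ↥R)
  have e2 := Module.natCard_eq_pow_finrank (K := ↥R) (V := K)
  rw [P.card, e1, P.card_fixField, ← pow_mul] at e2
  have hr := Nat.pow_right_injective P.two_le_q e2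
  rcases P.r_prime.eq_one_or_self_of_dvd _ (Dvd.intro _ hr.symm) with h | h
  · exfalso
    have hbij : Function.Bijective (Subfield.inclusion hle) := by
      refine (Nat.bijective_iff_injective_and_card _).2 ⟨(Subfield.inclusion hle).injective, ?_⟩
      rw [e1, h, pow_one]
    obtain ⟨y, hy⟩ := hbij.2 ⟨t, htA⟩
    have hy' : (y : K) = t := congrArg Subtype.val hy
    exact ht (hy' ▸ y.2)
  · intro x
    have hc : Nat.card ↥R = Nat.card K := by rw [e1, h, P.card_fixField, P.card]
    have hbij : Function.Bijective (fun z : ↥R => (z : K)) :=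
      (Nat.bijective_iff_injective_and_card _).2 ⟨Subtype.val_injective, hc⟩
    obtain ⟨z, rfl⟩ := hbij.2 x
    exact z.2

theorem exists_ne_zero_one (hq : q ≠ 2) : ∃ f ∈ fixField σ, f ≠ 0 ∧ f ≠ 1 := by
  have := P.finite
  exact exists_ne_zero_one_of_card (fixField σ) (by rw [P.card_fixField]; exact hq)

theorem frob : FrobData σ p q :=
  ⟨P.prime, P.char, P.σ_eq, P.exists_ne_zero_one⟩

end PowData

end field

section groups

/-- Two involutions of a finite group are conjugate, or some involution commutes with both. -/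
theorem involution_alternative {G : Type*} [Group G] {x y : G} (hfin : IsOfFinOrder (x * y))
    (hx : x * x = 1) (hy : y * y = 1) :
    (∃ g ∈ Subgroup.closure {x, y}, g * x * g⁻¹ = y) ∨
      ∃ w ∈ Subgroup.closure {x, y}, w ≠ 1 ∧ Commute w x ∧ Commute w y := by
  have hx' : x⁻¹ = x := inv_eq_of_mul_eq_one_right hx
  have hy' : y⁻¹ = y := inv_eq_of_mul_eq_one_right hy
  have hmx : x ∈ Subgroup.closure {x, y} := Subgroup.subset_closure (by simp)
  have hmy : y ∈ Subgroup.closure {x, y} := Subgroup.subset_closure (by simp)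
  have hinv : ∀ k : ℕ, x * (x * y) ^ k * x = ((x * y) ^ k)⁻¹ := fun k => by
    have h1 : x * (x * y) * x⁻¹ = (x * y)⁻¹ := by
      rw [mul_inv_rev, hx', hy', ← mul_assoc x x, hx, one_mul]
    calc x * (x * y) ^ k * x = (x * (x * y) * x⁻¹) ^ k := by rw [conj_pow, hx']
      _ = _ := by rw [h1, inv_pow]
  rcases Nat.even_or_odd (orderOf (x * y)) with ⟨k, hk⟩ | ⟨k, hk⟩
  · refine Or.inr ⟨(x * y) ^ k, pow_mem (mul_mem hmx hmy) k, ?_, ?_, ?_⟩
    · have hpos := hfin.orderOf_pos
      exact pow_ne_one_of_lt_orderOf (by omega) (by omega)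
    all_goals
      have hw : ((x * y) ^ k)⁻¹ = (x * y) ^ k := by
        rw [inv_eq_iff_mul_eq_one, ← pow_add, ← hk, pow_orderOf_eq_one]
    · show _ = _
      have := hinv k
      rw [hw] at this
      calc (x * y) ^ k * x = x * (x * y) ^ k * x * x := by rw [this]
        _ = x * (x * y) ^ k := by rw [mul_assoc _ x x, hx, mul_one]
    · have hcx : Commute ((x * y) ^ k) x := by
        show _ = _
        have := hinv k
        rw [hw] at this
        calc (x * y) ^ k * x = x * (x * y) ^ k * x * x := by rw [this]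
          _ = x * (x * y) ^ k := by rw [mul_assoc _ x x, hx, mul_one]
      have e : y = x * (x * y) := by rw [← mul_assoc, hx, one_mul]
      have h2 := hcx.mul_right ((Commute.refl (x * y)).pow_left k)
      rwa [← e] at h2
  · refine Or.inl ⟨(x * y) ^ k, pow_mem (mul_mem hmx hmy) k, ?_⟩
    have h1 : ((x * y) ^ k)⁻¹ = x * (x * y) ^ k * x := (hinv k).symm
    have h2 : (x * y) ^ k * (x * y) ^ k = (x * y)⁻¹ := by
      rw [eq_inv_iff_mul_eq_one, ← pow_add, ← pow_succ, ← two_mul, ← hk, pow_orderOf_eq_one]
    calc (x * y) ^ k * x * ((x * y) ^ k)⁻¹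
        = (x * y) ^ k * x * (x * (x * y) ^ k * x) := by rw [h1]
      _ = (x * y) ^ k * (x * x) * (x * y) ^ k * x := by simp only [mul_assoc]
      _ = (x * y)⁻¹ * x := by rw [hx, mul_one, h2]
      _ = y := by rw [mul_inv_rev, hx', hy', mul_assoc, hx, mul_one]

variable {F : Type*} [Field F]

/-- `[[1, t], [0, 1]]`. -/
def transU (t : F) : SL(2, F) := ⟨!![1, t; 0, 1], by simp [Matrix.det_fin_two]⟩

/-- `[[1, 0], [t, 1]]`. -/
def transL (t : F) : SL(2, F) := ⟨!![1, 0; t, 1], by simp [Matrix.det_fin_two]⟩

theorem transU_val (t : F) : (transU t : Matrix (Fin 2) (Fin 2) F) = !![1, t; 0, 1] := rfl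

theorem transL_val (t : F) : (transL t : Matrix (Fin 2) (Fin 2) F) = !![1, 0; t, 1] := rfl

/-- `SL₂` is generated by the transvections. -/
theorem sl2_induction {P : SL(2, F) → Prop} (h1 : P 1) (hmul : ∀ g h, P g → P h → P (g * h))
    (hU : ∀ (g : SL(2, F)) (t : F), (g : Matrix (Fin 2) (Fin 2) F) = !![1, t; 0, 1] → P g)
    (hL : ∀ (g : SL(2, F)) (t : F), (g : Matrix (Fin 2) (Fin 2) F) = !![1, 0; t, 1] → P g)
    (g : SL(2, F)) : P g := by
  have hdet : ∀ g : SL(2, F), g.1 0 0 * g.1 1 1 - g.1 0 1 * g.1 1 0 = 1 := fun g => by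
    rw [← Matrix.det_fin_two]; exact g.2
  have key : ∀ g : SL(2, F), g.1 1 0 ≠ 0 → P g := by
    intro g hc
    rw [show g = transU ((g.1 0 0 - 1) / g.1 1 0) * transL (g.1 1 0) * transU ((g.1 1 1 - 1) / g.1 1 0) from ?_]
    · exact hmul _ _ (hmul _ _ (hU _ _ rfl) (hL _ _ rfl)) (hU _ _ rfl)
    apply Matrix.SpecialLinearGroup.ext
    intro i j
    fin_cases i <;> fin_cases j <;>
      simp [transU_val, transL_val, Matrix.SpecialLinearGroup.coe_mul, Matrix.mul_apply, Fin.sum_univ_two]
    · field_simp
      ring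
    · field_simp
      linear_combination -hdet g
    · field_simp
      ring
  by_cases hc : g.1 1 0 = 0
  · have hd : g.1 1 1 ≠ 0 := fun e => by
      have := hdet g
      rw [e, hc] at this
      simp at this
    rw [show g = g * transL 1 * transL (-1) from ?_]
    · refine hmul _ _ (key _ ?_) (hL _ _ rfl)
      simpa [transL_val, Matrix.SpecialLinearGroup.coe_mul, Matrix.mul_apply, Fin.sum_univ_two, hc] using hd
    rw [mul_assoc, show transL (1 : F) * transL (-1) = 1 from ?_, mul_one]
    apply Matrix.SpecialLinearGroup.ext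
    intro i j
    fin_cases i <;> fin_cases j <;> simp [transL_val, Matrix.SpecialLinearGroup.coe_mul, Matrix.mul_apply, Fin.sum_univ_two]
  · exact key g hc

end groups

end CfsgLib.ChevSubfield
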