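import Cfsg.Agent.ChevSubfield.Span
import Cfsg.Agent.ChevSubfield.Borel

/-!
If the entry at the lowest row and the highest root is in the subfield throughout an overgroup of
the subfield points, the overgroup consists of subfield points.
-/

set_option autoImplicit false

namespace CfsgLib.ChevSubfield

open Cfsg.Lie CfsgLib.Chevalley CfsgLib.ChevField
open scoped Matrix

variable {D : ChevalleyDatum} {S : Sys D} {e ℓ : ℕ}
variable {K : Type*} [Field K] {σ : K →+* K} {H : Subgroup (GL D.Idx K)}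

/-- The vectors all of whose images under `H` have a subfield coordinate at the lowest root. -/
def rowSet (σ : K →+* K) (H : Subgroup (GL D.Idx K)) : AddSubgroup (D.Idx → K) where
  carrier := {v | ∀ h ∈ H, σ (crd D ((h : Matrix D.Idx D.Idx K) *ᵥ v) 0) =
    crd D ((h : Matrix D.Idx D.Idx K) *ᵥ v) 0}
  add_mem' := fun {v w} hv hw h hh => by
    rw [Matrix.mulVec_add, crd_add, map_add, hv h hh, hw h hh]
  zero_mem' := fun h _ => by simp [crd_zero]
  neg_mem' := fun {v} hv h hh => by
    rw [Matrix.mulVec_neg, crd_neg, map_neg, hv h hh]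

/-- The vectors fixed by all `g⁻¹ σ(g)`. -/
def fixSet (σ : K →+* K) (H : Subgroup (GL D.Idx K)) : AddSubgroup (D.Idx → K) where
  carrier := {v | ∀ g ∈ H, ((g⁻¹ * gmap D σ g : GL D.Idx K) : Matrix D.Idx D.Idx K) *ᵥ v = v}
  add_mem' := fun {v w} hv hw g hg => by rw [Matrix.mulVec_add, hv g hg, hw g hg]
  zero_mem' := fun g _ => by simp
  neg_mem' := fun {v} hv g hg => by rw [Matrix.mulVec_neg, hv g hg]

variable (hfix : RootsIn S σ H)
variable (hHG : H ≤ D.group K)

include hfix hHG in
theorem fixed_of_entry (T : SubFacts S e ℓ) (hcor : chkCor D = true) (hsh : HasShort S K)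
    (hent : ∀ g ∈ H, σ (crd D ((g : Matrix D.Idx D.Idx K) *ᵥ evec D K (topIdx D)) 0) =
      crd D ((g : Matrix D.Idx D.Idx K) *ᵥ evec D K (topIdx D)) 0) :
    ∀ g ∈ H, gmap D σ g = g := by
  classical
  have hn := T.high.pos
  have hpm : ∀ r < D.nroots, S.xG K r 1 ∈ H ∧ S.xG K r (-1) ∈ H := fun r hr =>
    ⟨xG_fixed_mem (S := S) hfix hr (map_one σ),
      xG_fixed_mem (S := S) hfix hr (by rw [map_neg, map_one])⟩
  have hrowst : Stable S (rowSet σ H) := by
    refine ⟨fun r hr v hv h hh => ?_, fun r hr v hv h hh => ?_, fun h hh => hent h hh⟩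
    · have := hv (h * S.xG K r 1) (mul_mem hh (hpm r hr).1)
      rwa [Units.val_mul, ← Matrix.mulVec_mulVec, S.xG_val] at this
    · have := hv (h * S.xG K r (-1)) (mul_mem hh (hpm r hr).2)
      rwa [Units.val_mul, ← Matrix.mulVec_mulVec, S.xG_val] at this
  -- every entry of the lowest row
  have hrow0 : ∀ h ∈ H, ∀ col : D.Idx,
      σ ((h : Matrix D.Idx D.Idx K) (Sum.inr ⟨0, hn⟩) col) =
        (h : Matrix D.Idx D.Idx K) (Sum.inr ⟨0, hn⟩) col := by
    intro h hh col
    have hc : enc D col < D.rank + D.nroots := by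
      rcases col with i | i <;> simp only [enc] <;> omega
    have := hrowst.all_mem T hcor hsh hc h hh
    rw [bv_enc, Matrix.mulVec_single, crd, dif_pos hn] at this
    simpa using this
  -- every row in the orbit of the lowest one
  have hrows : ∀ (L : List (Fin D.rank)) (r : Fin D.nroots), S.wperm L r = ⟨0, hn⟩ →
      ∀ h ∈ H, ∀ col : D.Idx, σ ((h : Matrix D.Idx D.Idx K) (Sum.inr r) col) =
        (h : Matrix D.Idx D.Idx K) (Sum.inr r) col := by
    intro L r hr h hh col
    obtain ⟨c, hc, -, h2⟩ := S.wN_act K L r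
    obtain ⟨τ, hτ⟩ := S.exists_mono K (S.wN K L).2
    have hperm : τ = S.wperm L := by rw [← S.perm_wN K L]; exact (S.perm_eq K hτ).symm
    have hnr : ((S.wN K L : GL D.Idx K) : Matrix D.Idx D.Idx K) (Sum.inr ⟨0, hn⟩) (Sum.inr r) =
        c := by
      have := crd_mulVec_evec (u := 0) hn r.isLt
        ((S.wN K L : GL D.Idx K) : Matrix D.Idx D.Idx K)
      rw [h2, hr, crd_smul, crd_evec hn, if_pos rfl, mul_one] at this
      exact this.symm
    have hmul : ((((S.wN K L : GL D.Idx K) * h) : GL D.Idx K) : Matrix D.Idx D.Idx K)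
        (Sum.inr ⟨0, hn⟩) col = c * (h : Matrix D.Idx D.Idx K) (Sum.inr r) col := by
      rw [Units.val_mul, Matrix.mul_apply, Finset.sum_eq_single (Sum.inr r)]
      · rw [hnr]
      · intro m _ hm
        have h0 : ((S.wN K L : GL D.Idx K) : Matrix D.Idx D.Idx K) (Sum.inr ⟨0, hn⟩) m = 0 := by
          rcases m with j | u
          · exact hτ.2.2 _ _
          · by_contra hne
            have h3 := hτ.1 _ _ hne
            rw [hperm, ← hr] at h3
            exact hm (congrArg Sum.inr ((S.wperm L).injective h3.symm))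
        rw [h0, zero_mul]
      · intro hm; exact absurd (Finset.mem_univ _) hm
    have h4 := hrow0 _ (mul_mem (wN_mem (S := S) hfix L) hh) col
    rw [hmul] at h4
    rcases hc with rfl | rfl
    · simpa using h4
    · simpa using h4
  have hfixst : Stable S (fixSet σ H) := by
    have hstep : ∀ x : GL D.Idx K, gmap D σ x = x → x ∈ H → ∀ v ∈ fixSet σ H,
        (x : Matrix D.Idx D.Idx K) *ᵥ v ∈ fixSet σ H := by
      intro x hxσ hx v hv g hg
      have h1 := hv (g * x) (mul_mem hg hx)
      rw [map_mul, hxσ, show (g * x)⁻¹ * (gmap D σ g * x) = x⁻¹ * (g⁻¹ * gmap D σ g) * x by group,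
        Units.val_mul, Units.val_mul, ← Matrix.mulVec_mulVec, ← Matrix.mulVec_mulVec] at h1
      have h3 := congrArg (fun y => (x : Matrix D.Idx D.Idx K) *ᵥ y) h1
      simp only [Matrix.mulVec_mulVec, ← Units.val_mul, ← mul_assoc, mul_inv_cancel,
        one_mul] at h3 ⊢
      exact h3
    refine ⟨fun r hr v hv => ?_, fun r hr v hv => ?_, fun g hg => ?_⟩
    · rw [← S.xG_val]; exact hstep _ (by rw [gmap_xG S, map_one]) (hpm r hr).1 v hv
    · rw [← S.xG_val]
      exact hstep _ (by rw [gmap_xG S, map_neg, map_one]) (hpm r hr).2 v hv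
    set δ := g⁻¹ * gmap D σ g with hδ
    have hgG := hHG hg
    have hδG : δ ∈ D.group K := mul_mem (inv_mem hgG) (gmap_mem S σ hgG)
    have hcoord : ∀ (L : List (Fin D.rank)) (r : Fin D.nroots), S.wperm L r = ⟨0, hn⟩ →
        crd D ((δ : Matrix D.Idx D.Idx K) *ᵥ evec D K (topIdx D)) r =
          if (r : ℕ) = topIdx D then 1 else 0 := by
      intro L r hr
      have hrc : ∀ col : D.Idx, (δ : Matrix D.Idx D.Idx K) (Sum.inr r) col =
          (1 : Matrix D.Idx D.Idx K) (Sum.inr r) col := by
        intro col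
        have h1 : σ (((g⁻¹ * g : GL D.Idx K) : Matrix D.Idx D.Idx K) (Sum.inr r) col) =
            (δ : Matrix D.Idx D.Idx K) (Sum.inr r) col := by
          rw [hδ, Units.val_mul, Units.val_mul, Matrix.mul_apply, Matrix.mul_apply, map_sum]
          refine Finset.sum_congr rfl fun m _ => ?_
          rw [map_mul, hrows L r hr _ (inv_mem hg) m, gmap_val]
        rw [← h1, inv_mul_cancel, Units.val_one]
        by_cases he : Sum.inr r = col
        · rw [he, Matrix.one_apply_eq, map_one]
        · rw [Matrix.one_apply_ne he, map_zero]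
      rw [crd_mulVec r.isLt, Fin.eta, ← crd_evec (D := D) (F := K) r.isLt (topIdx D)]
      simp only [hrc]
      rw [crd, dif_pos r.isLt, Fin.eta]
      simp [Matrix.one_apply]
    obtain ⟨b, hb, n, u, hu, hbnu⟩ := S.normal_form_exists K hδG
    have huU : u ∈ D.posUnipotent K := uSub_le_posUnipotent K _ hu
    obtain ⟨c', hc', -, hvec⟩ := S.monomial_act K n ⟨topIdx D, T.high.lt⟩
    obtain ⟨v, hv, d, rfl⟩ := (S.mem_borel K).mp hb
    set k := S.perm K n ⟨topIdx D, T.high.lt⟩ with hk
    have hval : (δ : Matrix D.Idx D.Idx K) *ᵥ evec D K (topIdx D) =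
        (c' * (torusVal D d k : K)) • ((v : Matrix D.Idx D.Idx K) *ᵥ evec D K k) := by
      rw [hbnu]
      simp only [Units.val_mul, ← Matrix.mulVec_mulVec]
      rw [pos_fix_top T huU, hvec, Matrix.mulVec_smul, S.tor_evec K d k.isLt, smul_smul,
        Matrix.mulVec_smul]
    have hdiag : crd D ((v : Matrix D.Idx D.Idx K) *ᵥ evec D K k) k = 1 := by
      rw [crd_mulVec_evec k.isLt k.isLt, Fin.eta]
      by_contra hne
      have := (S.posUnipotent_le K hv).1 (Sum.inr k) (Sum.inr k) (by
        rw [Matrix.sub_apply, Matrix.one_apply_eq]; exact sub_ne_zero.mpr hne)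
      omega
    obtain ⟨L1, hL1⟩ := S.exists_wperm K n
    obtain ⟨L0, hL0⟩ := S.orbit_sound T.high.lt T.orbL hn T.lng_zero
    have hkO : S.wperm (L0 ++ L1.reverse) k = ⟨0, hn⟩ := by
      rw [S.wperm_append, S.wperm_reverse, Equiv.Perm.mul_apply, hk, hL1, Equiv.Perm.coe_inv,
        Equiv.symm_apply_apply, hL0]
    have hcd := hcoord _ k hkO
    rw [hval, crd_smul, hdiag, mul_one] at hcd
    have hktop : (k : ℕ) = topIdx D := by
      by_contra hne
      rw [if_neg hne] at hcd
      exact mul_ne_zero hc' (Units.ne_zero _) hcd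
    rw [if_pos hktop] at hcd
    show (δ : Matrix D.Idx D.Idx K) *ᵥ evec D K (topIdx D) = evec D K (topIdx D)
    rw [hval, hcd, one_smul, hktop, pos_fix_top T hv]
  intro g hg
  have h : g⁻¹ * gmap D σ g = 1 := by
    refine Units.ext (ext_bv D K fun c hc => ?_)
    rw [Units.val_one, Matrix.one_mulVec]
    exact hfixst.all_mem T hcor hsh hc g hg
  exact (inv_mul_eq_one.mp h).symm

end CfsgLib.ChevSubfield
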