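import Cfsg.Agent.ChevSubfield.Facts

/-!
The highest short root element in the types `F₄` and `G₂` in the exceptional characteristic.
-/

set_option autoImplicit false

namespace CfsgLib.ChevSubfield

open Cfsg.Lie CfsgLib.Chevalley CfsgLib.ChevField
open scoped Matrix

variable {D : ChevalleyDatum} {S : Sys D} {e ℓ : ℕ}
variable {K : Type*} [Field K] {σ : K →+* K} {H : Subgroup (GL D.Idx K)}
  (hfix : RootsIn S σ H)

include hfix in
/-- The part at the highest root of a central pair is in the subfield. -/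
theorem exc_split (T : SubFacts S e ℓ) {k : ℕ} (A : AdjFacts S k)
    (hke : D.reflectRoot k e = e) (hkt : D.reflectRoot k (topIdx D) = D.nroots - 2)
    (hne : e ≠ D.simple k ∧ e ≠ D.neg (D.simple k)) (hcom : D.commTerms (D.simple k) e = [])
    (htop : ∀ t, S.xG K (topIdx D) t ∈ H → σ t = t) {τ τ' : K}
    (h : S.xG K e τ * S.xG K (topIdx D) τ' ∈ H) :
    σ τ' = τ' ∧ S.xG K e τ ∈ H := by
  have hkl := S.wf.simple_lt k A.k_lt
  have hsl : D.nroots - 2 < D.nroots := by have := T.high.pos; omega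
  obtain ⟨N, hN, hc⟩ := A.comm_top
  set n := S.nG K (D.simple k) 1
  have hn : n ∈ H := nG_fixed_mem (S := S) hfix hkl (map_one σ)
  have hα : S.xG K (D.simple k) 1 ∈ H := xG_fixed_mem (S := S) hfix hkl (map_one σ)
  have hconj : ∀ a < D.nroots, ∀ t : K, n * S.xG K a t * n⁻¹ =
      S.xG K (D.reflectRoot k a) ((S.eta k a : K) * t) := fun a ha t => by
    rw [S.nG_conj_xG K A.k_lt ha, mul_inv_cancel_right]
  have h1 := mul_mem (mul_mem hn h) (inv_mem hn)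
  rw [show n * (S.xG K e τ * S.xG K (topIdx D) τ') * n⁻¹ =
    (n * S.xG K e τ * n⁻¹) * (n * S.xG K (topIdx D) τ' * n⁻¹) by group, hconj e T.e_lt,
    hconj _ T.high.lt, hke, hkt] at h1
  set a := (S.eta k e : K) * τ
  set b := (S.eta k (topIdx D) : K) * τ'
  have hce : (S.xG K (D.simple k) 1)⁻¹ * S.xG K e a * S.xG K (D.simple k) 1 = S.xG K e a := by
    rw [mul_assoc, ← (S.xG_commute K hkl T.e_lt hne.1 hne.2 hcom 1 a).eq, inv_mul_cancel_left]
  have h2 := mul_mem (inv_mem h1) (mul_mem (mul_mem (inv_mem hα) h1) hα)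
  rw [show (S.xG K (D.simple k) 1)⁻¹ * (S.xG K e a * S.xG K (D.nroots - 2) b) *
    S.xG K (D.simple k) 1 = ((S.xG K (D.simple k) 1)⁻¹ * S.xG K e a * S.xG K (D.simple k) 1) *
      ((S.xG K (D.simple k) 1)⁻¹ * S.xG K (D.nroots - 2) b * S.xG K (D.simple k) 1) by group,
    hce, S.comm_single K hkl hsl A.ne.1 A.ne.2 hc, ← mul_assoc (S.xG K e a),
    inv_mul_cancel_left] at h2
  have hb := htop _ h2
  have hτ' : σ τ' = τ' := by
    simp only [b] at hb
    rcases S.eta_sign k A.k_lt (topIdx D) T.high.lt with e1 | e1 <;>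
      rcases Int.natAbs_eq N with e2 | e2 <;> rw [hN] at e2 <;>
      simpa [e1, e2] using hb
  refine ⟨hτ', ?_⟩
  have h3 := mul_mem h (inv_mem (xG_fixed_mem (S := S) hfix T.high.lt hτ'))
  rwa [mul_inv_cancel_right] at h3

theorem F4_tables : chevF4.reflectRoot 3 44 = 44 ∧
    chevF4.reflectRoot 3 (topIdx chevF4) = chevF4.nroots - 2 ∧
    chevF4.commTerms (chevF4.simple 3) 44 = [] ∧ 44 ≠ chevF4.simple 3 ∧
    44 ≠ chevF4.neg (chevF4.simple 3) ∧ topIdx chevF4 = 47 ∧ chevF4.nroots = 48 ∧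
    chevF4.commTerms 29 41 = [(44, 1, 1, 1), (47, 1, 2, 1)] ∧ lng chevF4 29 = false ∧
    chevF4.neg 29 ≠ 41 := by
  decide +kernel

theorem subFacts_F4 : SubFacts sysF4 44 2 :=
  subFacts_of_chk sysF4 (highFacts_of_chk checkedF4 chkHigh_F4) chkSub_F4

theorem adjFacts_F4 : AdjFacts sysF4 3 := adjFacts_of_chk sysF4 chkAdj_F4

theorem F4_exc {H : Subgroup (GL chevF4.Idx K)}
    (hfix : RootsIn sysF4 σ H) {p q : ℕ}
    (P : FrobData σ p q) (hp : p = 2)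
    (htop : ∀ t, sysF4.xG K (topIdx chevF4) t ∈ H → σ t = t) {τ τ' : K}
    (h : sysF4.xG K 44 τ * sysF4.xG K (topIdx chevF4) τ' ∈ H) : σ τ = τ ∧ σ τ' = τ' := by
  obtain ⟨t1, t2, t3, t4, t5, ht, hn, hc, hl, hne⟩ := F4_tables
  obtain ⟨h1, h2⟩ := exc_split hfix subFacts_F4 adjFacts_F4 t1 t2 ⟨t4, t5⟩ t3 htop h
  refine ⟨?_, h1⟩
  have h29 : sysF4.xG K 29 τ ∈ H :=
    (sht_mem_iff subFacts_F4 hfix (s := 29) (by omega) hl τ).2 h2
  have h41 : sysF4.xG K 41 1 ∈ H := xG_fixed_mem (S := sysF4) hfix (by omega) (map_one σ)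
  have h3 := mul_mem (inv_mem h41) (mul_mem (mul_mem (inv_mem h29) h41) h29)
  rw [sysF4.comm_double K (by omega) (by omega) (by omega) (fun e => hne e.symm) hc,
    inv_mul_cancel_left] at h3
  simp only [Int.cast_one, neg_mul, one_mul, mul_one, one_pow, neg_sq] at h3
  have h4 := mul_mem h2 h3
  rw [← mul_assoc, sysF4.xG_add, add_neg_cancel, sysF4.xG_zero, one_mul] at h4
  subst hp
  refine P.mem_of_pow_mem (htop _ ?_)
  rw [ht]
  exact h4

theorem G2_tables : chevG2.reflectRoot 1 9 = 9 ∧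
    chevG2.reflectRoot 1 (topIdx chevG2) = chevG2.nroots - 2 ∧
    chevG2.commTerms (chevG2.simple 1) 9 = [] ∧ 9 ≠ chevG2.simple 1 ∧
    9 ≠ chevG2.neg (chevG2.simple 1) ∧ topIdx chevG2 = 11 ∧ chevG2.nroots = 12 ∧
    chevG2.commTerms 7 6 = [(8, -1, 1, 1), (9, 1, 2, 1), (10, 1, 3, 1), (11, 1, 3, 2)] ∧
    chevG2.commTerms 6 8 = [] ∧ chevG2.commTerms 6 9 = [] ∧
    chevG2.commTerms 6 10 = [(11, 1, 1, 1)] ∧ chevG2.commTerms 6 11 = [] ∧
    lng chevG2 7 = false ∧ chevG2.neg 6 = 5 ∧ chevG2.neg 7 = 4 := by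
  decide +kernel

theorem subFacts_G2 : SubFacts sysG2 9 3 :=
  subFacts_of_chk sysG2 (highFacts_of_chk checkedG2 chkHigh_G2) chkSub_G2

theorem adjFacts_G2 : AdjFacts sysG2 1 := adjFacts_of_chk sysG2 chkAdj_G2

theorem G2_exc {H : Subgroup (GL chevG2.Idx K)}
    (hfix : RootsIn sysG2 σ H) {p q : ℕ}
    (P : FrobData σ p q) (hp : p = 3)
    (htop : ∀ t, sysG2.xG K (topIdx chevG2) t ∈ H → σ t = t) {τ τ' : K}
    (h : sysG2.xG K 9 τ * sysG2.xG K (topIdx chevG2) τ' ∈ H) : σ τ = τ ∧ σ τ' = τ' := by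
  obtain ⟨t1, t2, t3, t4, t5, ht, hn, h76, h68, h69, h610, h611, hl, hn6, hn7⟩ := G2_tables
  obtain ⟨h1, h2⟩ := exc_split hfix subFacts_G2 adjFacts_G2 t1 t2 ⟨t4, t5⟩ t3 htop h
  refine ⟨?_, h1⟩
  have h7 : sysG2.xG K 7 τ ∈ H :=
    (sht_mem_iff subFacts_G2 hfix (s := 7) (by omega) hl τ).2 h2
  have h6 : sysG2.xG K 6 1 ∈ H := xG_fixed_mem (S := sysG2) hfix (by omega) (map_one σ)
  have hY := mul_mem (inv_mem h6) (mul_mem (mul_mem (inv_mem h7) h6) h7)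
  rw [sysG2.xG_comm K (by omega) (by omega) (by omega) (by omega), inv_mul_cancel_left,
    ChevalleyDatum.commWord, h76, Sys.wG] at hY
  simp only [List.map_cons, List.map_nil, List.prod_cons, List.prod_nil, mul_one] at hY
  generalize ((-1 : ℤ) : K) * (-τ) ^ 1 * 1 ^ 1 = c8 at hY
  generalize ((1 : ℤ) : K) * (-τ) ^ 2 * 1 ^ 1 = c9 at hY
  generalize hc10 : ((1 : ℤ) : K) * (-τ) ^ 3 * 1 ^ 1 = c10 at hY
  generalize ((1 : ℤ) : K) * (-τ) ^ 3 * 1 ^ 2 = c11 at hY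
  have hcc : ∀ j < chevG2.nroots, j ≠ 6 → j ≠ chevG2.neg 6 → chevG2.commTerms 6 j = [] →
      ∀ c : K, (sysG2.xG K 6 1)⁻¹ * sysG2.xG K j c * sysG2.xG K 6 1 = sysG2.xG K j c := by
    intro j hj e1 e2 he c
    rw [mul_assoc, ← (sysG2.xG_commute K (by omega) hj e1 e2 he 1 c).eq, inv_mul_cancel_left]
  set x6 := sysG2.xG K 6 1
  have h3 := mul_mem (inv_mem hY) (mul_mem (mul_mem (inv_mem h6) hY) h6)
  rw [show x6⁻¹ * (sysG2.xG K 8 c8 * (sysG2.xG K 9 c9 * (sysG2.xG K 10 c10 *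
      sysG2.xG K 11 c11))) * x6 = (x6⁻¹ * sysG2.xG K 8 c8 * x6) * ((x6⁻¹ * sysG2.xG K 9 c9 * x6) *
        ((x6⁻¹ * sysG2.xG K 10 c10 * x6) * (x6⁻¹ * sysG2.xG K 11 c11 * x6))) by group,
    hcc 8 (by omega) (by omega) (by omega) h68, hcc 9 (by omega) (by omega) (by omega) h69,
    hcc 11 (by omega) (by omega) (by omega) h611,
    sysG2.comm_single K (by omega) (by omega) (by omega) (by omega) h610] at h3
  have hc11 : Commute (sysG2.xG K 11 (-((1 : ℤ) : K) * 1 * c10)) (sysG2.xG K 11 c11) := by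
    show _ = _
    rw [sysG2.xG_add, sysG2.xG_add, add_comm]
  rw [mul_assoc (sysG2.xG K 10 c10), hc11.eq] at h3
  have h4 : sysG2.xG K 11 (-((1 : ℤ) : K) * 1 * c10) ∈ H := by
    convert h3 using 1
    group
  rw [← ht] at h4
  subst hp
  refine P.mem_of_pow_mem ?_
  have h5 := htop _ h4
  rw [← hc10] at h5
  show σ (τ ^ 3) = τ ^ 3
  push_cast at h5
  ring_nf at h5
  exact h5

end CfsgLib.ChevSubfield
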