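import Cfsg.Agent.ChevSubfield.Certificate
import Cfsg.Agent.ChevSubfield.Short

/-!
Type `G₂` in characteristic two: the entry at the lowest row and the highest root.
-/

set_option autoImplicit false

namespace CfsgLib.ChevSubfield

open Cfsg.Lie CfsgLib.Chevalley CfsgLib.ChevField
open scoped Matrix

/-- Insert a monomial, or remove it if present. -/
def toggleMon (m : ℕ × ℕ) (L : List (ℕ × ℕ)) : List (ℕ × ℕ) :=
  if m ∈ L then L.erase m else m :: L

/-- The monomials with odd coefficient at the coordinate of `e_u`. -/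
def oddMons (D : ChevalleyDatum) (v : List (ℕ × Mon)) (u : ℕ) : List (ℕ × ℕ) :=
  ((v.filter fun x => x.1 == D.rank + u).map fun x => x.2).foldr
    (fun x L => if x.1 % 2 == 1 then toggleMon x.2 L else L) []

theorem crd_vev_odd {D : ChevalleyDatum} {K : Type*} [Field K] [CharP K 2] {u : ℕ}
    (hu : u < D.nroots) (t s : K) (v : List (ℕ × Mon)) :
    crd D (vev D K t s v) u = ((oddMons D v u).map fun m => t ^ m.1 * s ^ m.2).sum := by
  rw [crd_vev hu, oddMons]
  induction v.filter fun x => x.1 == D.rank + u with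
  | nil => simp
  | cons x L ih =>
    rw [List.map_cons, List.sum_cons, ih, List.map_cons, List.foldr_cons]
    have h2 : ((2 : ℤ) : K) = 0 := by exact_mod_cast CharP.cast_eq_zero K 2
    have hz : (x.2.1 : K) = if x.2.1 % 2 == 1 then 1 else 0 := by
      conv_lhs => rw [← Int.emod_add_mul_ediv x.2.1 2, Int.cast_add, Int.cast_mul, h2, zero_mul,
        add_zero]
      rcases Int.emod_two_eq_zero_or_one x.2.1 with e | e <;> simp [e]
    rw [hz]
    by_cases h : x.2.1 % 2 == 1
    swap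
    · simp [h]
    simp only [h, if_true, one_mul]
    generalize (L.map fun x => x.2).foldr
      (fun x L => if x.1 % 2 == 1 then toggleMon x.2 L else L) [] = M
    unfold toggleMon
    by_cases hm : x.2.2 ∈ M
    · rw [if_pos hm, ← ((List.perm_cons_erase hm).map _).sum_eq.symm, List.map_cons, List.sum_cons,
        ← add_assoc, CharTwo.add_self_eq_zero, zero_add]
    · rw [if_neg hm, List.map_cons, List.sum_cons]

/-- The word `x_{-top}(t)`, and `x_{-top}(t) x_b(1) x_top(s) x_{-top}(t)`. -/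
def g2W : Option ℕ → List (ℕ × List Mon)
  | none => [(0, [(1, 1, 0)])]
  | some b => [(0, [(1, 1, 0)]), (b, [(1, 0, 0)]), (11, [(1, 0, 1)]), (0, [(1, 1, 0)])]

/-- The two lowest coordinates of the highest root column of such a word. -/
def g2Val (o : Option ℕ) : List (ℕ × ℕ) × List (ℕ × ℕ) :=
  let v := evalCol chevG2 (g2W o) (2 + 11)
  (oddMons chevG2 v 0, oddMons chevG2 v 1)

theorem G2_two_tables : chevG2.nroots = 12 ∧ chevG2.rank = 2 ∧ topIdx chevG2 = 11 ∧
    chevG2.simple 0 = 7 ∧ chevG2.commTerms 7 0 = [] ∧ chevG2.neg 7 = 4 ∧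
    (([6, 8].all fun b => (List.range 12).all fun r => decide (r < 6) || r == 7 || r == b ||
      (chevG2.commTerms r b).all fun c => c.1 == 11) = true) ∧
    g2Val none = ([(2, 0)], []) ∧
    g2Val (some 8) = ([(4, 2)], [(3, 0)]) ∧
    g2Val (some 6) = ([(4, 2)], [(3, 1)]) := by
  repeat' apply And.intro
  all_goals decide +kernel

variable {K : Type*} [Field K]

/-- The conjugate of `x_b(1)` by the part of `U` off the short simple root. -/
theorem G2_shift {b : ℕ} (hb : b ∈ [6, 8]) {u : GL chevG2.Idx K}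
    (hu : u ∈ uSub chevG2 K (sysG2.others 0)) :
    ∃ a : K, u * sysG2.xG K b 1 * u⁻¹ = sysG2.xG K b 1 * sysG2.xG K 11 a := by
  obtain ⟨hn, -, htop, hs7, -, -, hT, -⟩ := G2_two_tables
  simp only [List.all_eq_true, List.mem_range, Bool.or_eq_true, decide_eq_true_eq,
    beq_iff_eq] at hT
  have hb' : 6 ≤ b ∧ b < 12 := by
    simp only [List.mem_cons, List.not_mem_nil, or_false] at hb
    omega
  have h11 : ∀ g ∈ chevG2.posUnipotent K, ∀ t, g * sysG2.xG K 11 t * g⁻¹ = sysG2.xG K 11 t := by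
    intro g hg t
    have := sysG2.top_commute_pos K subFacts_G2.high hg t
    rw [htop] at this
    rw [← this.eq, mul_inv_cancel_right]
  induction hu using Subgroup.closure_induction with
  | mem x hx =>
    obtain ⟨r, t, ⟨hr, hrp⟩, hx⟩ := hx
    obtain ⟨h1, h2⟩ := (sysG2.pos_iff r).mp hrp
    rw [sysG2.eq_xG K hx]
    by_cases hrb : r = b
    · refine ⟨0, ?_⟩
      rw [hrb, Sys.xG_zero, mul_one, Sys.xG_inv, Sys.xG_add, Sys.xG_add]
      congr 1
      ring
    rcases hT b hb r (by omega) with ((h | h) | h) | h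
    · omega
    · exact absurd (h.trans hs7.symm) hr
    · exact absurd h hrb
    · have hcomm := sysG2.xG_comm K (r := r) (s := b) h2 (by omega) (Ne.symm hrb)
        (fun e => by
          have := (sysG2.neg_half r h2).mpr h1
          omega) (-t) 1
      rw [← Sys.xG_inv, inv_inv] at hcomm
      obtain ⟨a, ha⟩ : ∃ a, sysG2.wG K (chevG2.commWord K r b (-t) 1) = sysG2.xG K 11 a := by
        rw [ChevalleyDatum.commWord, Sys.wG]
        clear hcomm
        generalize chevG2.commTerms r b = L at h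
        induction L with
        | nil => exact ⟨0, by simp [Sys.xG_zero]⟩
        | cons c L ih =>
          obtain ⟨a, ha⟩ := ih fun c hc => h c (List.mem_cons_of_mem _ hc)
          simp only [List.map_cons, List.prod_cons] at ha ⊢
          rw [ha, h c List.mem_cons_self, Sys.xG_add]
          exact ⟨_, rfl⟩
      exact ⟨a, by rw [hcomm, ha]⟩
  | one => exact ⟨0, by simp [Sys.xG_zero]⟩
  | mul x y hx hy ihx ihy =>
    obtain ⟨a, ha⟩ := ihx
    obtain ⟨a', ha'⟩ := ihy
    refine ⟨a + a', ?_⟩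
    calc x * y * sysG2.xG K b 1 * (x * y)⁻¹ = x * (y * sysG2.xG K b 1 * y⁻¹) * x⁻¹ := by group
      _ = (x * sysG2.xG K b 1 * x⁻¹) * (x * sysG2.xG K 11 a' * x⁻¹) := by rw [ha']; group
      _ = _ := by rw [ha, h11 x (uSub_le_posUnipotent K _ hx), mul_assoc, Sys.xG_add]
  | inv x hx ihx =>
    obtain ⟨a, ha⟩ := ihx
    refine ⟨-a, ?_⟩
    have hxU := inv_mem (uSub_le_posUnipotent K _ hx)
    calc x⁻¹ * sysG2.xG K b 1 * x⁻¹⁻¹
        = x⁻¹ * (x * sysG2.xG K b 1 * x⁻¹ * (sysG2.xG K 11 a)⁻¹) * x⁻¹⁻¹ := by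
          rw [ha, mul_inv_cancel_right]
      _ = sysG2.xG K b 1 * (x⁻¹ * sysG2.xG K 11 a * x⁻¹⁻¹)⁻¹ := by group
      _ = _ := by rw [h11 x⁻¹ hxU, Sys.xG_inv]

variable [CharP K 2] {σ : K →+* K} {H : Subgroup (GL chevG2.Idx K)}
  (hfix : RootsIn sysG2 σ H)
  (hUni : ∀ g ∈ H, g ∈ chevG2.posUnipotent K → gmap chevG2 σ g = g)
variable {q : ℕ}

omit [CharP K 2] in
theorem g2W_lt {o : Option ℕ} (ho : o ∈ [none, some 8, some 6]) :
    ∀ x ∈ g2W o, x.1 < chevG2.nroots := by
  intro x hx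
  rw [G2_two_tables.1]
  simp only [List.mem_cons, List.not_mem_nil, or_false] at ho
  rcases ho with rfl | rfl | rfl <;> simp [g2W] at hx <;> aesop

include hfix hUni in
/-- The two lowest coordinates of a word conjugated into `H`. -/
theorem G2_key [Finite H] (P : FrobData σ 2 q) (W : TwoFacts sysG2 1) (hq : q = 2)
    {u : GL chevG2.Idx K} (huU : u ∈ chevG2.posUnipotent K) {c a : K} {o : Option ℕ}
    (ho : o ∈ [none, some 8, some 6])
    (hW : u * sysG2.wG K ((g2W o).map fun x => (x.1, pev K c a x.2)) * u⁻¹ ∈ H) :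
    ((g2Val o).1.map fun m => c ^ m.1 * a ^ m.2).sum = 0 ∨
      ((g2Val o).1.map fun m => c ^ m.1 * a ^ m.2).sum = 1 ∨ ∃ d', d' ^ 2 + d' = 1 ∧
      ((g2Val o).2.map fun m => c ^ m.1 * a ^ m.2).sum +
        crd chevG2 ((u : Matrix chevG2.Idx chevG2.Idx K) *ᵥ evec chevG2 K 0) 1 *
          ((g2Val o).1.map fun m => c ^ m.1 * a ^ m.2).sum =
        ((g2Val o).1.map fun m => c ^ m.1 * a ^ m.2).sum * d' := by
  obtain ⟨hn, hrk, htop, -⟩ := G2_two_tables
  set δ := crd chevG2 ((u : Matrix chevG2.Idx chevG2.Idx K) *ᵥ evec chevG2 K 0) 1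
  have hlt := g2W_lt ho
  set w := sysG2.wG K ((g2W o).map fun x => (x.1, pev K c a x.2))
  have hev := vev_evalCol (F := K) sysG2.wf c a _ hlt (2 + 11)
  rw [← sysG2.wG_val] at hev
  have hcol : ∀ i, i < chevG2.nroots → crd chevG2
      ((w : Matrix chevG2.Idx chevG2.Idx K) *ᵥ evec chevG2 K (topIdx chevG2)) i =
      ((oddMons chevG2 (evalCol chevG2 (g2W o) (2 + 11)) i).map
        fun m => c ^ m.1 * a ^ m.2).sum := by
    intro i hi
    have e : chevG2.rank + topIdx chevG2 = 2 + 11 := by omega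
    rw [evec, e, hev, crd_vev_odd hi]
  have hfixu : ((u⁻¹ : GL chevG2.Idx K) : Matrix chevG2.Idx chevG2.Idx K) *ᵥ
      evec chevG2 K (topIdx chevG2) = evec chevG2 K (topIdx chevG2) :=
    pos_fix_top (S := sysG2) subFacts_G2 (inv_mem huU)
  have e0 : ent chevG2 (u * w * u⁻¹) 0 = ((g2Val o).1.map fun m => c ^ m.1 * a ^ m.2).sum := by
    rw [ent, Units.val_mul, Units.val_mul, ← Matrix.mulVec_mulVec, hfixu, ← Matrix.mulVec_mulVec,
      sysG2.pos_unipotent_row_zero K huU (by omega), hcol 0 (by omega)]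
    rfl
  have e1 : ent chevG2 (u * w * u⁻¹) 1 = ((g2Val o).2.map fun m => c ^ m.1 * a ^ m.2).sum +
      δ * ((g2Val o).1.map fun m => c ^ m.1 * a ^ m.2).sum := by
    rw [ent, Units.val_mul, Units.val_mul, ← Matrix.mulVec_mulVec, hfixu, ← Matrix.mulVec_mulVec,
      sysG2.pos_unipotent_row_one K huU (by omega), hcol 0 (by omega), hcol 1 (by omega)]
    rfl
  rw [← e1, ← e0]
  by_cases hf : σ (ent chevG2 (u * w * u⁻¹) 0) = ent chevG2 (u * w * u⁻¹) 0
  · rcases P.zero_or_one hq hf with h | h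
    · exact Or.inl h
    · exact Or.inr (Or.inl h)
  · have hwG : w ∈ chevG2.group K := sysG2.wG_mem K fun x hx => by
      obtain ⟨y, hy, rfl⟩ := List.mem_map.mp hx
      exact hlt y hy
    obtain ⟨-, d', hd, he⟩ := ent_two hfix hUni subFacts_G2 adjFacts_G2 W P hW
      (mul_mem (mul_mem (sysG2.posUnipotent_le_group K huU) hwG)
        (inv_mem (sysG2.posUnipotent_le_group K huU))) hf
    exact Or.inr (Or.inr ⟨d', hd, he⟩)

include hfix in
/-- The conjugated words of the ratio roots. -/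
theorem G2_mem {u : GL chevG2.Idx K} (hu : u ∈ uSub chevG2 K (sysG2.others 0)) {c : K}
    (hY : u * sysG2.xG K 0 c * u⁻¹ ∈ H) {b : ℕ} (hb : b ∈ [6, 8]) :
    ∃ a : K, ∀ ε : K, σ ε = ε →
      u * sysG2.wG K ((g2W (some b)).map fun x => (x.1, pev K c (a + ε) x.2)) * u⁻¹ ∈ H := by
  obtain ⟨hn, hrk, htop, -⟩ := G2_two_tables
  have huU : u ∈ chevG2.posUnipotent K := uSub_le_posUnipotent K _ hu
  have h20 : (2 : K) = 0 := CharP.cast_eq_zero K 2
  have hp1 : ∀ a, pev K c a [((1 : ℤ), 1, 0)] = c := fun a => by simp [pev]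
  have hp2 : ∀ a, pev K c a [((1 : ℤ), 0, 1)] = a := fun a => by simp [pev]
  have hp0 : ∀ a, pev K c a [((1 : ℤ), 0, 0)] = 1 := fun a => by simp [pev]
  set Y := u * sysG2.xG K 0 c * u⁻¹
  obtain ⟨a, ha⟩ := G2_shift hb hu
  refine ⟨a, fun ε hε => ?_⟩
  have hb' : b < chevG2.nroots := by
    simp only [List.mem_cons, List.not_mem_nil, or_false] at hb
    omega
  have h11 : u * sysG2.xG K 11 (a + ε) * u⁻¹ = sysG2.xG K 11 (a + ε) := by
    have := sysG2.top_commute_pos K subFacts_G2.high huU (a + ε)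
    rw [htop] at this
    rw [← this.eq, mul_inv_cancel_right]
  simp only [g2W, List.map_cons, List.map_nil, Sys.wG, List.prod_cons, List.prod_nil, mul_one,
    hp1, hp2, hp0]
  rw [show u * (sysG2.xG K 0 c * (sysG2.xG K b 1 * (sysG2.xG K 11 (a + ε) * sysG2.xG K 0 c))) *
    u⁻¹ = Y * ((u * sysG2.xG K b 1 * u⁻¹) * (u * sysG2.xG K 11 (a + ε) * u⁻¹)) * Y by
      simp only [Y]; group, ha, h11, mul_assoc (sysG2.xG K b 1), Sys.xG_add,
    show a + (a + ε) = ε by linear_combination a * h20]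
  exact mul_mem (mul_mem hY (mul_mem (xG_fixed_mem (S := sysG2) hfix hb' (map_one σ))
    (xG_fixed_mem (S := sysG2) hfix (by omega) hε))) hY

omit [CharP K 2] in
/-- Two values with a given nonzero sum. -/
theorem pair_sum (h20 : (2 : K) = 0) {w X Z S : K} (hs : X + Z = S) (hS : S ≠ 0)
    (hX : X = 0 ∨ X = 1 ∨ X = w) (hZ : Z = 0 ∨ Z = 1 ∨ Z = w) :
    S = 1 ∨ S = w ∨ S = 1 + w := by
  have hd : ∀ x : K, x + x = 0 := fun x => by linear_combination x * h20
  rw [← hs] at hS ⊢
  rcases hX with rfl | rfl | rfl <;> rcases hZ with rfl | rfl | rfl <;>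
    simp_all [add_comm]

include hfix hUni in
theorem G2_ent_fixed [Finite H] (P : FrobData σ 2 q) (W : TwoFacts sysG2 1)
    {g : GL chevG2.Idx K} (hgH : g ∈ H) (hgG : g ∈ chevG2.group K) :
    σ (ent chevG2 g 0) = ent chevG2 g 0 := by
  classical
  by_contra hc
  obtain ⟨hn, hrk, htop, hs7, h70, n7, -, v0, v8, v6⟩ := G2_two_tables
  obtain ⟨hq, -⟩ := ent_two hfix hUni subFacts_G2 adjFacts_G2 W P hgH hgG hc
  set c := ent chevG2 g 0 with hcdef
  have hc0 : c ≠ 0 := fun h => hc (by rw [h, map_zero])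
  have hc1 : c ≠ 1 := fun h => hc (by rw [h, map_one])
  have h20 : (2 : K) = 0 := CharP.cast_eq_zero K 2
  obtain ⟨v, hv, hconj, -⟩ := corner_form subFacts_G2 hgG hc0
  obtain ⟨u, hu, va, hv'⟩ := sysG2.posUnipotent_split K (i := 0) (by omega) hv
  have huU : u ∈ chevG2.posUnipotent K := uSub_le_posUnipotent K _ hu
  set Y := u * sysG2.xG K 0 c * u⁻¹
  have hY : Y ∈ H := by
    have h1 : g * sysG2.xG K (topIdx chevG2) 1 * g⁻¹ = Y := by
      rw [hconj 1, mul_one, hv', hs7, mul_inv_rev]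
      have hc7 : Commute (sysG2.xG K 7 va) (sysG2.xG K 0 c) :=
        sysG2.xG_commute K (by omega) (by omega) (by omega) (by omega) h70 va c
      calc u * sysG2.xG K 7 va * sysG2.xG K 0 c * ((sysG2.xG K 7 va)⁻¹ * u⁻¹)
          = u * (sysG2.xG K 7 va * sysG2.xG K 0 c * (sysG2.xG K 7 va)⁻¹) * u⁻¹ := by group
        _ = Y := by rw [hc7.eq, mul_inv_cancel_right]
    rw [← h1]
    exact mul_mem (mul_mem hgH (xG_fixed_mem (S := sysG2) hfix subFacts_G2.high.lt
      (map_one σ))) (inv_mem hgH)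
  set δ := crd chevG2 ((u : Matrix chevG2.Idx chevG2.Idx K) *ᵥ evec chevG2 K 0) 1
  have key := fun (o : Option ℕ) (a : K) (ho : o ∈ [none, some 8, some 6]) hW =>
    G2_key (c := c) (a := a) hfix hUni P W hq huU (o := o) ho hW
  have hp1 : ∀ a, pev K c a [((1 : ℤ), 1, 0)] = c := fun a => by simp [pev]
  have hp2 : ∀ a, pev K c a [((1 : ℤ), 0, 1)] = a := fun a => by simp [pev]
  have hp0 : ∀ a, pev K c a [((1 : ℤ), 0, 0)] = 1 := fun a => by simp [pev]
  have hδ : δ ^ 2 + δ = 1 := by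
    have hc2 : c ^ 2 ≠ 1 := fun h => hc1 (CharTwo.add_eq_zero.mp
      (pow_eq_zero_iff (two_ne_zero) |>.mp (show (c + 1) ^ 2 = 0 by
        linear_combination h + (c + 1) * h20)))
    have h := key none 0 (by simp) (by
      simp only [g2W, List.map_cons, List.map_nil, Sys.wG, List.prod_cons, List.prod_nil,
        mul_one, hp1]
      exact hY)
    rw [v0] at h
    simp only [List.map_cons, List.map_nil, List.sum_cons, List.sum_nil, add_zero, pow_zero,
      mul_one, zero_add] at h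
    rcases h with h | h | ⟨d', hd, he⟩
    · exact absurd h (pow_ne_zero 2 hc0)
    · exact absurd h hc2
    · rw [mul_comm δ] at he
      rwa [← mul_left_cancel₀ (pow_ne_zero 2 hc0) he] at hd
  have hmem := fun b hb => G2_mem hfix hu hY (b := b) hb
  have hdiff : ∀ z0 z1 d' : K, d' ^ 2 + d' = 1 → z1 + δ * z0 = z0 * d' → z1 = 0 ∨ z1 = z0 := by
    intro z0 z1 d' hd he
    have e : z1 = z0 * (d' + δ) := by linear_combination he - δ * z0 * h20
    have : (d' + δ) * (d' + δ + 1) = 0 := by linear_combination hd + hδ + (d' * δ + 1) * h20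
    rcases mul_eq_zero.mp this with h | h
    · exact Or.inl (by rw [e, h, mul_zero])
    · exact Or.inr (by rw [e, CharTwo.add_eq_zero.mp h, mul_one])
  have hpair := fun w X Z (hs : X + Z = c ^ 4) =>
    pair_sum (w := w) h20 hs (pow_ne_zero 4 hc0)
  have hc41 : c ^ 4 ≠ 1 := fun h => hc1 (CharTwo.add_eq_zero.mp
    (pow_eq_zero_iff (by norm_num) |>.mp (show (c + 1) ^ 4 = 0 by
      linear_combination h + (2 * c ^ 3 + 3 * c ^ 2 + 2 * c + 1) * h20)))
  obtain ⟨a, hma⟩ := hmem 8 (by simp)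
  obtain ⟨e, hme⟩ := hmem 6 (by simp)
  have hA : c ^ 4 = 1 + c ^ 3 := by
    have hP : ∀ ε, σ ε = ε → (c ^ 4 * (a + ε) ^ 2 = 0 ∨ c ^ 4 * (a + ε) ^ 2 = 1 ∨
        c ^ 4 * (a + ε) ^ 2 = c ^ 3) := by
      intro ε hε
      have h := key (some 8) (a + ε) (by simp) (hma ε hε)
      rw [v8] at h
      simp only [List.map_cons, List.map_nil, List.sum_cons, List.sum_nil, add_zero, pow_zero,
        mul_one] at h
      rcases h with h | h | ⟨d', hd, he⟩
      · exact Or.inl h
      · exact Or.inr (Or.inl h)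
      · rcases hdiff _ _ d' hd he with h | h
        · exact absurd h (pow_ne_zero 3 hc0)
        · exact Or.inr (Or.inr h.symm)
    rcases hpair (c ^ 3) _ _ (by linear_combination c ^ 4 * (a ^ 2 + a) * h20)
      (hP 0 (map_zero σ)) (hP 1 (map_one σ)) with h | h | h
    · exact absurd h hc41
    · exact absurd (mul_left_cancel₀ (pow_ne_zero 3 hc0)
        (show c ^ 3 * c = c ^ 3 * 1 by linear_combination h)) hc1
    · exact h
  have hB : c ^ 4 = 1 + c ^ 2 := by
    have hP : ∀ ε, σ ε = ε → (c ^ 4 * (e + ε) ^ 2 = 0 ∨ c ^ 4 * (e + ε) ^ 2 = 1 ∨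
        c ^ 4 * (e + ε) ^ 2 = c ^ 2) := by
      intro ε hε
      have h := key (some 6) (e + ε) (by simp) (hme ε hε)
      rw [v6] at h
      simp only [List.map_cons, List.map_nil, List.sum_cons, List.sum_nil, add_zero, pow_one] at h
      rcases h with h | h | ⟨d', hd, he⟩
      · exact Or.inl h
      · exact Or.inr (Or.inl h)
      · rcases eq_or_ne (e + ε) 0 with h0 | h0
        · exact Or.inl (by rw [h0]; ring)
        · rcases hdiff _ _ d' hd he with h | h
          · exact absurd h (mul_ne_zero (pow_ne_zero 3 hc0) h0)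
          · have h1 : c * (e + ε) = 1 :=
              (mul_left_cancel₀ (mul_ne_zero (pow_ne_zero 3 hc0) h0)
                (show c ^ 3 * (e + ε) * 1 = c ^ 3 * (e + ε) * (c * (e + ε)) by
                  linear_combination h)).symm
            exact Or.inr (Or.inr (by linear_combination c ^ 2 * (c * (e + ε) + 1) * h1))
    rcases hpair (c ^ 2) _ _ (by linear_combination c ^ 4 * (e ^ 2 + e) * h20)
      (hP 0 (map_zero σ)) (hP 1 (map_one σ)) with h | h | h
    · exact absurd h hc41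
    · exfalso
      refine hc1 (CharTwo.add_eq_zero.mp (pow_eq_zero_iff (two_ne_zero) |>.mp
        (mul_left_cancel₀ (pow_ne_zero 2 hc0) ?_)))
      show c ^ 2 * (c + 1) ^ 2 = c ^ 2 * 0
      linear_combination h + c ^ 2 * (c + 1) * h20
    · exact h
  exact hc1 (mul_left_cancel₀ (pow_ne_zero 2 hc0)
    (show c ^ 2 * c = c ^ 2 * 1 by linear_combination hB - hA))

end CfsgLib.ChevSubfield
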