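import Cfsg.Agent.ChevSubfield.Uni

/-!
An overgroup of the subfield points containing a highest root element with parameter outside the
subfield is the whole group.
-/

set_option autoImplicit false

namespace CfsgLib.Chevalley.Sys

open Cfsg.Lie CfsgLib.ChevSubfield
open scoped Matrix

variable {D : ChevalleyDatum} (S : Sys D) (F : Type*) [Field F]
include S

/-- Conjugation by `h_r(a)`. -/
theorem hRoot_conj {r s : ℕ} (hr : r < D.nroots) (hs : s < D.nroots) (a : Fˣ) (t : F) :
    (S.nG F r (a : F) * S.nG F r (-1)) * S.xG F s t * (S.nG F r (a : F) * S.nG F r (-1))⁻¹ =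
      S.xG F s ((a : F) ^ D.pairing r s * t) := by
  have h1 := S.hMat_tor F hr a
  set c : ℕ → Fˣ := fun j => a ^ (D.coroot.getD r #[]).getD j 0
  have e : S.nG F r (a : F) * S.nG F r (-1) = tor D F c := by
    apply Units.ext
    rw [Units.val_mul, S.nG_val, S.nG_val, ← S.hMat_eq, h1]
  have hval : (torusVal D c s : F) = (a : F) ^ D.pairing r s := by
    rw [S.tor_val, S.hMat_root F hr a.ne_zero] at h1
    exact (dg_inj h1 hs).symm
  rw [e, S.tor_conj F c hs, hval]

theorem comm_single {r s k : ℕ} {N : ℤ} (hr : r < D.nroots) (hs : s < D.nroots) (h1 : s ≠ r)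
    (h2 : s ≠ D.neg r) (h : D.commTerms r s = [(k, N, 1, 1)]) (t u : F) :
    (S.xG F r t)⁻¹ * S.xG F s u * S.xG F r t = S.xG F s u * S.xG F k (-(N : F) * t * u) := by
  rw [S.xG_comm F hr hs h1 h2, ChevalleyDatum.commWord, h, Sys.wG]
  simp

theorem comm_double {r s k k' : ℕ} {N N' : ℤ} {i j : ℕ} (hr : r < D.nroots) (hs : s < D.nroots)
    (h1 : s ≠ r) (h2 : s ≠ D.neg r) (h : D.commTerms r s = [(k, N, 1, 1), (k', N', i, j)])
    (t u : F) :
    (S.xG F r t)⁻¹ * S.xG F s u * S.xG F r t = S.xG F s u *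
      (S.xG F k (-(N : F) * t * u) * S.xG F k' ((N' : F) * (-t) ^ i * u ^ j)) := by
  rw [S.xG_comm F hr hs h1 h2, ChevalleyDatum.commWord, h, Sys.wG]
  simp

end CfsgLib.Chevalley.Sys

namespace CfsgLib.ChevSubfield

open Cfsg.Lie CfsgLib.Chevalley CfsgLib.ChevField
open scoped Matrix

variable {D : ChevalleyDatum}

/-- The facts on the roots next to the highest root in the simply laced like cases. -/
structure AdjFacts (S : Sys D) (k : ℕ) : Prop where
  k_lt : k < D.rank
  lng_simple : lng D (D.simple k) = true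
  lng_snd : lng D (D.nroots - 2) = true
  comm_top : ∃ N : ℤ, N.natAbs = 1 ∧
    D.commTerms (D.simple k) (D.nroots - 2) = [(topIdx D, N, 1, 1)]
  ne : D.nroots - 2 ≠ D.simple k ∧ D.nroots - 2 ≠ D.neg (D.simple k)

variable {S : Sys D} {e ℓ : ℕ} (T : SubFacts S e ℓ)
variable {K : Type*} [Field K] {σ : K →+* K} {H : Subgroup (GL D.Idx K)}
  (hfix : RootsIn S σ H)

/-- The parameters of a root subgroup inside a finite group are finite in number. -/
theorem paramSet_finite [Finite H] {r : ℕ} (hr : r < D.nroots) :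
    {t : K | S.xG K r t ∈ H}.Finite := by
  refine Set.Finite.of_injOn (f := fun t => S.xG K r t) (t := (H : Set (GL D.Idx K)))
    (fun t ht => ht) (fun a _ b _ e => CfsgLib.ChevField.xG_inj S hr e) ?_
  exact Set.toFinite _

include hfix in
theorem xG_fixed_mem {r : ℕ} (hr : r < D.nroots) {t : K} (ht : σ t = t) : S.xG K r t ∈ H :=
  hfix r hr t ht

include hfix in
theorem nG_fixed_mem {r : ℕ} (hr : r < D.nroots) {t : K} (ht : σ t = t) : S.nG K r t ∈ H := by
  rw [S.nG_eq]
  exact mul_mem (mul_mem (xG_fixed_mem (S := S) hfix hr ht)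
    (xG_fixed_mem (S := S) hfix (S.wf.neg_lt r hr) (by rw [map_neg, map_inv₀, ht])))
    (xG_fixed_mem (S := S) hfix hr ht)

include hfix in
theorem wN_mem (L : List (Fin D.rank)) : (S.wN K L : GL D.Idx K) ∈ H := by
  induction L with
  | nil => simp [Sys.wN]
  | cons i L ih =>
    rw [S.wN_cons, Subgroup.coe_mul]
    exact mul_mem (nG_fixed_mem (S := S) hfix (S.wf.simple_lt i i.isLt) (map_one σ)) ih

include hfix in
theorem xG_mem_orbit {L : List (Fin D.rank)} {a b : Fin D.nroots} (hL : S.wperm L a = b) {t : K}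
    (h : S.xG K a t ∈ H) : S.xG K b t ∈ H := by
  obtain ⟨c, hc, h1, -⟩ := S.wN_act K L a
  have h2 := mul_mem (mul_mem (wN_mem (S := S) hfix L) h) (inv_mem (wN_mem (S := S) hfix L))
  rw [h1, hL] at h2
  rcases hc with rfl | rfl
  · rwa [one_mul] at h2
  · rw [neg_one_mul, ← S.xG_inv] at h2
    exact inv_mem_iff.mp h2

include T hfix in
theorem lng_mem_iff {s : ℕ} (hs : s < D.nroots) (hl : lng D s = true) (t : K) :
    S.xG K s t ∈ H ↔ S.xG K (topIdx D) t ∈ H := by
  obtain ⟨L, hL⟩ := S.orbit_sound T.high.lt T.orbL hs hl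
  refine ⟨fun h => xG_mem_orbit hfix (L := L.reverse) (a := ⟨s, hs⟩)
    (b := ⟨topIdx D, T.high.lt⟩) ?_ h, fun h => xG_mem_orbit hfix hL h⟩
  rw [S.wperm_reverse, ← hL, Equiv.Perm.coe_inv, Equiv.symm_apply_apply]

include T hfix in
theorem sht_mem_iff {s : ℕ} (hs : s < D.nroots) (hl : lng D s = false) (t : K) :
    S.xG K s t ∈ H ↔ S.xG K e t ∈ H := by
  obtain ⟨L, hL⟩ := S.orbit_sound T.e_lt T.orbS hs (by simp [hl])
  refine ⟨fun h => xG_mem_orbit hfix (L := L.reverse) (a := ⟨s, hs⟩)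
    (b := ⟨e, T.e_lt⟩) ?_ h, fun h => xG_mem_orbit hfix hL h⟩
  rw [S.wperm_reverse, ← hL, Equiv.Perm.coe_inv, Equiv.symm_apply_apply]

include T hfix in
/-- The root elements over a subfield, from those at the highest root. -/
theorem roots_of_top (R : Subfield K) (h : ∀ t ∈ R, S.xG K (topIdx D) t ∈ H) {a : ℕ}
    (ha : a < D.nroots) {t : K} (ht : t ∈ R) : S.xG K a t ∈ H := by
  classical
  have hl : ∀ s < D.nroots, lng D s = true → ∀ t ∈ R, S.xG K s t ∈ H := fun s hs hl t ht =>
    (lng_mem_iff T hfix hs hl t).mpr (h t ht)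
  have h0 : ∀ t ∈ R, S.xG K 0 t ∈ H := hl 0 T.high.pos T.lng_zero
  by_cases hla : lng D a = true
  · exact hl a ha hla t ht
  have hsc := T.scale
  simp only [List.all_eq_true, List.mem_range, Bool.or_eq_true, List.any_eq_true,
    Bool.and_eq_true, beq_iff_eq] at hsc
  obtain ⟨r, hr, hrl, hp⟩ := (hsc a ha).resolve_left hla
  have hn : ∀ u ∈ R, S.xG K (D.neg r) u ∈ H := by
    intro u hu
    obtain ⟨L, hL⟩ := S.orbit_sound T.high.lt T.orbL hr hrl
    have h2 := S.wperm_negF L ⟨topIdx D, T.high.lt⟩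
    rw [hL] at h2
    exact xG_mem_orbit hfix (L := L) (a := S.negF ⟨topIdx D, T.high.lt⟩)
      (b := S.negF ⟨r, hr⟩) h2 (by rw [S.negF_val, T.high.neg_top]; exact h0 u hu)
  rcases eq_or_ne t 0 with rfl | ht0
  · rw [S.xG_zero]; exact one_mem _
  have hnG : ∀ u ∈ R, S.nG K r u ∈ H := fun u hu => by
    rw [S.nG_eq]
    exact mul_mem (mul_mem (hl r hr hrl u hu) (hn _ (neg_mem (inv_mem hu)))) (hl r hr hrl u hu)
  set u : Kˣ := Units.mk0 t ht0 ^ D.pairing r a
  have huR : (u : K) ∈ R := by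
    simp only [u, Units.val_zpow_eq_zpow_val, Units.val_mk0]
    exact zpow_mem ht _
  have h1R : (-1 : K) ∈ R := neg_mem (one_mem R)
  have := mul_mem (mul_mem (mul_mem (hnG _ huR) (hnG _ h1R))
      (xG_fixed_mem (S := S) hfix ha (map_one σ)))
    (inv_mem (mul_mem (hnG _ huR) (hnG _ h1R)))
  rw [S.hRoot_conj K hr ha u 1, mul_one, ← Units.val_zpow_eq_zpow_val, ← zpow_mul] at this
  have h2 : D.pairing r a * D.pairing r a = 1 := by
    rcases Int.natAbs_eq (D.pairing r a) with e | e <;> rw [hp] at e <;> rw [e] <;> rfl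
  rw [h2, zpow_one] at this
  exact this

include T hfix in
/-- With the whole highest root subgroup, the overgroup is the whole group. -/
theorem group_le_of_top (h : ∀ t, S.xG K (topIdx D) t ∈ H) : D.group K ≤ H := by
  rw [S.group_eq, Subgroup.closure_le]
  rintro _ ⟨a, ha, t, rfl⟩
  exact roots_of_top T hfix ⊤ (fun t _ => h t) ha (Subfield.mem_top t)

include T hfix in
/-- Simply laced neighbourhood of the highest root: the parameters are closed under products. -/
theorem top_mul_A2 {k : ℕ} (A : AdjFacts S k) {x y : K} (hx : S.xG K (topIdx D) x ∈ H)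
    (hy : S.xG K (topIdx D) y ∈ H) : S.xG K (topIdx D) (x * y) ∈ H := by
  have hkl := S.wf.simple_lt k A.k_lt
  have hsl : D.nroots - 2 < D.nroots := by have := T.high.pos; omega
  obtain ⟨N, hN, hc⟩ := A.comm_top
  have hx' := (lng_mem_iff T hfix hkl A.lng_simple x).mpr hx
  have hy' := (lng_mem_iff T hfix hsl A.lng_snd y).mpr hy
  have h := mul_mem (mul_mem (inv_mem hx') hy') hx'
  rw [S.comm_single K hkl hsl A.ne.1 A.ne.2 hc] at h
  have h2 := mul_mem (inv_mem hy') h
  rw [inv_mul_cancel_left] at h2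
  rcases Int.natAbs_eq N with e | e <;> rw [hN] at e <;> rw [e] at h2 <;> simp at h2
  · rw [← S.xG_inv] at h2; exact inv_mem_iff.mp h2
  · exact h2

end CfsgLib.ChevSubfield
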