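import Cfsg.Agent.ChevSubfield.Facts

/-!
Type `B₂`: large root elements, and the highest short root element.
-/

set_option autoImplicit false

namespace CfsgLib.ChevSubfield

open Cfsg.Lie CfsgLib.Chevalley CfsgLib.ChevField
open scoped Matrix

theorem subFacts_B2 : SubFacts sysB2 6 2 :=
  subFacts_of_chk sysB2 (highFacts_of_chk checkedB2 chkHigh_B2) chkSub_B2

theorem B2_tables : chevB2.nroots = 8 ∧ topIdx chevB2 = 7 ∧
    chevB2.commTerms 4 5 = [(6, 1, 1, 1), (7, -1, 1, 2)] ∧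
    chevB2.commTerms 5 4 = [(6, -1, 1, 1), (7, -1, 2, 1)] ∧
    chevB2.commTerms 5 6 = [(7, 2, 1, 1)] ∧
    chevB2.commTerms 2 6 = [(4, -2, 1, 1)] ∧
    chevB2.commTerms 2 7 = [(6, 1, 1, 1), (4, -1, 2, 1)] ∧
    chevB2.commTerms 4 7 = [] ∧ chevB2.commTerms 4 6 = [] ∧
    chevB2.neg 4 = 3 ∧ chevB2.neg 5 = 2 ∧ chevB2.neg 2 = 5 ∧
    chevB2.pairing 5 7 = 2 ∧ chevB2.pairing 4 6 = 1 ∧
    lng chevB2 4 = true ∧ lng chevB2 5 = false ∧ lng chevB2 6 = false ∧
    chevB2.reflectRoot 0 6 = 6 ∧ chevB2.reflectRoot 0 7 = 4 ∧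
    chevB2.reflectRoot 1 6 = 5 ∧ chevB2.reflectRoot 1 7 = 7 ∧
    chevB2.simple 0 = 5 ∧ chevB2.simple 1 = 4 ∧ chevB2.rank = 2 := by
  repeat' apply And.intro
  all_goals decide +kernel

variable {K : Type*} [Field K] {σ : K →+* K} {H : Subgroup (GL chevB2.Idx K)}
  (hfix : RootsIn sysB2 σ H)
variable {p q : ℕ} (P : FrobData σ p q)

local notation "Xr" => Sys.xG sysB2 K

/-- The commutator of `x_b(z)` and `x_a(u)`. -/
theorem B2_comm45 {z u : K} (hz : Xr 4 z ∈ H) (hu : Xr 5 u ∈ H) :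
    Xr 6 (-(z * u)) * Xr 7 (z * u ^ 2) ∈ H := by
  obtain ⟨hn, -, h45, -, -, -, -, -, -, hn4, -⟩ := B2_tables
  have h := mul_mem (inv_mem hu) (mul_mem (mul_mem (inv_mem hz) hu) hz)
  rw [sysB2.comm_double K (by omega) (by omega) (by omega) (by omega) h45, inv_mul_cancel_left] at h
  convert h using 3 <;> push_cast <;> ring

include hfix P in
/-- The parameters at the highest root are closed under products. -/
theorem B2_top_mul [Finite H] {x y : K} (hx : Xr (topIdx chevB2) x ∈ H)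
    (hy : Xr (topIdx chevB2) y ∈ H) : Xr (topIdx chevB2) (x * y) ∈ H := by
  obtain ⟨hn, htop, h45, h54, h56, h26, h27, -, -, hn4, hn5, hn2, hp57, hp46, hl4, hl5, hl6, -⟩ :=
    B2_tables
  rw [htop] at hx hy ⊢
  set A : Set K := {t | Xr 7 t ∈ H}
  set B : Set K := {t | Xr 6 t ∈ H}
  have hA4 : ∀ z, Xr 4 z ∈ H ↔ z ∈ A := fun z => by
    have := lng_mem_iff subFacts_B2 hfix (s := 4) (by omega) hl4 z
    rw [htop] at this
    exact this
  have hB5 : ∀ z, Xr 5 z ∈ H ↔ z ∈ B := fun z =>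
    sht_mem_iff subFacts_B2 hfix (s := 5) (by omega) hl5 z
  have hFA : ∀ x ∈ fixField σ, x ∈ A := fun x hx =>
    xG_fixed_mem (S := sysB2) hfix (by omega) hx
  have hFB : ∀ x ∈ fixField σ, x ∈ B := fun x hx =>
    xG_fixed_mem (S := sysB2) hfix (by omega) hx
  have := (paramSet_finite (S := sysB2) (H := H) (show 7 < chevB2.nroots by omega)).to_subtype
  have hAadd : ∀ x ∈ A, ∀ y ∈ A, x + y ∈ A := fun x hx y hy => by
    show Xr 7 (x + y) ∈ H
    simp only [← Sys.xG_add]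
    exact mul_mem hx hy
  have hAneg : ∀ x ∈ A, -x ∈ A := fun x hx => by
    show Xr 7 (-x) ∈ H
    simp only [← Sys.xG_inv]
    exact inv_mem hx
  have hBadd : ∀ x ∈ B, ∀ y ∈ B, x + y ∈ B := fun x hx y hy => by
    show Xr 6 (x + y) ∈ H
    simp only [← Sys.xG_add]
    exact mul_mem hx hy
  have hBneg : ∀ x ∈ B, -x ∈ B := fun x hx => by
    show Xr 6 (-x) ∈ H
    simp only [← Sys.xG_inv]
    exact inv_mem hx
  have hAB : ∀ z ∈ A, z ∈ B := fun z hz => by
    have h := B2_comm45 ((hA4 z).2 hz) ((hB5 1).2 (hFB 1 (one_mem _)))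
    rw [mul_one, one_pow, mul_one] at h
    have h2 := mul_mem h (inv_mem hz)
    rw [mul_inv_cancel_right] at h2
    simpa using hBneg _ h2
  have hsq : ∀ u ∈ B, u ^ 2 ∈ A := fun u hu => by
    have h := B2_comm45 ((hA4 1).2 (hFA 1 (one_mem _))) ((hB5 u).2 hu)
    rw [one_mul, one_mul] at h
    have h2 := mul_mem (inv_mem (hBneg u hu)) h
    rwa [inv_mul_cancel_left] at h2
  have h2B : ∀ x ∈ B, ∀ y ∈ B, 2 * x * y ∈ A := fun x hx y hy => by
    have hx' := (hB5 x).2 hx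
    have h := mul_mem (inv_mem hy) (mul_mem (mul_mem (inv_mem hx') hy) hx')
    rw [sysB2.comm_single K (by omega) (by omega) (by omega) (by omega) h56,
      inv_mul_cancel_left] at h
    have := hAneg _ (show -((2 : ℤ) : K) * x * y ∈ A from h)
    push_cast at this
    simpa [neg_mul] using this
  have := P.char
  have := Fact.mk P.prime
  by_cases hp2 : p = 2
  swap
  · show x * y ∈ A
    have h1 := h2B x (hAB x hx) y (hAB y hy)
    have hn : ∀ (m : ℕ), ∀ w ∈ A, (m : K) * w ∈ A := by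
      intro m w hw
      induction m with
      | zero => simpa using hFA 0 (zero_mem _)
      | succ m ih => rw [Nat.cast_succ, add_mul, one_mul]; exact hAadd _ ih _ hw
    obtain ⟨m, hm⟩ := P.prime.odd_of_ne_two hp2
    have h3 := hn (m + 1) _ h1
    have hp0 : (p : K) = 0 := CharP.cast_eq_zero K p
    rw [hm] at hp0
    push_cast at hp0 h3
    convert h3 using 1
    linear_combination -(x * y) * hp0
  subst hp2
  have h20 : (2 : K) = 0 := CharP.cast_eq_zero K 2
  have hneg : ∀ x : K, -x = x := fun x => CharTwo.neg_eq x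
  have hkey : ∀ z ∈ A, ∀ u ∈ B, z * (u + u ^ 2) ∈ B := by
    intro z hz u hu
    set v := z * u ^ 2 with hv
    have hX : Xr 6 (z * u) * Xr 7 v ∈ H := by
      have := B2_comm45 ((hA4 z).2 hz) ((hB5 u).2 hu)
      rwa [hneg] at this
    have h2m : Xr 2 1 ∈ H := xG_fixed_mem (S := sysB2) hfix (by omega) (map_one σ)
    have h5m : Xr 5 1 ∈ H := xG_fixed_mem (S := sysB2) hfix (by omega) (map_one σ)
    have e26 : ∀ w : K, (Xr 2 1)⁻¹ * Xr 6 w * Xr 2 1 = Xr 6 w := fun w => by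
      rw [sysB2.comm_single K (by omega) (by omega) (by omega) (by omega) h26]
      push_cast
      simp [h20, Sys.xG_zero]
    have e27 : ∀ w : K, (Xr 2 1)⁻¹ * Xr 7 w * Xr 2 1 = Xr 7 w * (Xr 6 w * Xr 4 w) := fun w => by
      rw [sysB2.comm_double K (by omega) (by omega) (by omega) (by omega) h27]
      simp [hneg]
    have hY : Xr 6 v * Xr 4 v ∈ H := by
      have h := mul_mem (inv_mem hX) (mul_mem (mul_mem (inv_mem h2m) hX) h2m)
      rw [show (Xr 2 1)⁻¹ * (Xr 6 (z * u) * Xr 7 v) * Xr 2 1 =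
        ((Xr 2 1)⁻¹ * Xr 6 (z * u) * Xr 2 1) * ((Xr 2 1)⁻¹ * Xr 7 v * Xr 2 1) by group,
        e26, e27, ← mul_assoc (Xr 6 (z * u)), inv_mul_cancel_left] at h
      exact h
    have e56 : ∀ w : K, (Xr 5 1)⁻¹ * Xr 6 w * Xr 5 1 = Xr 6 w := fun w => by
      rw [sysB2.comm_single K (by omega) (by omega) (by omega) (by omega) h56]
      push_cast
      simp [h20, Sys.xG_zero]
    have e54 : ∀ w : K, (Xr 5 1)⁻¹ * Xr 4 w * Xr 5 1 = Xr 4 w * (Xr 6 w * Xr 7 w) := fun w => by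
      rw [sysB2.comm_double K (by omega) (by omega) (by omega) (by omega) h54]
      simp [hneg]
    have hZ : Xr 6 v * Xr 7 v ∈ H := by
      have h := mul_mem (inv_mem hY) (mul_mem (mul_mem (inv_mem h5m) hY) h5m)
      rw [show (Xr 5 1)⁻¹ * (Xr 6 v * Xr 4 v) * Xr 5 1 =
        ((Xr 5 1)⁻¹ * Xr 6 v * Xr 5 1) * ((Xr 5 1)⁻¹ * Xr 4 v * Xr 5 1) by group,
        e56, e54, ← mul_assoc (Xr 6 v) (Xr 4 v), inv_mul_cancel_left] at h
      exact h
    have h := mul_mem hX (inv_mem hZ)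
    rw [mul_inv_rev, ← mul_assoc, mul_inv_cancel_right] at h
    simp only [Sys.xG_inv, Sys.xG_add, hneg] at h
    rw [mul_add]
    exact h
  have hAsq : ∀ z ∈ A, ∃ w ∈ A, w ^ 2 = z := by
    intro z hz
    let f : A → A := fun w => ⟨(w : K) ^ 2, hsq _ (hAB _ w.2)⟩
    have hf : Function.Surjective f := Finite.surjective_of_injective fun a b e => by
      refine Subtype.ext (frobenius_inj K 2 ?_)
      exact congrArg Subtype.val e
    obtain ⟨w, hw⟩ := hf ⟨z, hz⟩
    exact ⟨w, w.2, congrArg Subtype.val hw⟩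
  have hmul : ∀ u ∈ B, ∀ z ∈ A, (u + u ^ 2) ^ 2 * z ∈ A := by
    intro u hu z hz
    obtain ⟨w, hw, rfl⟩ := hAsq z hz
    have := hsq _ (hkey w hw u hu)
    convert this using 1
    ring
  obtain ⟨R, hR⟩ := exists_subfield_of_finite
    (A := {μ : K | ∀ z ∈ A, μ * z ∈ A})
    ((Set.toFinite A).subset fun μ hμ => by simpa using hμ 1 (hFA 1 (one_mem _)))
    (fun z _ => by rw [zero_mul]; exact hFA 0 (zero_mem _))
    (fun z hz => by rwa [one_mul])
    (fun a ha b hb z hz => by rw [add_mul]; exact hAadd _ (ha z hz) _ (hb z hz))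
    (fun a ha b hb z hz => by rw [mul_assoc]; exact ha _ (hb z hz))
  have hRiff : ∀ μ, μ ∈ R ↔ ∀ z ∈ A, μ * z ∈ A := fun μ => Set.ext_iff.mp hR μ
  have hRA : ∀ μ ∈ R, μ ∈ A := fun μ hμ => by
    simpa using (hRiff μ).mp hμ 1 (hFA 1 (one_mem _))
  have hfR : (R : Set K).Finite := (Set.toFinite A).subset hRA
  have := hfR.to_subtype
  have hroot : ∀ v : K, v ^ 2 ∈ R → v ∈ R := by
    intro v hv
    obtain ⟨w, hw⟩ := (Finite.injective_iff_surjective (α := R) (f := fun w => w ^ 2)).mp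
      (fun a b e => Subtype.ext (frobenius_inj K 2 (congrArg Subtype.val e))) ⟨v ^ 2, hv⟩
    rw [← frobenius_inj K 2 (show (w : K) ^ 2 = v ^ 2 from congrArg Subtype.val hw)]
    exact w.2
  have hv : ∀ u ∈ B, u + u ^ 2 ∈ R := fun u hu => hroot _ ((hRiff _).mpr (hmul u hu))
  have hl3 : lng chevB2 3 = true := by decide +kernel
  have hA3 : ∀ z ∈ A, Xr 3 z ∈ H := fun z hz => by
    refine (lng_mem_iff subFacts_B2 hfix (s := 3) (by omega) hl3 z).mpr ?_
    rw [htop]
    exact hz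
  have hscale : ∀ f ∈ R, ∀ z ∈ B, f * z ∈ B := by
    intro f hf
    rcases eq_or_ne f 0 with rfl | hf0
    · exact fun z _ => by rw [zero_mul]; exact hFB 0 (zero_mem _)
    intro z hz
    have hn' : ∀ c ∈ R, Sys.nG sysB2 K 4 c ∈ H := fun c hc => by
      rw [Sys.nG_eq, hn4]
      exact mul_mem (mul_mem ((hA4 c).2 (hRA c hc)) (hA3 _ (hRA _ (neg_mem (inv_mem hc)))))
        ((hA4 c).2 (hRA c hc))
    have hm := mul_mem (hn' f hf) (hn' (-1) (neg_mem (one_mem R)))
    have h := mul_mem (mul_mem hm hz) (inv_mem hm)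
    rw [← Units.val_mk0 hf0, sysB2.hRoot_conj K (by omega) (by omega), Units.val_mk0, hp46,
      zpow_one] at h
    exact h
  show x * y ∈ A
  by_cases hsmall : ∃ f ∈ R, f ≠ 0 ∧ f ≠ 1
  · obtain ⟨f, hf, hf0, hf1⟩ := hsmall
    have hff : f ^ 2 + f ≠ 0 := fun e => by
      have : f * (f + 1) = 0 := by linear_combination e
      rcases mul_eq_zero.mp this with h1 | h1
      · exact hf0 h1
      · exact hf1 (CharTwo.add_eq_zero.mp h1)
    have hxB := hAB x hx
    have h1 : (f ^ 2 + f) * x ^ 2 ∈ R := by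
      have h2 := add_mem (hv _ (hscale f hf x hxB)) (mul_mem hf (hv x hxB))
      convert h2 using 1
      linear_combination -(f * x) * h20
    have h3 := mul_mem (inv_mem (add_mem (pow_mem hf 2) hf)) h1
    rw [inv_mul_cancel_left₀ hff] at h3
    exact (hRiff x).mp (hroot x h3) y hy
  push Not at hsmall
  have hF2 : ∀ f ∈ R, f = 0 ∨ f = 1 := fun f hf => by
    rcases eq_or_ne f 0 with h | h
    · exact Or.inl h
    · exact Or.inr (hsmall f hf h)
  rcases eq_or_ne x 0 with rfl | hx0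
  · simpa using hFA 0 (zero_mem _)
  rcases eq_or_ne y 0 with rfl | hy0
  · simpa using hFA 0 (zero_mem _)
  rcases eq_or_ne x 1 with rfl | hx1
  · rw [one_mul]; exact hy
  rcases eq_or_ne y 1 with rfl | hy1
  · rw [mul_one]; exact hx
  have hquad : ∀ u ∈ A, u ≠ 0 → u ≠ 1 → u ^ 2 = u + 1 := by
    intro u hu hu0 hu1
    rcases hF2 _ (hv u (hAB u hu)) with h | h
    · have : u * (u + 1) = 0 := by linear_combination h
      rcases mul_eq_zero.mp this with h1 | h1
      · exact absurd h1 hu0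
      · exact absurd (CharTwo.add_eq_zero.mp h1) hu1
    · linear_combination h - u * h20
  have qx := hquad x hx hx0 hx1
  have qy := hquad y hy hy0 hy1
  have hxy : (y + x) * (y + x + 1) = 0 := by
    linear_combination qx + qy + (x * y + x + y + 1) * h20
  rcases mul_eq_zero.mp hxy with h | h
  · rw [CharTwo.add_eq_zero.mp h, ← pow_two, qx]
    exact hAadd _ hx _ (hFA 1 (one_mem _))
  · rw [show y = x + 1 by linear_combination h - (x + 1) * h20,
      show x * (x + 1) = 1 by linear_combination qx + x * h20]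
    exact hFA 1 (one_mem _)

include hfix P in
/-- A pair in the central part lies in the subfield. -/
theorem B2_exc (hp2 : p = 2) (htop : ∀ t, Xr (topIdx chevB2) t ∈ H → σ t = t) {τ τ' : K}
    (h : Xr 6 τ * Xr (topIdx chevB2) τ' ∈ H) : σ τ = τ ∧ σ τ' = τ' := by
  obtain ⟨hn, ht7, h45, h54, h56, -, -, h47, h46, hn4, hn5, -, -, -, -, hl5, hl6,
    r06, r07, r16, r17, s0, s1, hrk⟩ := B2_tables
  rw [ht7] at h htop
  subst hp2
  have := P.char
  have h20 : (2 : K) = 0 := CharP.cast_eq_zero K 2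
  have hneg : ∀ x : K, -x = x := fun x => CharTwo.neg_eq x
  have hn_mem : ∀ i < chevB2.rank, Sys.nG sysB2 K (chevB2.simple i) 1 ∈ H := fun i hi =>
    nG_fixed_mem (S := sysB2) hfix (sysB2.wf.simple_lt i hi) (map_one σ)
  have hnc : ∀ i < chevB2.rank, ∀ a < chevB2.nroots, ∀ t : K,
      Sys.nG sysB2 K (chevB2.simple i) 1 * Xr a t * (Sys.nG sysB2 K (chevB2.simple i) 1)⁻¹ =
        Xr (chevB2.reflectRoot i a) t := by
    intro i hi a ha t
    rw [sysB2.nG_conj_xG K hi ha, mul_inv_cancel_right]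
    rcases sysB2.eta_sign i hi a ha with e | e <;> simp [e, hneg]
  have hconj : ∀ i < chevB2.rank, ∀ {a b : ℕ} {x y : K}, a < chevB2.nroots → b < chevB2.nroots →
      Xr a x * Xr b y ∈ H →
      Xr (chevB2.reflectRoot i a) x * Xr (chevB2.reflectRoot i b) y ∈ H := by
    intro i hi a b x y ha hb h
    have := mul_mem (mul_mem (hn_mem i hi) h) (inv_mem (hn_mem i hi))
    rw [← hnc i hi a ha, ← hnc i hi b hb]
    convert this using 1
    group
  have h5m : Xr 5 1 ∈ H := xG_fixed_mem (S := sysB2) hfix (by omega) (map_one σ)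
  have h4m : Xr 4 1 ∈ H := xG_fixed_mem (S := sysB2) hfix (by omega) (map_one σ)
  have c56 : ∀ w u : K, (Xr 5 w)⁻¹ * Xr 6 u * Xr 5 w = Xr 6 u := fun w u => by
    rw [sysB2.comm_single K (by omega) (by omega) (by omega) (by omega) h56]
    push_cast
    simp [h20, Sys.xG_zero]
  have c54 : ∀ w u : K,
      (Xr 5 w)⁻¹ * Xr 4 u * Xr 5 w = Xr 4 u * (Xr 6 (w * u) * Xr 7 (w ^ 2 * u)) := fun w u => by
    rw [sysB2.comm_double K (by omega) (by omega) (by omega) (by omega) h54]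
    simp [hneg]
  have c45 : ∀ w u : K,
      (Xr 4 w)⁻¹ * Xr 5 u * Xr 4 w = Xr 5 u * (Xr 6 (w * u) * Xr 7 (w * u ^ 2)) := fun w u => by
    rw [sysB2.comm_double K (by omega) (by omega) (by omega) (by omega) h45]
    simp [hneg]
  have hc7 : ∀ w u : K, Commute (Xr 4 w) (Xr 7 u) := fun w u =>
    sysB2.xG_commute K (by omega) (by omega) (by omega) (by omega) h47 w u
  have hc6 : ∀ w u : K, Commute (Xr 4 w) (Xr 6 u) := fun w u =>
    sysB2.xG_commute K (by omega) (by omega) (by omega) (by omega) h46 w u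
  have pure6 : ∀ {u : K}, Xr 6 u ∈ H → σ u = u := by
    intro u hu
    have h5u : Xr 5 u ∈ H := by
      have := mul_mem (mul_mem (hn_mem 1 (by omega)) hu) (inv_mem (hn_mem 1 (by omega)))
      rwa [hnc 1 (by omega) 6 (by omega), r16] at this
    have h1 := mul_mem (inv_mem hu)
      (mul_mem (inv_mem h5u) (mul_mem (mul_mem (inv_mem h4m) h5u) h4m))
    rw [c45, one_mul, one_mul, inv_mul_cancel_left, inv_mul_cancel_left] at h1
    exact P.mem_of_pow_mem (htop _ h1)
  have hcen : ∀ a b c : K, Commute (Xr 6 a * Xr 7 b) (Xr 7 c) := fun a b c => by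
    have := sysB2.top_commute_pos K subFacts_B2.high (g := Xr 6 a * Xr 7 b) (by
      rw [← uSub_univ]
      exact mul_mem (sysB2.xG_mem_uSub K (Set.mem_univ _) (by omega) (by omega) a)
        (sysB2.xG_mem_uSub K (Set.mem_univ _) (by omega) (by omega) b)) c
    rw [ht7] at this
    exact this.symm
  -- from a pair `(u, v)` to `(v, v)` and `(u, u ^ 2)`
  have step : ∀ u v : K, Xr 6 u * Xr 7 v ∈ H →
      Xr 6 v * Xr 7 v ∈ H ∧ Xr 6 u * Xr 7 (u ^ 2) ∈ H ∧ σ (u + v) = u + v ∧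
        σ (v + u ^ 2) = v + u ^ 2 := by
    intro u v huv
    have ha : Xr 6 u * Xr 4 v ∈ H := by
      have := hconj 0 (by omega) (a := 6) (b := 7) (by omega) (by omega) huv
      rwa [r06, r07] at this
    have hb : Xr 5 u * Xr 7 v ∈ H := by
      have := hconj 1 (by omega) (a := 6) (b := 7) (by omega) (by omega) huv
      rwa [r16, r17] at this
    have hvv : Xr 6 v * Xr 7 v ∈ H := by
      have h1 := mul_mem (inv_mem ha) (mul_mem (mul_mem (inv_mem h5m) ha) h5m)
      rw [show (Xr 5 1)⁻¹ * (Xr 6 u * Xr 4 v) * Xr 5 1 =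
        ((Xr 5 1)⁻¹ * Xr 6 u * Xr 5 1) * ((Xr 5 1)⁻¹ * Xr 4 v * Xr 5 1) by group,
        c56, c54, one_mul, one_pow, one_mul, ← mul_assoc (Xr 6 u) (Xr 4 v),
        inv_mul_cancel_left] at h1
      exact h1
    have huu : Xr 6 u * Xr 7 (u ^ 2) ∈ H := by
      have h1 := mul_mem (mul_mem (inv_mem h4m) hb) h4m
      rw [show (Xr 4 1)⁻¹ * (Xr 5 u * Xr 7 v) * Xr 4 1 =
        ((Xr 4 1)⁻¹ * Xr 5 u * Xr 4 1) * ((Xr 4 1)⁻¹ * (Xr 7 v * Xr 4 1)) by group,
        ← (hc7 1 v).eq, inv_mul_cancel_left, c45, one_mul, one_mul] at h1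
      have h2 := mul_mem (inv_mem hb) h1
      have hc := hcen u (u ^ 2) v
      rw [mul_assoc (Xr 5 u), hc.eq, ← mul_assoc (Xr 5 u), inv_mul_cancel_left] at h2
      exact h2
    refine ⟨hvv, huu, ?_, ?_⟩
    · refine pure6 ?_
      have h1 := mul_mem huv (inv_mem hvv)
      rw [mul_inv_rev, ← mul_assoc, mul_inv_cancel_right] at h1
      simpa [Sys.xG_inv, Sys.xG_add, hneg] using h1
    · have h1 := mul_mem (inv_mem huv) huu
      rw [mul_inv_rev, mul_assoc, inv_mul_cancel_left] at h1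
      simp only [Sys.xG_inv, Sys.xG_add, hneg] at h1
      exact htop _ h1
  obtain ⟨hvv, huu, e1, e2⟩ := step τ τ' h
  have hf : σ (τ + τ ^ 2) = τ + τ ^ 2 := by
    have : τ + τ ^ 2 = (τ + τ') + (τ' + τ ^ 2) := by linear_combination -τ' * h20
    rw [this, map_add, e1, e2]
  have hττ : Xr 6 τ * Xr 7 τ ∈ H := by
    have h1 := mul_mem h (xG_fixed_mem (S := sysB2) hfix (r := 7) (by omega) e1)
    rw [mul_assoc, Sys.xG_add] at h1
    convert h1 using 3
    linear_combination -τ' * h20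
  have ha : Xr 6 τ * Xr 4 τ ∈ H := by
    have := hconj 0 (by omega) (a := 6) (b := 7) (by omega) (by omega) hττ
    rwa [r06, r07] at this
  have hb : Xr 5 τ * Xr 7 τ ∈ H := by
    have := hconj 1 (by omega) (a := 6) (b := 7) (by omega) (by omega) hττ
    rwa [r16, r17] at this
  have hprod : Xr 6 (τ ^ 2) * Xr 7 (τ ^ 3) ∈ H := by
    have h1 := mul_mem (mul_mem (inv_mem ha) hb) ha
    have e76 : Commute (Xr 6 τ) (Xr 7 τ) := by
      have := sysB2.top_commute_pos K subFacts_B2.high (g := Xr 6 τ) (by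
        rw [← uSub_univ]; exact sysB2.xG_mem_uSub K (Set.mem_univ _) (by omega) (by omega) _) τ
      rw [ht7] at this
      exact this.symm
    have c65 : (Xr 6 τ)⁻¹ * Xr 5 τ * Xr 6 τ = Xr 5 τ := by
      have := c56 τ τ
      rw [mul_assoc, inv_mul_eq_iff_eq_mul] at this ⊢
      exact this.symm
    have e : (Xr 6 τ * Xr 4 τ)⁻¹ * (Xr 5 τ * Xr 7 τ) * (Xr 6 τ * Xr 4 τ) =
        Xr 5 τ * (Xr 6 (τ * τ) * Xr 7 (τ * τ ^ 2)) * Xr 7 τ := by
      calc _ = (Xr 4 τ)⁻¹ * ((Xr 6 τ)⁻¹ * Xr 5 τ * Xr 6 τ) *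
            ((Xr 6 τ)⁻¹ * (Xr 7 τ * Xr 6 τ)) * Xr 4 τ := by group
        _ = (Xr 4 τ)⁻¹ * Xr 5 τ * (Xr 7 τ * Xr 4 τ) := by
            rw [c65, ← e76.eq, inv_mul_cancel_left]; group
        _ = _ := by rw [← (hc7 τ τ).eq, ← mul_assoc, c45]
    rw [e] at h1
    have h2 := mul_mem (inv_mem hb) h1
    have hc := hcen (τ * τ) (τ * τ ^ 2) τ
    rw [mul_assoc (Xr 5 τ), hc.eq, ← mul_assoc (Xr 5 τ), inv_mul_cancel_left] at h2
    convert h2 using 3 <;> ring
  obtain ⟨-, -, e3, -⟩ := step _ _ hprod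
  have hτ : σ τ = τ := by
    by_cases hf0 : τ + τ ^ 2 = 0
    · have : τ * (1 + τ) = 0 := by linear_combination hf0
      rcases mul_eq_zero.mp this with h1 | h1
      · rw [h1, map_zero]
      · have : τ = 1 := by linear_combination h1 - h20
        rw [this, map_one]
    · have h1 : τ ^ 2 + τ ^ 3 = τ * (τ + τ ^ 2) := by ring
      rw [h1, map_mul, hf] at e3
      exact mul_right_cancel₀ hf0 e3
  refine ⟨hτ, ?_⟩
  rw [map_add, hτ] at e1
  exact add_left_cancel e1

end CfsgLib.ChevSubfield
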