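import Cfsg.Agent.ChevSubfield.Short
import Cfsg.Agent.ChevSubfield.TypeB

/-!
An additive set of vectors stable under the root elements with parameter `±1` and containing the
highest root vector contains every basis vector.
-/

set_option autoImplicit false

namespace CfsgLib.ChevSubfield

open Cfsg.Lie CfsgLib.Chevalley CfsgLib.ChevField
open scoped Matrix

variable {D : ChevalleyDatum}

/-- Stability under `x_r(±1)`. -/
structure Stable (S : Sys D) {K : Type*} [Field K] (V : AddSubgroup (D.Idx → K)) : Prop where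
  one : ∀ r < D.nroots, ∀ v ∈ V, D.x K r 1 *ᵥ v ∈ V
  neg_one : ∀ r < D.nroots, ∀ v ∈ V, D.x K r (-1) *ᵥ v ∈ V
  top : evec D K (topIdx D) ∈ V

/-- Check: the coroot of `-p_j` is `-h_j`. -/
def chkCor (D : ChevalleyDatum) : Bool :=
  (List.range D.rank).all fun j => (List.range D.rank).all fun i =>
    (D.coroot.getD (D.neg (D.simple j)) #[]).getD i 0 == if i = j then -1 else 0

variable {S : Sys D} {e ℓ : ℕ} {K : Type*} [Field K] {V : AddSubgroup (D.Idx → K)}

theorem Stable.sign (_hV : Stable S V) {c : K} (hc : c = 1 ∨ c = -1) {v : D.Idx → K}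
    (h : c • v ∈ V) : v ∈ V := by
  rcases hc with rfl | rfl
  · rwa [one_smul] at h
  · rw [neg_smul, one_smul] at h
    simpa using V.neg_mem h

theorem Stable.sub_mem (hV : Stable S V) {r : ℕ} (hr : r < D.nroots) {v : D.Idx → K}
    (hv : v ∈ V) : D.x K r 1 *ᵥ v - v ∈ V := V.sub_mem (hV.one r hr v hv) hv

theorem Stable.wN (hV : Stable S V) (L : List (Fin D.rank)) :
    ∀ v ∈ V, ((S.wN K L : GL D.Idx K) : Matrix D.Idx D.Idx K) *ᵥ v ∈ V := by
  induction L with
  | nil => intro v hv; simpa [Sys.wN] using hv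
  | cons i L ih =>
    intro v hv
    rw [S.wN_cons, Subgroup.coe_mul, Units.val_mul, ← Matrix.mulVec_mulVec]
    show (S.nG K (D.simple i) 1 : Matrix D.Idx D.Idx K) *ᵥ _ ∈ V
    have hl := S.wf.simple_lt i i.isLt
    rw [S.nG_eq, Units.val_mul, Units.val_mul, ← Matrix.mulVec_mulVec, ← Matrix.mulVec_mulVec]
    simp only [inv_one, S.xG_val]
    exact hV.one _ hl _ (hV.neg_one _ (S.wf.neg_lt _ hl) _ (hV.one _ hl _ (ih v hv)))

theorem Stable.orbit (hV : Stable S V) (L : List (Fin D.rank)) {a b : Fin D.nroots}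
    (hL : S.wperm L a = b) (h : evec D K a ∈ V) : evec D K b ∈ V := by
  obtain ⟨c, hc, -, h2⟩ := S.wN_act K L a
  have h3 := hV.wN L _ h
  rw [h2, hL] at h3
  exact hV.sign hc h3

theorem Stable.lng_mem (hV : Stable S V) (T : SubFacts S e ℓ) {s : ℕ} (hs : s < D.nroots)
    (hl : lng D s = true) : evec D K s ∈ V := by
  obtain ⟨L, hL⟩ := S.orbit_sound T.high.lt T.orbL hs hl
  exact hV.orbit L hL hV.top

theorem Stable.sht_mem (hV : Stable S V) (T : SubFacts S e ℓ) {a : ℕ} (ha : a < D.nroots)
    (hla : lng D a = false) (h : evec D K a ∈ V) {s : ℕ} (hs : s < D.nroots)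
    (hl : lng D s = false) : evec D K s ∈ V := by
  obtain ⟨La, hLa⟩ := S.orbit_sound T.e_lt T.orbS ha (by simp [hla])
  obtain ⟨L, hL⟩ := S.orbit_sound T.e_lt T.orbS hs (by simp [hl])
  have he : evec D K e ∈ V := hV.orbit La.reverse (a := ⟨a, ha⟩) (b := ⟨e, T.e_lt⟩)
    (by rw [S.wperm_reverse, ← hLa, Equiv.Perm.coe_inv, Equiv.symm_apply_apply]) h
  exact hV.orbit L hL he

theorem Stable.basis_mem (hV : Stable S V) (hcor : chkCor D = true)
    (hall : ∀ s < D.nroots, evec D K s ∈ V) {c : ℕ} (hc : c < D.rank + D.nroots) :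
    bv D K c ∈ V := by
  rcases lt_or_ge c D.rank with hl | hl
  · have hs := S.wf.simple_lt c hl
    have hn := S.wf.neg_lt _ hs
    have h := hV.sub_mem hn (hall _ hs)
    have e1 : evec D K (D.simple c) = evec D K (D.neg (D.neg (D.simple c))) := by
      rw [S.wf.neg_neg _ hs]
    rw [e1, evec, x_bv_neg S.wf hn] at h
    have hh : hvec D K (D.neg (D.simple c)) = -bv D K c := by
      simp only [chkCor, List.all_eq_true, List.mem_range, beq_iff_eq] at hcor
      rw [hvec, ← List.sum_toFinset _ List.nodup_range, List.toFinset_range,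
        Finset.sum_eq_single c]
      · rw [hcor c hl c hl, if_pos rfl, Int.cast_neg, Int.cast_one, neg_smul, one_smul]
      · intro b hb hbc
        rw [hcor c hl b (Finset.mem_range.mp hb), if_neg hbc, Int.cast_zero, zero_smul]
      · intro hcc
        exact absurd (Finset.mem_range.mpr hl) hcc
    simp only [one_smul, one_pow, hh] at h
    have h2 := V.neg_mem (V.add_mem h (hall _ hn))
    convert h2 using 1
    simp only [evec]
    rw [S.wf.neg_neg _ hs]
    module
  · obtain ⟨s, rfl⟩ := Nat.exists_eq_add_of_le hl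
    exact hall s (by omega)

/-- The type-dependent part: one short root vector. -/
def HasShort (S : Sys D) (K : Type*) [Field K] : Prop :=
  ∀ V : AddSubgroup (D.Idx → K), Stable S V → ∀ s < D.nroots, lng D s = false → evec D K s ∈ V

theorem Stable.all_mem (hV : Stable S V) (T : SubFacts S e ℓ) (hcor : chkCor D = true)
    (hsh : HasShort S K) {c : ℕ} (hc : c < D.rank + D.nroots) : bv D K c ∈ V :=
  hV.basis_mem hcor (fun s hs => by
    cases hl : lng D s
    · exact hsh V hV s hs hl
    · exact hV.lng_mem T hs hl) hc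

theorem hasShort_of_none (h : shtList D = []) : HasShort S K := fun _ _ s _ hl => by
  simp [lng, h] at hl

/-! ### The types with short roots -/

theorem B2_span_tables : colTerms chevB2 5 (chevB2.rank + 4) =
      [(chevB2.rank + 4, 1, 0), (chevB2.rank + 6, -1, 1), (chevB2.rank + 7, -1, 2)] ∧
    lng chevB2 4 = true ∧ lng chevB2 7 = true ∧ lng chevB2 6 = false ∧ chevB2.nroots = 8 := by
  repeat' apply And.intro
  all_goals decide +kernel

theorem hasShort_B2 : HasShort sysB2 K := by
  obtain ⟨hcol, h4, h7, h6, hn⟩ := B2_span_tables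
  intro V hV s hs hl
  refine hV.sht_mem subFacts_B2 (a := 6) (by omega) h6 ?_ hs hl
  have h := hV.sub_mem (r := 5) (by omega) (hV.lng_mem subFacts_B2 (s := 4) (by omega) h4)
  rw [evec, x_bv sysB2.wf (by omega) (by omega), hcol] at h
  have h2 := V.add_mem h (hV.lng_mem subFacts_B2 (s := 7) (by omega) h7)
  simpa [evec] using V.neg_mem h2

theorem F4_span_tables : colTerms chevF4 29 (chevF4.rank + 41) =
      [(chevF4.rank + 41, 1, 0), (chevF4.rank + 44, 1, 1), (chevF4.rank + 47, 1, 2)] ∧
    lng chevF4 41 = true ∧ lng chevF4 47 = true ∧ lng chevF4 44 = false ∧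
    chevF4.nroots = 48 := by
  repeat' apply And.intro
  all_goals decide +kernel

theorem hasShort_F4 : HasShort sysF4 K := by
  obtain ⟨hcol, h4, h7, h6, hn⟩ := F4_span_tables
  intro V hV s hs hl
  refine hV.sht_mem subFacts_F4 (a := 44) (by omega) h6 ?_ hs hl
  have h := hV.sub_mem (r := 29) (by omega) (hV.lng_mem subFacts_F4 (s := 41) (by omega) h4)
  rw [evec, x_bv sysF4.wf (by omega) (by omega), hcol] at h
  have h2 := V.sub_mem h (hV.lng_mem subFacts_F4 (s := 47) (by omega) h7)
  simpa [evec] using h2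

theorem G2_span_tables : colTerms chevG2 7 (chevG2.rank + 6) =
      [(chevG2.rank + 6, 1, 0), (chevG2.rank + 8, -1, 1), (chevG2.rank + 9, 1, 2),
        (chevG2.rank + 10, 1, 3)] ∧
    colTerms chevG2 5 (chevG2.rank + 8) = [(chevG2.rank + 8, 1, 0), (chevG2.rank + 7, 1, 1)] ∧
    colTerms chevG2 5 (chevG2.rank + 9) = [(chevG2.rank + 9, 1, 0)] ∧
    colTerms chevG2 5 (chevG2.rank + 10) = [(chevG2.rank + 10, 1, 0)] ∧
    lng chevG2 6 = true ∧ lng chevG2 7 = false ∧ chevG2.nroots = 12 := by
  repeat' apply And.intro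
  all_goals decide +kernel

theorem hasShort_G2 : HasShort sysG2 K := by
  obtain ⟨c7, c8, c9, c10, h6, h7, hn⟩ := G2_span_tables
  intro V hV s hs hl
  refine hV.sht_mem subFacts_G2 (a := 7) (by omega) h7 ?_ hs hl
  have h := hV.sub_mem (r := 5) (by omega)
    (hV.sub_mem (r := 7) (by omega) (hV.lng_mem subFacts_G2 (s := 6) (by omega) h6))
  simp only [Matrix.mulVec_add, Matrix.mulVec_smul, evec,
    x_bv sysG2.wf (show 7 < chevG2.nroots by omega)
      (show chevG2.rank + 6 < chevG2.rank + chevG2.nroots by omega), c7, List.map_cons,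
    List.map_nil, List.sum_cons, List.sum_nil, one_pow, mul_one, Int.cast_one,
    Int.cast_neg, one_smul, add_zero, add_sub_cancel_left,
    x_bv sysG2.wf (show 5 < chevG2.nroots by omega)
      (show chevG2.rank + 8 < chevG2.rank + chevG2.nroots by omega), c8,
    x_bv sysG2.wf (show 5 < chevG2.nroots by omega)
      (show chevG2.rank + 9 < chevG2.rank + chevG2.nroots by omega), c9,
    x_bv sysG2.wf (show 5 < chevG2.nroots by omega)
      (show chevG2.rank + 10 < chevG2.rank + chevG2.nroots by omega), c10] at h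
  have h2 := V.neg_mem h
  convert h2 using 1
  simp only [evec]
  module

end CfsgLib.ChevSubfield
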