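import Cfsg.Agent.ChevSubfield.Borel
import Cfsg.Agent.ChevSubfield.TypeB

/-!
Type `B₂` in characteristic two: the entry at the lowest row and the highest root.
-/

set_option autoImplicit false

namespace CfsgLib.ChevSubfield

open Cfsg.Lie CfsgLib.Chevalley CfsgLib.ChevField
open scoped Matrix

theorem B2_two_tables : chevB2.nroots = 8 ∧ topIdx chevB2 = 7 ∧
    chevB2.commTerms 6 0 = [(2, 1, 1, 1), (4, 1, 2, 1)] ∧
    chevB2.commTerms 7 2 = [(6, -1, 1, 1), (4, -1, 1, 2)] ∧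
    chevB2.commTerms 4 7 = [] ∧ chevB2.commTerms 4 6 = [] ∧ chevB2.simple 1 = 4 ∧
    chevB2.rank = 2 ∧ chevB2.neg 6 = 1 ∧ chevB2.neg 7 = 0 ∧ chevB2.neg 4 = 3 := by
  repeat' apply And.intro
  all_goals decide +kernel

variable {K : Type*} [Field K] [CharP K 2] {σ : K →+* K} {H : Subgroup (GL chevB2.Idx K)}
  (hfix : RootsIn sysB2 σ H)
  (hUni : ∀ g ∈ H, g ∈ chevB2.posUnipotent K → gmap chevB2 σ g = g)
variable {q : ℕ}

local notation "Xr" => Sys.xG sysB2 K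

include hfix hUni in
theorem B2_ent_fixed (P : FrobData σ 2 q) {g : GL chevB2.Idx K} (hgH : g ∈ H)
    (hgG : g ∈ chevB2.group K) :
    σ (crd chevB2 ((g : Matrix chevB2.Idx chevB2.Idx K) *ᵥ evec chevB2 K (topIdx chevB2)) 0) =
      crd chevB2 ((g : Matrix chevB2.Idx chevB2.Idx K) *ᵥ evec chevB2 K (topIdx chevB2)) 0 := by
  obtain ⟨hn, htop, h60, h72, h47, h46, hs4, hrk, n6, n7, n4⟩ := B2_two_tables
  by_contra hc
  set c := crd chevB2 ((g : Matrix chevB2.Idx chevB2.Idx K) *ᵥ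
    evec chevB2 K (topIdx chevB2)) 0 with hcdef
  have hc0 : c ≠ 0 := fun h => hc (by rw [h, map_zero])
  obtain ⟨v, hv, hconj, -⟩ := corner_form subFacts_B2 hgG hc0
  rw [← hcdef] at hconj
  have h20 : (2 : K) = 0 := CharP.cast_eq_zero K 2
  have hneg : ∀ x : K, -x = x := fun x => CharTwo.neg_eq x
  have hx : Excep K 2 := ⟨by norm_num, by exact_mod_cast h20⟩
  have hU : ∀ a, 4 ≤ a → a < 8 → ∀ t, Xr a t ∈ chevB2.posUnipotent K := fun a h1 h2 t => by
    rw [← uSub_univ]; exact sysB2.xG_mem_uSub K (Set.mem_univ _) (by omega) (by omega) t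
  have hv6 : ∀ t, v * Xr 6 t * v⁻¹ = Xr 6 t := fun t => by
    have := subFacts_B2.zed_commute t 0 hv
    simp only [SubFacts.zed, if_pos hx, Sys.xG_zero, mul_one] at this
    rw [← this.eq, mul_inv_cancel_right]
  set H' := H.comap (MulAut.conj v).toMonoidHom
  have hmem : ∀ x, x ∈ H' ↔ v * x * v⁻¹ ∈ H := fun x => Iff.rfl
  have h0 : Xr 0 c ∈ H' := by
    rw [hmem]
    have := hconj 1
    rw [mul_one] at this
    rw [← this]
    exact mul_mem (mul_mem hgH (xG_fixed_mem (S := sysB2) hfix (by omega) (map_one σ)))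
      (inv_mem hgH)
  have h6 : Xr 6 1 ∈ H' := by
    rw [hmem, hv6]
    exact xG_fixed_mem (S := sysB2) hfix (by omega) (map_one σ)
  have h7 : Xr 7 1 ∈ H' := by
    rw [hmem, ← htop, ← (sysB2.top_commute_pos K subFacts_B2.high hv 1).eq, mul_inv_cancel_right]
    exact xG_fixed_mem (S := sysB2) hfix (by omega) (map_one σ)
  have hZ : Xr 2 c * Xr 4 c ∈ H' := by
    have h := mul_mem (inv_mem h0) (mul_mem (mul_mem (inv_mem h6) h0) h6)
    rw [sysB2.comm_double K (by omega) (by omega) (by omega) (by omega) h60,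
      inv_mul_cancel_left] at h
    simpa [hneg] using h
  have hc47 : ∀ u w : K, Commute (Xr 4 u) (Xr 7 w) := fun u w =>
    sysB2.xG_commute K (by omega) (by omega) (by omega) (by omega) h47 u w
  have hc46 : ∀ u w : K, Commute (Xr 4 u) (Xr 6 w) := fun u w =>
    sysB2.xG_commute K (by omega) (by omega) (by omega) (by omega) h46 u w
  have hW : Xr 6 c * Xr 4 (c ^ 2) ∈ H' := by
    have h := mul_mem (inv_mem hZ) (mul_mem (mul_mem (inv_mem h7) hZ) h7)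
    rw [show (Xr 7 1)⁻¹ * (Xr 2 c * Xr 4 c) * Xr 7 1 =
      ((Xr 7 1)⁻¹ * Xr 2 c * Xr 7 1) * ((Xr 7 1)⁻¹ * (Xr 4 c * Xr 7 1)) by group,
      (hc47 c 1).eq, inv_mul_cancel_left,
      sysB2.comm_double K (by omega) (by omega) (by omega) (by omega) h72,
      mul_inv_rev, mul_assoc (Xr 4 c)⁻¹, mul_assoc (Xr 2 c), inv_mul_cancel_left] at h
    simp only [Int.cast_neg, Int.cast_one, hneg, pow_one, mul_one, one_mul] at h
    have e : (Xr 4 c)⁻¹ * (Xr 6 c * Xr 4 (c ^ 2) * Xr 4 c) = Xr 6 c * Xr 4 (c ^ 2) := by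
      rw [mul_assoc (Xr 6 c), Sys.xG_add, ← mul_assoc, ((hc46 c c).inv_left).eq, mul_assoc,
        Sys.xG_inv, Sys.xG_add, neg_add_cancel_comm_assoc]
    rwa [e] at h
  rw [hmem] at hW
  have hfixed := hUni _ hW
    (mul_mem (mul_mem hv (mul_mem (hU 6 (by omega) (by omega) _) (hU 4 (by omega) (by omega) _)))
      (inv_mem hv))
  set y := v * (Xr 6 c * Xr 4 (c ^ 2)) * v⁻¹ with hy
  obtain ⟨u, hu, t, rfl⟩ := sysB2.posUnipotent_split K (i := 1) (by omega) hv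
  have hR : (Xr 4 (c ^ 2))⁻¹ * y ∈ uSub chevB2 K (sysB2.others 1) := by
    have h6' : Xr 6 c ∈ uSub chevB2 K (sysB2.others 1) :=
      sysB2.xG_mem_uSub K (show 6 ∈ sysB2.others 1 from fun h => by rw [hs4] at h; omega)
        (by omega) (by omega) c
    have hconj4 : ∀ z, ∀ x ∈ uSub chevB2 K (sysB2.others 1),
        Xr (chevB2.simple 1) z * x * (Xr (chevB2.simple 1) z)⁻¹ ∈ uSub chevB2 K (sysB2.others 1) :=
      fun z x hx => sysB2.xG_conj_others K (by omega) (Or.inl rfl) z hx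
    rw [hs4] at hconj4
    have e : (Xr 4 (c ^ 2))⁻¹ * y =
        (Xr 4 (-(c ^ 2)) * u * (Xr 4 (-(c ^ 2)))⁻¹) *
          (Xr 4 (t + -(c ^ 2)) * Xr 6 c * (Xr 4 (t + -(c ^ 2)))⁻¹) * u⁻¹ := by
      rw [hy, hs4, ← Sys.xG_add, ← Sys.xG_inv]
      have ha : Commute (Xr 4 t) (Xr 4 (c ^ 2))⁻¹ := by
        show _ * _ = _ * _
        rw [Sys.xG_inv, Sys.xG_add, Sys.xG_add, add_comm]
      have hb : Commute (Xr 4 (c ^ 2)) (Xr 4 t)⁻¹ := by
        show _ * _ = _ * _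
        rw [Sys.xG_inv, Sys.xG_add, Sys.xG_add, add_comm]
      calc (Xr 4 (c ^ 2))⁻¹ * (u * Xr 4 t * (Xr 6 c * Xr 4 (c ^ 2)) * (u * Xr 4 t)⁻¹)
          = (Xr 4 (c ^ 2))⁻¹ * u * Xr 4 t * Xr 6 c * (Xr 4 (c ^ 2) * (Xr 4 t)⁻¹) * u⁻¹ := by
            group
        _ = (Xr 4 (c ^ 2))⁻¹ * u * Xr 4 t * Xr 6 c * ((Xr 4 t)⁻¹ * Xr 4 (c ^ 2)) * u⁻¹ := by
            rw [hb.eq]
        _ = _ := by rw [ha.eq]; group
    rw [e]
    exact mul_mem (mul_mem (hconj4 _ _ hu) (hconj4 _ _ h6')) (inv_mem hu)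
  have hσR := gmap_mem_uSub sysB2 σ hR
  rw [map_mul, map_inv, gmap_xG sysB2, hfixed] at hσR
  have h3 := mul_mem hR (inv_mem hσR)
  rw [mul_inv_rev, inv_inv, mul_assoc, mul_inv_cancel_left, Sys.xG_inv, Sys.xG_add] at h3
  have h4 := FoldData.eq_zero_of_mem_uSub (sysB2.closed_others (i := 1) (by omega))
    (by omega : 4 < chevB2.nroots) (by omega) (fun h => h hs4.symm) h3
  exact hc (P.mem_of_pow_mem (by
    show σ (c ^ 2) = c ^ 2
    linear_combination h4))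

end CfsgLib.ChevSubfield
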