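import Cfsg.Agent.ChevSubfield.Borel
import Cfsg.Agent.ChevSubfield.LargeRoot
import Cfsg.Agent.Chevalley.SLTwoHom

/-!
Characteristic two: the entry at the lowest row and the highest root lies in the subfield, up to
the groups over the field of four elements.
-/

set_option autoImplicit false

namespace CfsgLib.ChevSubfield

open Cfsg.Lie CfsgLib.Chevalley CfsgLib.ChevField
open scoped Matrix MatrixGroups

/-- The expected coefficient list of `x_r(t) e_{-top}` at the second lowest root. -/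
def lowCol (D : ChevalleyDatum) (r k : ℕ) : Bool :=
  match (colTerms D r D.rank).filter fun x => x.1 == D.rank + 1 with
  | [] => !(r == D.simple k)
  | [x] => r == D.simple k && x.2.1.natAbs == 1 && x.2.2 == 1
  | _ => false

/-- A commutator formula with a single term of coefficient `±1`. -/
def oneTerm (D : ChevalleyDatum) (r s m : ℕ) : Bool :=
  match D.commTerms r s with
  | [c] => c.1 == m && c.2.1.natAbs == 1 && c.2.2 == (1, 1)
  | _ => false

/-- The check used in characteristic two; `s` is the second highest root, `β` the opposite of the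
node root. -/
def chkTwo (D : ChevalleyDatum) (k : ℕ) : Bool :=
  let s := D.nroots - 2
  let α := D.simple k
  let β := D.neg α
  decide (β < D.nroots / 2) && !(s == 0) && !(β == 0) && decide (D.nroots / 2 ≤ s) &&
  !(β == s) && !(β == topIdx D) && !(β == D.neg s) && !(s == topIdx D) &&
  !(topIdx D == D.neg β) &&
  ((List.range D.nroots).all fun r => decide (r < D.nroots / 2) ||
    (lowCol D r k && (r == α || r == s || (D.commTerms r s).isEmpty))) &&
  oneTerm D 0 s β && oneTerm D (topIdx D) β s &&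
  (D.commTerms β s).isEmpty && (D.commTerms 0 β).isEmpty &&
  (D.pairing (topIdx D) α == 1)

variable {D : ChevalleyDatum} {S : Sys D} {e ℓ : ℕ}

/-- The facts used in characteristic two. -/
structure TwoFacts (S : Sys D) (k : ℕ) : Prop where
  beta_neg : D.neg (D.simple k) < D.nroots / 2
  s_ne0 : D.nroots - 2 ≠ 0
  beta_ne0 : D.neg (D.simple k) ≠ 0
  s_pos : D.nroots / 2 ≤ D.nroots - 2
  beta_ne_s : D.neg (D.simple k) ≠ D.nroots - 2
  beta_ne_top : D.neg (D.simple k) ≠ topIdx D
  beta_ne_negs : D.neg (D.simple k) ≠ D.neg (D.nroots - 2)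
  s_ne_top : D.nroots - 2 ≠ topIdx D
  top_ne_negbeta : topIdx D ≠ D.neg (D.neg (D.simple k))
  low : ∀ r < D.nroots, D.nroots / 2 ≤ r → lowCol D r k = true ∧
    (r = D.simple k ∨ r = D.nroots - 2 ∨ D.commTerms r (D.nroots - 2) = [])
  c0s : oneTerm D 0 (D.nroots - 2) (D.neg (D.simple k)) = true
  ctb : oneTerm D (topIdx D) (D.neg (D.simple k)) (D.nroots - 2) = true
  cbs : D.commTerms (D.neg (D.simple k)) (D.nroots - 2) = []
  c0b : D.commTerms 0 (D.neg (D.simple k)) = []
  pair : D.pairing (topIdx D) (D.simple k) = 1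

theorem twoFacts_of_chk (S : Sys D) {k : ℕ} (h : chkTwo D k = true) : TwoFacts S k := by
  simp only [chkTwo, Bool.and_eq_true, Bool.or_eq_true, decide_eq_true_eq, Bool.not_eq_true',
    beq_eq_false_iff_ne, List.all_eq_true, List.mem_range, beq_iff_eq, List.isEmpty_iff] at h
  obtain ⟨⟨⟨⟨⟨⟨⟨⟨⟨⟨⟨⟨⟨⟨h1, h2⟩, h3⟩, h4⟩, h5⟩, h6⟩, h7⟩, h8⟩, h9⟩, h10⟩, h11⟩, h12⟩, h13⟩,
    h14⟩, h15⟩ := h
  refine ⟨h1, h2, h3, h4, h5, h6, h7, h8, h9, fun r hr hp => ?_, h11, h12, h13, h14, h15⟩
  rcases h10 r hr with h | ⟨ha, hb⟩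
  · omega
  · exact ⟨ha, or_assoc.mp hb⟩

variable {K : Type*} [Field K]

theorem oneTerm_comm [CharP K 2] {r s m : ℕ} (h : oneTerm D r s m = true) (hr : r < D.nroots)
    (hs : s < D.nroots) (h1 : s ≠ r) (h2 : s ≠ D.neg r) (t u : K) :
    (S.xG K r t)⁻¹ * S.xG K s u * S.xG K r t = S.xG K s u * S.xG K m (t * u) := by
  unfold oneTerm at h
  split at h
  · rename_i c hc
    obtain ⟨k', N, ij⟩ := c
    simp only [Bool.and_eq_true, beq_iff_eq] at h
    obtain ⟨⟨e1, e2⟩, e3⟩ := h
    rw [S.comm_single K hr hs h1 h2 (by rw [hc, e1, e3])]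
    rcases Int.natAbs_eq N with e | e <;> rw [e2] at e <;> simp [e, CharTwo.neg_eq]
  · exact absurd h (by simp)

theorem zero_lt_topIdx (T : SubFacts S e ℓ) : 0 < topIdx D := by
  have := T.two_le
  have := T.high.half_le
  omega

/-- The pairs at the second highest root and the opposite of the node root. -/
noncomputable def pr (S : Sys D) (k : ℕ) (a b : K) : GL D.Idx K :=
  S.xG K (D.nroots - 2) a * S.xG K (D.neg (D.simple k)) b

variable [CharP K 2] {k : ℕ} (T : SubFacts S e ℓ) (A : AdjFacts S k) (W : TwoFacts S k)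

include T A in
theorem snd_lt : D.nroots - 2 < D.nroots ∧ D.neg (D.simple k) < D.nroots := by
  have := T.high.pos
  exact ⟨by omega, S.wf.neg_lt _ (S.wf.simple_lt k A.k_lt)⟩

omit [CharP K 2] in
include T A W in
theorem pr_commute (a b : K) :
    Commute (S.xG K (D.neg (D.simple k)) b) (S.xG K (D.nroots - 2) a) :=
  S.xG_commute K (snd_lt T A).2 (snd_lt T A).1 (Ne.symm W.beta_ne_s)
    (fun h => W.beta_ne_negs (by rw [h, S.wf.neg_neg _ (snd_lt T A).2])) W.cbs b a

include T A W in
theorem pr_mul (a b a' b' : K) : pr S k a b * pr S k a' b' = pr S k (a + a') (b + b') := by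
  rw [pr, pr, pr, mul_assoc, ← mul_assoc (S.xG K (D.neg (D.simple k)) b),
    (pr_commute T A W a' b).eq, mul_assoc, ← mul_assoc, S.xG_add, S.xG_add]

omit [CharP K 2] in
include T A W in
theorem pr_inj {a b a' b' : K} (h : pr S k a b = pr S k a' b') : a = a' ∧ b = b' := by
  obtain ⟨hsl, hbl⟩ := snd_lt T A
  have e : S.xG K (D.nroots - 2) (a - a') = S.xG K (D.neg (D.simple k)) (b' - b) := by
    rw [sub_eq_add_neg, sub_eq_add_neg, add_comm a, ← S.xG_add, ← S.xG_add, ← S.xG_inv,
      ← S.xG_inv, inv_mul_eq_iff_eq_mul, ← mul_assoc]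
    exact eq_mul_inv_iff_mul_eq.mpr h
  have hmem : S.xG K (D.nroots - 2) (a - a') ∈ D.borelSubgroup K ⊓ D.negUnipotent K :=
    ⟨S.xG_mem_borel K W.s_pos hsl _, by
      rw [e]; exact S.xG_mem_negUnipotent K W.beta_neg _⟩
  rw [S.borel_inf_neg K, Subgroup.mem_bot, S.xG_eq_one_iff K hsl] at hmem
  rw [hmem, S.xG_zero] at e
  exact ⟨sub_eq_zero.mp hmem, (sub_eq_zero.mp ((S.xG_eq_one_iff K hbl _).mp e.symm)).symm⟩

include T A W in
/-- Conjugation by the root elements of `±` the highest root on the pairs. -/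
theorem pr_conj (u a b : K) :
    S.xG K (topIdx D) u * pr S k a b * (S.xG K (topIdx D) u)⁻¹ = pr S k (a + u * b) b ∧
      S.xG K 0 u * pr S k a b * (S.xG K 0 u)⁻¹ = pr S k a (u * a + b) := by
  obtain ⟨hsl, hbl⟩ := snd_lt T A
  have h0 := T.high.pos
  constructor
  · rw [show S.xG K (topIdx D) u * pr S k a b * (S.xG K (topIdx D) u)⁻¹ =
      (S.xG K (topIdx D) u)⁻¹ * pr S k a b * S.xG K (topIdx D) u by
        rw [S.xG_inv, CharTwo.neg_eq]]
    have hs : (S.xG K (topIdx D) u)⁻¹ * S.xG K (D.nroots - 2) a * S.xG K (topIdx D) u =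
        S.xG K (D.nroots - 2) a := by
      rw [mul_assoc, ← (S.top_commute_pos K T.high (by
        rw [← uSub_univ]; exact S.xG_mem_uSub K (Set.mem_univ _) W.s_pos hsl a) u).eq,
        inv_mul_cancel_left]
    have hb := oneTerm_comm (S := S) W.ctb T.high.lt hbl W.beta_ne_top
      (by rw [T.high.neg_top]; exact W.beta_ne0) u b
    calc (S.xG K (topIdx D) u)⁻¹ * pr S k a b * S.xG K (topIdx D) u
        = ((S.xG K (topIdx D) u)⁻¹ * S.xG K (D.nroots - 2) a * S.xG K (topIdx D) u) *
          ((S.xG K (topIdx D) u)⁻¹ * S.xG K (D.neg (D.simple k)) b * S.xG K (topIdx D) u) := by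
          rw [pr]; group
      _ = _ := by
          rw [hs, hb, (pr_commute T A W (u * b) b).eq, ← mul_assoc, S.xG_add, pr]
  · rw [show S.xG K 0 u * pr S k a b * (S.xG K 0 u)⁻¹ =
      (S.xG K 0 u)⁻¹ * pr S k a b * S.xG K 0 u by rw [S.xG_inv, CharTwo.neg_eq]]
    have hb : (S.xG K 0 u)⁻¹ * S.xG K (D.neg (D.simple k)) b * S.xG K 0 u =
        S.xG K (D.neg (D.simple k)) b := by
      rw [mul_assoc, ← (S.xG_commute K h0 hbl W.beta_ne0 (fun h => W.beta_ne_top (by
        rw [h, ← T.high.neg_top, S.wf.neg_neg _ T.high.lt])) W.c0b u b).eq, inv_mul_cancel_left]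
    have hs := oneTerm_comm (S := S) W.c0s h0 hsl W.s_ne0 (fun h => W.s_ne_top (by
      rw [h, ← T.high.neg_top, S.wf.neg_neg _ T.high.lt])) u a
    calc (S.xG K 0 u)⁻¹ * pr S k a b * S.xG K 0 u
        = ((S.xG K 0 u)⁻¹ * S.xG K (D.nroots - 2) a * S.xG K 0 u) *
          ((S.xG K 0 u)⁻¹ * S.xG K (D.neg (D.simple k)) b * S.xG K 0 u) := by
          rw [pr]; group
      _ = _ := by rw [hs, hb, mul_assoc, S.xG_add, pr]

include T A W in
/-- The conjugates of the second highest root element by `U`, and the matrix entry they show. -/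
theorem delta_exists {v : GL D.Idx K} (hv : v ∈ D.posUnipotent K) :
    ∃ d : K, (∀ t, v * S.xG K (D.nroots - 2) t * v⁻¹ =
        S.xG K (D.nroots - 2) t * S.xG K (topIdx D) (d * t)) ∧
      crd D ((v : Matrix D.Idx D.Idx K) *ᵥ evec D K 0) 1 = d := by
  obtain ⟨hsl, -⟩ := snd_lt T A
  have h2 := T.two_le
  have hv' := hv
  rw [← uSub_univ] at hv'
  induction hv' using Subgroup.closure_induction with
  | mem x hx =>
    obtain ⟨r, u, ⟨-, hp⟩, hx⟩ := hx
    obtain ⟨h1, hr⟩ := (S.pos_iff r).mp hp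
    obtain ⟨hlow, hcases⟩ := W.low r hr h1
    rw [S.eq_xG K hx]
    have hcrd : crd D ((S.xG K r u : Matrix D.Idx D.Idx K) *ᵥ evec D K 0) 1 =
        if r = D.simple k then u else 0 := by
      rw [S.xG_val, evec, Nat.add_zero, crd_x_bv S.wf hr (by omega) (by omega)]
      unfold lowCol at hlow
      split at hlow
      · rename_i heq
        rw [heq, if_neg (by simpa using hlow)]
        rfl
      · rename_i y heq
        simp only [Bool.and_eq_true, beq_iff_eq] at hlow
        rw [heq, if_pos hlow.1.1, List.map_cons, List.map_nil, List.sum_cons, List.sum_nil,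
          add_zero, hlow.2, pow_one]
        rcases Int.natAbs_eq y.2.1 with e | e <;> rw [hlow.1.2] at e <;>
          simp [e, CharTwo.neg_eq]
      · exact absurd hlow (by simp)
    refine ⟨if r = D.simple k then u else 0, fun t => ?_, hcrd⟩
    by_cases hk : r = D.simple k
    · rw [if_pos hk, hk]
      obtain ⟨N, hN, hc⟩ := A.comm_top
      have e := S.comm_single K (S.wf.simple_lt k A.k_lt) hsl A.ne.1 A.ne.2 hc (-u) t
      rw [← S.xG_inv, inv_inv, S.xG_inv] at e
      rw [S.xG_inv, e]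
      rcases Int.natAbs_eq N with e' | e' <;> rw [hN] at e' <;> simp [e', CharTwo.neg_eq]
    · rw [if_neg hk, zero_mul, S.xG_zero, mul_one]
      have hcom : Commute (S.xG K r u) (S.xG K (D.nroots - 2) t) := by
        by_cases hrs : r = D.nroots - 2
        · rw [hrs]
          show _ * _ = _ * _
          rw [S.xG_add, S.xG_add, add_comm]
        · refine S.xG_commute K hr hsl (Ne.symm hrs) (fun h => ?_)
            ((hcases.resolve_left hk).resolve_left hrs) u t
          have := (S.neg_half r hr).mpr h1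
          have := W.s_pos
          omega
      rw [hcom.eq, mul_inv_cancel_right]
  | one =>
    refine ⟨0, fun t => ?_, ?_⟩
    · simp [S.xG_zero]
    · rw [Units.val_one, Matrix.one_mulVec, crd_evec (by omega), if_neg (by omega)]
  | mul x y hx hy ihx ihy =>
    rw [← uSub_univ] at ihx ihy
    obtain ⟨d, hd, hd'⟩ := ihx hx
    obtain ⟨d', he, he'⟩ := ihy hy
    have hxU : x ∈ D.posUnipotent K := by rw [← uSub_univ]; exact hx
    have hyU : y ∈ D.posUnipotent K := by rw [← uSub_univ]; exact hy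
    refine ⟨d + d', fun t => ?_, ?_⟩
    · calc x * y * S.xG K (D.nroots - 2) t * (x * y)⁻¹
          = x * (y * S.xG K (D.nroots - 2) t * y⁻¹) * x⁻¹ := by group
        _ = (x * S.xG K (D.nroots - 2) t * x⁻¹) * (x * S.xG K (topIdx D) (d' * t) * x⁻¹) := by
            rw [he]; group
        _ = _ := by
            rw [hd, ← (S.top_commute_pos K T.high hxU _).eq, mul_inv_cancel_right, mul_assoc,
              S.xG_add, add_mul]
    · rw [Units.val_mul, ← Matrix.mulVec_mulVec, S.pos_unipotent_row_one K hxU h2, he', hd',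
        S.pos_unipotent_row_zero K hyU (by omega), crd_evec T.high.pos, if_pos rfl, mul_one,
        add_comm]
  | inv x hx ihx =>
    rw [← uSub_univ] at ihx
    obtain ⟨d, hd, hd'⟩ := ihx hx
    have hxU : x ∈ D.posUnipotent K := by rw [← uSub_univ]; exact hx
    refine ⟨d, fun t => ?_, ?_⟩
    · have h1 := hd t
      have hc : x⁻¹ * S.xG K (topIdx D) (d * t) * x = S.xG K (topIdx D) (d * t) := by
        rw [mul_assoc, (S.top_commute_pos K T.high hxU _).eq, inv_mul_cancel_left]
      calc x⁻¹ * S.xG K (D.nroots - 2) t * x⁻¹⁻¹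
          = x⁻¹ * (S.xG K (D.nroots - 2) t * S.xG K (topIdx D) (d * t)) * x *
            (x⁻¹ * S.xG K (topIdx D) (d * t) * x)⁻¹ := by group
        _ = S.xG K (D.nroots - 2) t * (S.xG K (topIdx D) (d * t))⁻¹ := by rw [← h1, hc]; group
        _ = _ := by rw [S.xG_inv, CharTwo.neg_eq]
    · have h1 := S.pos_unipotent_row_one K hxU h2 ((x⁻¹ : GL D.Idx K).val *ᵥ evec D K 0)
      rw [Matrix.mulVec_mulVec, ← Units.val_mul, mul_inv_cancel, Units.val_one, Matrix.one_mulVec,
        crd_evec (by omega), if_neg (by omega), hd',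
        S.pos_unipotent_row_zero K (inv_mem hxU) (by omega), crd_evec T.high.pos, if_pos rfl,
        mul_one] at h1
      exact CharTwo.add_eq_zero.mp h1.symm

variable {σ : K →+* K} {H : Subgroup (GL D.Idx K)}
  (hfix : RootsIn S σ H)
  (hUni : ∀ g ∈ H, g ∈ D.posUnipotent K → gmap D σ g = g)
variable {q : ℕ}

omit [CharP K 2] in
include T A W hUni in
/-- An element of `H` in the two highest root subgroups. -/
theorem snd_top_fixed {a b : K}
    (h : S.xG K (D.nroots - 2) a * S.xG K (topIdx D) b ∈ H) : σ a = a ∧ σ b = b := by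
  obtain ⟨hsl, -⟩ := snd_lt T A
  have h1 := hUni _ h (mul_mem
    (by rw [← uSub_univ]; exact S.xG_mem_uSub K (Set.mem_univ _) W.s_pos hsl a)
    (by rw [← uSub_univ]; exact S.xG_mem_uSub K (Set.mem_univ _) T.high.half_le T.high.lt b))
  rw [map_mul, gmap_xG S, gmap_xG S] at h1
  have h2 : S.xG K (D.nroots - 2) (σ a - a) = S.xG K (topIdx D) (b - σ b) := by
    rw [sub_eq_add_neg, add_comm, ← S.xG_add, sub_eq_add_neg, ← S.xG_add, ← S.xG_inv,
      ← S.xG_inv, inv_mul_eq_iff_eq_mul, ← mul_assoc]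
    exact (eq_mul_inv_iff_mul_eq.mpr h1)
  have ha : σ a = a := by
    by_contra hne
    exact W.s_ne_top (S.top_of_xG_eq K T.high hsl (sub_ne_zero.mpr hne) h2)
  refine ⟨ha, ?_⟩
  rw [ha, sub_self, S.xG_zero, eq_comm, S.xG_eq_one_iff K T.high.lt, sub_eq_zero] at h2
  exact h2.symm

include T A W hfix hUni in
/-- The dependent case. -/
theorem dep_false {g v : GL D.Idx K} (hgH : g ∈ H) {c d : K} (hcF : σ c ≠ c)
    (hconj : ∀ t, g * S.xG K (topIdx D) t * g⁻¹ = v * S.xG K 0 (c * t) * v⁻¹)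
    (hv : v ∈ D.posUnipotent K)
    (hd : ∀ t, v * S.xG K (D.nroots - 2) t * v⁻¹ =
        S.xG K (D.nroots - 2) t * S.xG K (topIdx D) (d * t)) (hdF : σ d = d) : False := by
  obtain ⟨hsl, hbl⟩ := snd_lt T A
  set H' := H.comap (MulAut.conj v).toMonoidHom
  have hmem : ∀ x, x ∈ H' ↔ v * x * v⁻¹ ∈ H := fun x => Iff.rfl
  have h1 : pr S k 1 0 ∈ H' := by
    rw [hmem, pr, S.xG_zero, mul_one, hd, mul_one]
    exact mul_mem (xG_fixed_mem (S := S) hfix hsl (map_one σ))
      (xG_fixed_mem (S := S) hfix T.high.lt hdF)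
  have h2 : S.xG K 0 c ∈ H' := by
    rw [hmem]
    have := hconj 1
    rw [mul_one] at this
    rw [← this]
    exact mul_mem (mul_mem hgH (xG_fixed_mem (S := S) hfix T.high.lt (map_one σ))) (inv_mem hgH)
  have h3 : S.xG K (topIdx D) 1 ∈ H' := by
    rw [hmem, ← (S.top_commute_pos K T.high hv 1).eq, mul_inv_cancel_right]
    exact xG_fixed_mem (S := S) hfix T.high.lt (map_one σ)
  have hsum : ∀ a b a' b' : K, pr S k a b ∈ H' → pr S k a' b' ∈ H' →
      pr S k (a + a') (b + b') ∈ H' := fun a b a' b' ha hb => pr_mul T A W a b a' b' ▸ mul_mem ha hb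
  have h4 : pr S k 1 (c * 1 + 0) ∈ H' :=
    (pr_conj T A W c 1 0).2 ▸ mul_mem (mul_mem h2 h1) (inv_mem h2)
  have h5 : pr S k 0 c ∈ H' := by
    have := hsum _ _ _ _ h1 h4
    rwa [CharTwo.add_self_eq_zero, zero_add, mul_one, add_zero] at this
  have h6 : pr S k (0 + 1 * c) c ∈ H' :=
    (pr_conj T A W 1 0 c).1 ▸ mul_mem (mul_mem h3 h5) (inv_mem h3)
  have h7 : pr S k c 0 ∈ H' := by
    have := hsum _ _ _ _ h6 h5
    rwa [CharTwo.add_self_eq_zero, zero_add, one_mul, add_zero] at this
  rw [hmem, pr, S.xG_zero, mul_one, hd] at h7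
  exact hcF (snd_top_fixed T A W hUni h7).1

variable [Finite H]

include T A W hfix hUni in
/-- The independent case forces the field with two elements, `d` being a root of `x² + x + 1`. -/
theorem indep_root (P : FrobData σ 2 q) {g v : GL D.Idx K} (hgH : g ∈ H) {c d : K}
    (hcF : σ c ≠ c)
    (hconj : ∀ t, g * S.xG K (topIdx D) t * g⁻¹ = v * S.xG K 0 (c * t) * v⁻¹)
    (hv : v ∈ D.posUnipotent K)
    (hd : ∀ t, v * S.xG K (D.nroots - 2) t * v⁻¹ =
        S.xG K (D.nroots - 2) t * S.xG K (topIdx D) (d * t)) (hdF : σ d ≠ d) :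
    q = 2 ∧ d ^ 2 + d = 1 := by
  classical
  obtain ⟨hsl, hbl⟩ := snd_lt T A
  have hc0 : c ≠ 0 := fun h => hcF (by rw [h, map_zero])
  have hd0 : d ≠ 0 := fun h => hdF (by rw [h, map_zero])
  obtain ⟨φ, -, hφ⟩ := S.exists_sl2_hom K T.high.lt
  have hφu : ∀ t, φ (transU t) = S.xG K (topIdx D) t := fun t => (hφ _ t).1 (transU_val t)
  have hφl : ∀ t, φ (transL t) = S.xG K 0 t := fun t => by
    rw [(hφ _ t).2 (transL_val t), T.high.neg_top]
  have hact : ∀ (g : SL(2, K)) (a b : K), φ g * pr S k a b * (φ g)⁻¹ =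
      pr S k (g.1 0 0 * a + g.1 0 1 * b) (g.1 1 0 * a + g.1 1 1 * b) := by
    intro g
    refine sl2_induction (P := fun g => ∀ a b : K, φ g * pr S k a b * (φ g)⁻¹ =
      pr S k (g.1 0 0 * a + g.1 0 1 * b) (g.1 1 0 * a + g.1 1 1 * b)) ?_ ?_ ?_ ?_ g
    · intro a b; simp
    · intro g h hg hh a b
      rw [map_mul, show φ g * φ h * pr S k a b * (φ g * φ h)⁻¹ =
        φ g * (φ h * pr S k a b * (φ h)⁻¹) * (φ g)⁻¹ by group, hh, hg]
      simp only [Matrix.SpecialLinearGroup.coe_mul, Matrix.mul_apply, Fin.sum_univ_two]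
      congr 1 <;> ring
    · intro g t hg a b
      rw [show g = transU t from Subtype.ext hg, hφu, (pr_conj T A W t a b).1]
      simp [transU_val]
    · intro g t hg a b
      rw [show g = transL t from Subtype.ext hg, hφl, (pr_conj T A W t a b).2]
      simp [transL_val]
  set H' := H.comap (MulAut.conj v).toMonoidHom
  have hmem : ∀ x, x ∈ H' ↔ v * x * v⁻¹ ∈ H := fun x => Iff.rfl
  let G1 : Subgroup (GL D.Idx K) :=
    { carrier := {x | ∃ (a b : K) (g : SL(2, K)), x = pr S k a b * φ g}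
      one_mem' := ⟨0, 0, 1, by simp [pr, S.xG_zero]⟩
      mul_mem' := by
        rintro _ _ ⟨a, b, g, rfl⟩ ⟨a', b', g', rfl⟩
        refine ⟨a + (g.1 0 0 * a' + g.1 0 1 * b'), b + (g.1 1 0 * a' + g.1 1 1 * b'), g * g', ?_⟩
        rw [← pr_mul T A W, ← hact, map_mul]
        group
      inv_mem' := by
        rintro _ ⟨a, b, g, rfl⟩
        refine ⟨g⁻¹.1 0 0 * a + g⁻¹.1 0 1 * b, g⁻¹.1 1 0 * a + g⁻¹.1 1 1 * b, g⁻¹, ?_⟩
        rw [← hact, map_inv, mul_inv_rev]
        have hinv : (pr S k a b)⁻¹ = pr S k a b := by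
          refine inv_eq_of_mul_eq_one_right ?_
          rw [pr_mul T A W, CharTwo.add_self_eq_zero, CharTwo.add_self_eq_zero]
          simp [pr, S.xG_zero]
        rw [hinv]
        group }
  set Γ := H' ⊓ G1
  have hu : S.xG K 0 c ∈ Γ := by
    refine ⟨?_, 0, 0, transL c, by rw [hφl]; simp [pr, S.xG_zero]⟩
    have := hconj 1
    rw [mul_one] at this
    show v * S.xG K 0 c * v⁻¹ ∈ H
    rw [← this]
    exact mul_mem (mul_mem hgH (xG_fixed_mem (S := S) hfix T.high.lt (map_one σ))) (inv_mem hgH)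
  have hz : S.xG K (topIdx D) 1 ∈ Γ := by
    refine ⟨?_, 0, 0, transU 1, by rw [hφu]; simp [pr, S.xG_zero]⟩
    show v * S.xG K (topIdx D) 1 * v⁻¹ ∈ H
    rw [← (S.top_commute_pos K T.high hv 1).eq, mul_inv_cancel_right]
    exact xG_fixed_mem (S := S) hfix T.high.lt (map_one σ)
  have hsU : ∀ t, S.xG K (D.nroots - 2) t ∈ D.posUnipotent K := fun t => by
    rw [← uSub_univ]; exact S.xG_mem_uSub K (Set.mem_univ _) W.s_pos hsl t
  have hvtop : ∀ t, v * S.xG K (topIdx D) t * v⁻¹ = S.xG K (topIdx D) t := fun t => by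
    rw [← (S.top_commute_pos K T.high hv t).eq, mul_inv_cancel_right]
  have hbf : ∀ f, σ f = f → pr S k f 0 * φ (transU (d * f)) ∈ Γ := by
    intro f hf
    refine ⟨?_, f, 0, transU (d * f), rfl⟩
    show v * (pr S k f 0 * φ (transU (d * f))) * v⁻¹ ∈ H
    rw [hφu, pr, S.xG_zero, mul_one, show v * (S.xG K (D.nroots - 2) f *
      S.xG K (topIdx D) (d * f)) * v⁻¹ = (v * S.xG K (D.nroots - 2) f * v⁻¹) *
        (v * S.xG K (topIdx D) (d * f) * v⁻¹) by group, hd, hvtop, mul_assoc, S.xG_add,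
      CharTwo.add_self_eq_zero, S.xG_zero, mul_one]
    exact xG_fixed_mem (S := S) hfix hsl hf
  -- an element commuting with `x_{-top}(c)` and acting like a commuting element of `X_top`
  have haction : ∀ (a b : K) (g g' : SL(2, K)) (a' b' : K),
      Commute (pr S k a b * φ g) (pr S k a' b' * φ g') → Commute g g' := by
    intro a b g g' a' b' hc'
    have key : ∀ x y : K, φ (g * g') * pr S k x y * (φ (g * g'))⁻¹ =
        φ (g' * g) * pr S k x y * (φ (g' * g))⁻¹ := by
      intro x y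
      have e1 : ∀ (a b : K) (h : SL(2, K)) (x y : K),
          (pr S k a b * φ h) * pr S k x y * (pr S k a b * φ h)⁻¹ =
            φ h * pr S k x y * (φ h)⁻¹ := by
        intro a b h x y
        rw [mul_inv_rev, show pr S k a b * φ h * pr S k x y * ((φ h)⁻¹ * (pr S k a b)⁻¹) =
          pr S k a b * (φ h * pr S k x y * (φ h)⁻¹) * (pr S k a b)⁻¹ by group, hact,
          pr_mul T A W, mul_inv_eq_iff_eq_mul, pr_mul T A W]
        congr 1 <;> ring
      calc φ (g * g') * pr S k x y * (φ (g * g'))⁻¹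
          = φ g * (φ g' * pr S k x y * (φ g')⁻¹) * (φ g)⁻¹ := by rw [map_mul]; group
        _ = (pr S k a b * φ g) * ((pr S k a' b' * φ g') * pr S k x y *
              (pr S k a' b' * φ g')⁻¹) * (pr S k a b * φ g)⁻¹ := by
            rw [e1 a' b', hact g' x y, e1 a b]
        _ = ((pr S k a b * φ g) * (pr S k a' b' * φ g')) * pr S k x y *
              ((pr S k a b * φ g) * (pr S k a' b' * φ g'))⁻¹ := by group
        _ = ((pr S k a' b' * φ g') * (pr S k a b * φ g)) * pr S k x y *
              ((pr S k a' b' * φ g') * (pr S k a b * φ g))⁻¹ := by rw [hc'.eq]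
        _ = φ g' * (φ g * pr S k x y * (φ g)⁻¹) * (φ g')⁻¹ := by
            rw [mul_inv_rev (pr S k a' b' * φ g'), show (pr S k a' b' * φ g') *
              (pr S k a b * φ g) * pr S k x y * ((pr S k a b * φ g)⁻¹ * (pr S k a' b' * φ g')⁻¹) =
              (pr S k a' b' * φ g') * ((pr S k a b * φ g) * pr S k x y *
                (pr S k a b * φ g)⁻¹) * (pr S k a' b' * φ g')⁻¹ by group,
              e1 a b, hact g x y, e1 a' b']
        _ = _ := by rw [map_mul]; group
    refine Matrix.SpecialLinearGroup.ext _ _ fun i j => ?_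
    have k10 := key 1 0
    have k01 := key 0 1
    rw [hact, hact] at k10 k01
    obtain ⟨a1, a2⟩ := pr_inj T A W k10
    obtain ⟨b1, b2⟩ := pr_inj T A W k01
    simp only [mul_one, mul_zero, add_zero, zero_add] at a1 a2 b1 b2
    fin_cases i <;> fin_cases j
    exacts [a1, b1, a2, b2]
  have htriv : ∀ (g : SL(2, K)) (x : K), x ≠ 0 → Commute g (transL c) → Commute g (transU x) →
      g = 1 := by
    intro g x hx h1 h2
    have l00 := congrArg (fun m : SL(2, K) => m.1 0 0) h1.eq
    have l10 := congrArg (fun m : SL(2, K) => m.1 1 0) h1.eq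
    have u00 := congrArg (fun m : SL(2, K) => m.1 0 0) h2.eq
    simp [Matrix.SpecialLinearGroup.coe_mul, Matrix.mul_apply, Fin.sum_univ_two, transL_val,
      transU_val] at l00 l10 u00
    have g01 : g.1 0 1 = 0 := l00.resolve_right hc0
    have g10 : g.1 1 0 = 0 := u00.resolve_left hx
    have g11 : g.1 1 1 = g.1 0 0 := by
      refine mul_left_cancel₀ hc0 ?_
      linear_combination l10
    have hdet := SL2Rel.det_eq g
    rw [g01, g11] at hdet
    have g00 : g.1 0 0 = 1 := by
      have hsq : (g.1 0 0 - 1) ^ 2 = 0 := by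
        linear_combination hdet + (1 - g.1 0 0) * (CharP.cast_eq_zero K 2)
      exact sub_eq_zero.mp (pow_eq_zero_iff (by norm_num) |>.mp hsq)
    refine Matrix.SpecialLinearGroup.ext _ _ fun i j => ?_
    fin_cases i <;> fin_cases j <;> simp [g00, g01, g10, g11]
  have hpr_of : ∀ w ∈ Γ, ∀ (x : K) (a' b' : K), x ≠ 0 → Commute w (S.xG K 0 c) →
      Commute w (pr S k a' b' * φ (transU x)) → ∃ a b, w = pr S k a b ∧ a = 0 ∧ b = 0 := by
    intro w hw x a' b' hx h1 h2
    obtain ⟨a, b, g, rfl⟩ := hw.2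
    have hg1 : Commute g (transL c) := haction a b g (transL c) 0 0 (by
      rw [hφl]; simpa [pr, S.xG_zero] using h1)
    have hg : g = 1 := htriv g x hx hg1 (haction a b g (transU x) a' b' h2)
    subst hg
    rw [map_one, mul_one] at h1 h2 ⊢
    have e1 := (pr_conj T A W c a b).2
    rw [← h1.eq, mul_inv_cancel_right] at e1
    obtain ⟨-, e1⟩ := pr_inj T A W e1
    have ha : a = 0 := by
      have : c * a = 0 := by linear_combination -e1
      exact (mul_eq_zero.mp this).resolve_left hc0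
    subst ha
    refine ⟨0, b, rfl, rfl, ?_⟩
    have e2 := (pr_conj T A W x 0 b).1
    have h3 : Commute (pr S k 0 b) (φ (transU x)) := by
      have hn : Commute (pr S k 0 b) (pr S k a' b') := by
        show _ * _ = _ * _
        rw [pr_mul T A W, pr_mul T A W, add_comm (0 : K), add_comm b]
      have := hn.inv_right.mul_right h2
      rwa [inv_mul_cancel_left] at this
    rw [hφu] at h3
    rw [← h3.eq, mul_inv_cancel_right] at e2
    obtain ⟨e2, -⟩ := pr_inj T A W e2
    have : x * b = 0 := by linear_combination -e2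
    exact (mul_eq_zero.mp this).resolve_left hx
  have hinvol : ∀ (r : ℕ) (t : K), S.xG K r t * S.xG K r t = 1 := fun r t => by
    rw [S.xG_add, CharTwo.add_self_eq_zero, S.xG_zero]
  have hbinv : ∀ f x : K,
      (pr S k f 0 * φ (transU x)) * (pr S k f 0 * φ (transU x)) = 1 := by
    intro f x
    have hc' : Commute (φ (transU x)) (pr S k f 0) := by
      rw [hφu, pr, S.xG_zero, mul_one]
      exact S.top_commute_pos K T.high (hsU f) x
    rw [mul_assoc, ← mul_assoc (φ (transU x)), hc'.eq, mul_assoc, hφu, hinvol, mul_one,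
      pr_mul T A W, CharTwo.add_self_eq_zero, add_zero]
    simp [pr, S.xG_zero]
  have hfin : ∀ x ∈ H', IsOfFinOrder x := fun x hx => by
    obtain ⟨N, hN, hpow⟩ :=
      (isOfFinOrder_of_finite (⟨v * x * v⁻¹, hx⟩ : H)).exists_pow_eq_one
    refine isOfFinOrder_iff_pow_eq_one.mpr ⟨N, hN, ?_⟩
    have h1 : (v * x * v⁻¹) ^ N = 1 := congrArg Subtype.val hpow
    rw [conj_pow] at h1
    exact mul_left_cancel (by rw [mul_one]; exact mul_inv_eq_one.mp h1)
  have hA : ∀ (x a' : K), x ≠ 0 → pr S k a' 0 * φ (transU x) ∈ Γ →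
      ∃ γ ∈ Γ, γ * S.xG K 0 c * γ⁻¹ = pr S k a' 0 * φ (transU x) := by
    intro x a' hx hb
    rcases involution_alternative (hfin _ (mul_mem hu.1 hb.1)) (hinvol 0 c) (hbinv a' x) with
      ⟨γ, hγ, h⟩ | ⟨w, hw, hw1, hwu, hwb⟩
    · exact ⟨γ, (Subgroup.closure_le _).mpr
        (Set.insert_subset hu (Set.singleton_subset_iff.mpr hb)) hγ, h⟩
    · exfalso
      obtain ⟨a, b, rfl, ha, hb'⟩ := hpr_of w ((Subgroup.closure_le _).mpr
        (Set.insert_subset hu (Set.singleton_subset_iff.mpr hb)) hw) x a' 0 hx hwu hwb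
      exact hw1 (by simp [ha, hb', pr, S.xG_zero])
  have hz' : pr S k 0 0 * φ (transU (1 : K)) = S.xG K (topIdx D) 1 := by
    rw [hφu]; simp [pr, S.xG_zero]
  obtain ⟨γ1, hγ1, hγ1'⟩ := hA 1 0 one_ne_zero (hz' ▸ hz)
  rw [hz'] at hγ1'
  have hF : ∀ f, σ f = f → f ≠ 0 → ∃ A : K, σ A = A ∧ A * A = (d * f) * (d * f) + d * f := by
    intro f hf hf0
    obtain ⟨γ2, hγ2, hγ2'⟩ := hA (d * f) f (mul_ne_zero hd0 hf0) (hbf f hf)
    set γ := γ2 * γ1⁻¹ with hγdef
    have hγ : γ ∈ Γ := mul_mem hγ2 (inv_mem hγ1)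
    have hγz : γ * S.xG K (topIdx D) 1 * γ⁻¹ = pr S k f 0 * φ (transU (d * f)) := by
      rw [hγdef, ← hγ1', ← hγ2']; group
    obtain ⟨t1, t2, g, hg⟩ := hγ.2
    have hz1 : γ * S.xG K (topIdx D) 1 * γ⁻¹ * γ = γ * S.xG K (topIdx D) 1 := by group
    rw [hγz] at hz1
    -- the `SL₂` parts
    have key : ∀ x y : K, φ (g * transU 1) * pr S k x y * (φ (g * transU 1))⁻¹ =
        φ (transU (d * f) * g) * pr S k x y * (φ (transU (d * f) * g))⁻¹ := by
      intro x y
      have e1 : ∀ (a b : K) (h : SL(2, K)) (x y : K),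
          (pr S k a b * φ h) * pr S k x y * (pr S k a b * φ h)⁻¹ =
            φ h * pr S k x y * (φ h)⁻¹ := by
        intro a b h x y
        rw [mul_inv_rev, show pr S k a b * φ h * pr S k x y * ((φ h)⁻¹ * (pr S k a b)⁻¹) =
          pr S k a b * (φ h * pr S k x y * (φ h)⁻¹) * (pr S k a b)⁻¹ by group, hact,
          pr_mul T A W, mul_inv_eq_iff_eq_mul, pr_mul T A W]
        congr 1 <;> ring
      have l1 : pr S k f 0 * φ (transU (d * f)) * γ =
          pr S k (f + ((transU (d * f)).1 0 0 * t1 + (transU (d * f)).1 0 1 * t2))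
            (0 + ((transU (d * f)).1 1 0 * t1 + (transU (d * f)).1 1 1 * t2)) *
          φ (transU (d * f) * g) := by
        rw [← pr_mul T A W, ← hact, hg, map_mul]; group
      have l2 : γ * S.xG K (topIdx D) 1 = pr S k t1 t2 * φ (g * transU 1) := by
        rw [hg, map_mul, hφu, mul_assoc]
      have h1 := congrArg (fun m => m * pr S k x y * m⁻¹) hz1
      simp only [l1, l2, e1] at h1
      exact h1.symm
    have k10 := key 1 0
    have k01 := key 0 1
    rw [hact, hact] at k10 k01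
    obtain ⟨a1, a2⟩ := pr_inj T A W k10
    obtain ⟨b1, b2⟩ := pr_inj T A W k01
    simp [Matrix.SpecialLinearGroup.coe_mul, Matrix.mul_apply, Fin.sum_univ_two, transU_val]
      at a1 a2 b1 b2
    have hdf : d * f ≠ 0 := mul_ne_zero hd0 hf0
    have g10 : g.1 1 0 = 0 := a1.resolve_left (by simp [hd0, hf0])
    have hdet := SL2Rel.det_eq g
    rw [g10] at hdet
    have ha2 : g.1 0 0 * g.1 0 0 = d * f := by
      linear_combination g.1 0 0 * b1 + d * f * hdet
    -- the translation part
    have hconjz : γ * S.xG K (topIdx D) 1 * γ⁻¹ =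
        pr S k t1 t2 * (S.xG K (topIdx D) (d * f) * (pr S k t1 t2)⁻¹) := by
      have hh : φ g * S.xG K (topIdx D) 1 = S.xG K (topIdx D) (d * f) * φ g := by
        rw [← hφu, ← hφu, ← map_mul, ← map_mul]
        refine congrArg φ (Matrix.SpecialLinearGroup.ext _ _ fun i j => ?_)
        fin_cases i <;> fin_cases j <;>
          simp [Matrix.SpecialLinearGroup.coe_mul, Matrix.mul_apply, Fin.sum_univ_two,
            transU_val, g10]
        · linear_combination b1
      rw [hg, mul_inv_rev]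
      calc pr S k t1 t2 * φ g * S.xG K (topIdx D) 1 * ((φ g)⁻¹ * (pr S k t1 t2)⁻¹)
          = pr S k t1 t2 * (φ g * S.xG K (topIdx D) 1) * (φ g)⁻¹ * (pr S k t1 t2)⁻¹ := by group
        _ = _ := by rw [hh]; group
    have hpinv : (pr S k t1 t2)⁻¹ = pr S k t1 t2 := by
      refine inv_eq_of_mul_eq_one_right ?_
      rw [pr_mul T A W, CharTwo.add_self_eq_zero, CharTwo.add_self_eq_zero]
      simp [pr, S.xG_zero]
    have hxp : S.xG K (topIdx D) (d * f) * pr S k t1 t2 =
        pr S k (t1 + d * f * t2) t2 * S.xG K (topIdx D) (d * f) := by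
      have := (pr_conj T A W (d * f) t1 t2).1
      rwa [mul_inv_eq_iff_eq_mul] at this
    rw [hconjz, hpinv, hxp, ← mul_assoc, pr_mul T A W, hφu] at hγz
    obtain ⟨ht, -⟩ := pr_inj T A W (mul_right_cancel hγz)
    have ht2 : d * t2 = 1 := by
      refine mul_left_cancel₀ hf0 ?_
      linear_combination ht - t1 * (CharP.cast_eq_zero K 2)
    -- conjugate of `b₁`
    have hb1 := mul_mem (mul_mem hγ (hbf 1 (map_one σ))) (inv_mem hγ)
    rw [mul_one] at hb1
    have hh2 : φ g * φ (transU d) = φ (transU (d * f * d)) * φ g := by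
      rw [← map_mul, ← map_mul]
      refine congrArg φ (Matrix.SpecialLinearGroup.ext _ _ fun i j => ?_)
      fin_cases i <;> fin_cases j <;>
        simp [Matrix.SpecialLinearGroup.coe_mul, Matrix.mul_apply, Fin.sum_univ_two,
          transU_val, g10]
      · linear_combination d * b1
    have hres : γ * (pr S k 1 0 * φ (transU d)) * γ⁻¹ =
        pr S k (g.1 0 0 + d * f * d * t2) 0 * φ (transU (d * f * d)) := by
      rw [hg, mul_inv_rev, hpinv]
      calc pr S k t1 t2 * φ g * (pr S k 1 0 * φ (transU d)) * ((φ g)⁻¹ * pr S k t1 t2)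
          = pr S k t1 t2 * (φ g * pr S k 1 0 * (φ g)⁻¹) * (φ g * φ (transU d)) *
              (φ g)⁻¹ * pr S k t1 t2 := by group
        _ = pr S k t1 t2 * (φ g * pr S k 1 0 * (φ g)⁻¹) *
              (φ (transU (d * f * d)) * pr S k t1 t2) := by rw [hh2]; group
        _ = _ := by
            have hxp2 : φ (transU (d * f * d)) * pr S k t1 t2 =
                pr S k (t1 + d * f * d * t2) t2 * φ (transU (d * f * d)) := by
              have := (pr_conj T A W (d * f * d) t1 t2).1
              rwa [mul_inv_eq_iff_eq_mul, ← hφu] at this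
            rw [hact, hxp2, g10, ← mul_assoc, pr_mul T A W, pr_mul T A W]
            congr 2
            · linear_combination t1 * (CharP.cast_eq_zero K 2)
            · linear_combination t2 * (CharP.cast_eq_zero K 2)
    rw [hres] at hb1
    set AA := g.1 0 0 + d * f * d * t2
    have hAA : v * (pr S k AA 0 * φ (transU (d * f * d))) * v⁻¹ =
        S.xG K (D.nroots - 2) AA * S.xG K (topIdx D) (d * AA + d * f * d) := by
      rw [hφu, pr, S.xG_zero, mul_one, show v * (S.xG K (D.nroots - 2) AA *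
        S.xG K (topIdx D) (d * f * d)) * v⁻¹ = (v * S.xG K (D.nroots - 2) AA * v⁻¹) *
          (v * S.xG K (topIdx D) (d * f * d) * v⁻¹) by group, hd, hvtop, mul_assoc, S.xG_add]
    have hmem' : v * (pr S k AA 0 * φ (transU (d * f * d))) * v⁻¹ ∈ H := hb1.1
    rw [hAA] at hmem'
    refine ⟨AA, (snd_top_fixed T A W hUni hmem').1, ?_⟩
    have e : AA = g.1 0 0 + d * f := by
      simp only [AA]; linear_combination d * f * ht2
    rw [e]
    linear_combination ha2 + g.1 0 0 * (d * f) * (CharP.cast_eq_zero K 2)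
  have hE : ∀ f, σ f = f → f ≠ 0 → σ (d * d + d / f) = d * d + d / f := by
    intro f hf hf0
    obtain ⟨A', hA', e'⟩ := hF f hf hf0
    have : d * d + d / f = A' * A' / (f * f) := by rw [e']; field_simp
    rw [this, map_div₀, map_mul, map_mul, hA', hf]
  have hq : q = 2 := by
    by_contra hq
    obtain ⟨f, hf, hf0, hf1⟩ := P.exists_ne_zero_one hq
    have hf' : σ f = f := hf
    have e1 := hE 1 (map_one σ) one_ne_zero
    have e2 := hE f hf' hf0
    refine hdF ?_
    have hne : (1 : K) - 1 / f ≠ 0 := by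
      intro h
      field_simp at h
      exact hf1 (by linear_combination h)
    have hsub : d * (1 - 1 / f) = (d * d + d / 1) - (d * d + d / f) := by ring
    have hσ : σ (d * (1 - 1 / f)) = d * (1 - 1 / f) := by rw [hsub, map_sub, e1, e2]
    rw [map_mul, map_sub, map_one, map_div₀, map_one, hf'] at hσ
    exact mul_right_cancel₀ hne hσ
  refine ⟨hq, ?_⟩
  have e1 := hE 1 (map_one σ) one_ne_zero
  rw [div_one] at e1
  rcases P.zero_or_one hq e1 with h | h
  · exfalso
    have : d * (d + 1) = 0 := by linear_combination h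
    rcases mul_eq_zero.mp this with h1 | h1
    · exact hd0 h1
    · exact hdF (by rw [CharTwo.add_eq_zero.mp h1, map_one])
  · linear_combination h

end CfsgLib.ChevSubfield
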