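import Cfsg.Agent.ChevSubfield.Basic
import Cfsg.Agent.ChevSubfield.Field

/-!
A subgroup containing the subfield points and meeting the highest root subgroup in subfield points
meets the positive unipotent subgroup in subfield points.
-/

set_option autoImplicit false

namespace CfsgLib.ChevSubfield

open Cfsg.Lie CfsgLib.Chevalley CfsgLib.ChevField
open scoped Matrix

variable {D : ChevalleyDatum}

/-- The short roots of the tabulated types with two root lengths, told apart by the number of roots. -/
def shtList (D : ChevalleyDatum) : List ℕ :=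
  if D.nroots == 12 then [2, 3, 4, 7, 8, 9]
  else if D.nroots == 8 then [1, 2, 5, 6]
  else if D.nroots == 48 then
    [3, 7, 8, 9, 10, 11, 12, 13, 14, 18, 19, 20, 27, 28, 29, 33, 34, 35, 36, 37, 38, 39, 40, 44]
  else []

/-- The roots of the length of the highest root (of use only through the checks below). -/
def lng (D : ChevalleyDatum) (s : ℕ) : Bool := !(shtList D).contains s

/-- The coefficient of the leading commutator term of `(r, a)`, zero unless it is isolated. -/
def leadN (D : ChevalleyDatum) (r a : ℕ) : ℕ :=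
  match D.commTerms r a with
  | [] => 0
  | c :: rest => if c.2.2 == (1, 1) && rest.all fun c' => !(c'.1 == c.1) then c.2.1.natAbs else 0

/-- The greatest common divisor of these over the positive roots `r`. -/
def gcdN (D : ChevalleyDatum) (a : ℕ) : ℕ :=
  ((List.range D.nroots).filter fun r => decide (D.nroots / 2 ≤ r) && !(r == a)).foldl
    (fun g r => Nat.gcd g (leadN D r a)) 0

/-- The tabulated facts used: `k` is the node joined to the highest root, `e` the highest short
root and `ℓ` the ratio of root lengths (`e` the highest root and `ℓ = 1` if all lengths agree). -/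
structure SubFacts (S : Sys D) (e ℓ : ℕ) : Prop where
  high : S.HighFacts
  two_le : 1 < D.nroots / 2
  e_lt : e < D.nroots
  e_pos : D.nroots / 2 ≤ e
  e_ne : ℓ ≠ 1 → e ≠ topIdx D
  lng_zero : lng D 0 = true
  orbL : ((List.range D.nroots).all fun s => !lng D s || s == topIdx D ||
      (List.range D.rank).any fun i =>
        lng D (D.reflectRoot i s) && decide (s < D.reflectRoot i s)) = true
  orbS : ((List.range D.nroots).all fun s => !(!lng D s) || s == e ||
      (List.range D.rank).any fun i =>
        !lng D (D.reflectRoot i s) && decide (s < D.reflectRoot i s)) = true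
  scale : ((List.range D.nroots).all fun a => lng D a || (List.range D.nroots).any fun r =>
      lng D r && (D.pairing r a).natAbs == 1) = true
  gcd : ((List.range D.nroots).all fun a => decide (a < D.nroots / 2) || a == topIdx D ||
      gcdN D a == 1 || (a == e && gcdN D a == ℓ)) = true
  cent : ((List.range D.nroots).all fun r => decide (r < D.nroots / 2) ||
      (D.commTerms e r).all fun c => decide ((ℓ : ℤ) ∣ c.2.1)) = true
  topCol : ((List.range D.nroots).all fun r => decide (r < D.nroots / 2) ||
      colTerms D r (D.rank + topIdx D) == [(D.rank + topIdx D, 1, 0)]) = true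

variable {K : Type*} [Field K]

/-- `H` contains the root elements with parameters fixed by `σ`. -/
def RootsIn (S : Sys D) (σ : K →+* K) (H : Subgroup (GL D.Idx K)) : Prop :=
  ∀ r < D.nroots, ∀ t : K, σ t = t → S.xG K r t ∈ H

/-- A group between the root elements over the subfield and the whole group, meeting the highest
root subgroup in subfield points. -/
structure Ctx (S : Sys D) (σ : K →+* K) (H : Subgroup (GL D.Idx K)) : Prop where
  roots : RootsIn S σ H
  le_group : H ≤ D.group K
  top_fix : ∀ t : K, S.xG K (topIdx D) t ∈ H → σ t = t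

theorem gcd_cast_eq_zero {L : List ℕ} {Δ : K} (h : ∀ n ∈ L, (n : K) * Δ = 0) :
    ∀ g : ℕ, (g : K) * Δ = 0 → ((L.foldl (fun g n => Nat.gcd g n) g : ℕ) : K) * Δ = 0 := by
  induction L with
  | nil => intro g hg; simpa using hg
  | cons n L ih =>
    intro g hg
    rw [List.foldl_cons]
    refine ih (fun m hm => h m (List.mem_cons_of_mem _ hm)) _ ?_
    have h1 : ((Nat.gcd g n : ℤ) : K) = ((g : ℤ) : K) * ((Nat.gcdA g n : ℤ) : K) +
        ((n : ℤ) : K) * ((Nat.gcdB g n : ℤ) : K) := by
      rw [← Int.cast_mul, ← Int.cast_mul, ← Int.cast_add, ← Nat.gcd_eq_gcd_ab]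
    rw [← Int.cast_natCast (R := K), h1]
    have hn := h n List.mem_cons_self
    simp only [Int.cast_natCast]
    linear_combination ((Nat.gcdA g n : ℤ) : K) * hg + ((Nat.gcdB g n : ℤ) : K) * hn

end CfsgLib.ChevSubfield

namespace CfsgLib.Chevalley.Sys

open Cfsg.Lie CfsgLib.ChevSubfield CfsgLib.ChevField
open scoped Matrix

variable {D : ChevalleyDatum} (S : Sys D) (F : Type*) [Field F]
include S

/-- Conjugation by `x_r(t)` moves `uSub R` inside `uSub R · uSub T`. -/
theorem conj_defect {R T : Set ℕ} {r : ℕ} (hr : r < D.nroots) (hp : D.nroots / 2 ≤ r) (t : F)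
    (hT : ∀ v ∈ D.posUnipotent F, ∀ g ∈ uSub D F T, v * g * v⁻¹ ∈ uSub D F T)
    (hterm : ∀ s ∈ R, D.nroots / 2 ≤ s → s < D.nroots → s ≠ r → ∀ c ∈ D.commTerms r s, c.1 ∈ T)
    {g : GL D.Idx F} (hg : g ∈ uSub D F R) :
    g⁻¹ * ((S.xG F r t)⁻¹ * g * S.xG F r t) ∈ uSub D F T := by
  have hgen : ∀ x ∈ {g : GL D.Idx F | ∃ (r : ℕ) (t : F), (r ∈ R ∧ D.IsPosRoot r) ∧
      (g : Matrix D.Idx D.Idx F) = D.x F r t},
      x⁻¹ * ((S.xG F r t)⁻¹ * x * S.xG F r t) ∈ uSub D F T := by
    rintro x ⟨s, u, ⟨hsR, hsp⟩, hx⟩
    obtain ⟨hs1, hs2⟩ := (S.pos_iff s).mp hsp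
    rw [S.eq_xG F hx]
    by_cases he : s = r
    · subst he
      have : (S.xG F s t)⁻¹ * S.xG F s u * S.xG F s t = S.xG F s u := by
        rw [S.xG_inv, S.xG_add, S.xG_add]; congr 1; ring
      rw [this, inv_mul_cancel]
      exact one_mem _
    have hneg : s ≠ D.neg r := fun e => by
      have := (S.neg_half r hr).mpr hp
      omega
    rw [S.xG_comm F hr hs2 he hneg, inv_mul_cancel_left]
    exact S.wG_commWord_mem F hr hs2 _ u fun c hc =>
      ⟨hterm s hsR hs1 hs2 he c hc, S.commTerm_pos hr hp hs2 hs1 hc⟩
  have hR : ∀ x ∈ uSub D F R, x ∈ D.posUnipotent F := fun x hx => uSub_le_posUnipotent F R hx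
  rw [uSub] at hg
  induction hg using Subgroup.closure_induction with
  | mem x hx => exact hgen x hx
  | one => simp
  | mul a b ha hb iha ihb =>
    have h := mul_mem (hT b⁻¹ (inv_mem (hR b hb)) _ iha) ihb
    convert h using 1
    group
  | inv a ha iha =>
    have h := inv_mem (hT a (hR a ha) _ iha)
    convert h using 1
    group

theorem xG_central_of_dvd {a ℓ : ℕ} (ha : a < D.nroots) (hap : D.nroots / 2 ≤ a)
    (h : ∀ r, D.nroots / 2 ≤ r → r < D.nroots → ∀ c ∈ D.commTerms a r, (ℓ : ℤ) ∣ c.2.1)
    (hℓ : (ℓ : F) = 0) (r : ℕ) (t u : F) (hp : D.nroots / 2 ≤ r) (hr : r < D.nroots) :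
    Commute (S.xG F a t) (S.xG F r u) := by
  by_cases he : r = a
  · subst he
    show _ * _ = _ * _
    rw [S.xG_add, S.xG_add, add_comm]
  have hneg : r ≠ D.neg a := fun e => by
    have := (S.neg_half a ha).mpr hap
    omega
  have h1 : S.wG F (D.commWord F a r t u) = 1 := by
    refine List.prod_eq_one fun x hx => ?_
    simp only [ChevalleyDatum.commWord, List.map_map, List.mem_map, Function.comp_apply] at hx
    obtain ⟨c, hc, rfl⟩ := hx
    obtain ⟨z, hz⟩ := h r hp hr c hc
    rw [hz]
    simp [hℓ, S.xG_zero]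
  have e := S.xG_comm F ha hr he hneg t u
  rw [h1, mul_one, mul_assoc, inv_mul_eq_iff_eq_mul] at e
  exact e.symm

end CfsgLib.Chevalley.Sys

namespace CfsgLib.ChevSubfield

open Cfsg.Lie CfsgLib.Chevalley CfsgLib.ChevField
open scoped Matrix

variable {D : ChevalleyDatum} {S : Sys D} {e ℓ : ℕ} (T : SubFacts S e ℓ)
variable {K : Type*} [Field K]

/-- The highest short root behaves centrally. -/
def Excep (K : Type*) [Field K] (ℓ : ℕ) : Prop := ℓ ≠ 1 ∧ (ℓ : K) = 0

namespace SubFacts
include T

theorem top_lt : topIdx D < D.nroots := T.high.lt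

theorem top_central (r : ℕ) (t u : K) (hp : D.nroots / 2 ≤ r) (hr : r < D.nroots) :
    Commute (S.xG K (topIdx D) t) (S.xG K r u) :=
  S.top_commute_pos K T.high (by
    rw [← uSub_univ]; exact S.xG_mem_uSub K (Set.mem_univ r) hp hr u) t

theorem e_central (hx : Excep K ℓ) (r : ℕ) (t u : K) (hp : D.nroots / 2 ≤ r) (hr : r < D.nroots) :
    Commute (S.xG K e t) (S.xG K r u) := by
  refine S.xG_central_of_dvd K T.e_lt T.e_pos (fun s hs1 hs2 c hc => ?_) hx.2 r t u hp hr
  have h := T.cent
  simp only [List.all_eq_true, List.mem_range, Bool.or_eq_true, decide_eq_true_eq] at h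
  rcases h s hs2 with h1 | h1
  · omega
  · exact h1 c hc

open Classical in
/-- The central part with coordinates `a` at `e` and `b` at the highest root. -/
noncomputable def zed (_T : SubFacts S e ℓ) (a b : K) : GL D.Idx K :=
  (if Excep K ℓ then S.xG K e a else 1) * S.xG K (topIdx D) b

open Classical in
/-- The coefficients outside the central part. -/
noncomputable def drop (_T : SubFacts S e ℓ) (t : ℕ → K) : ℕ → K :=
  fun r => if r = topIdx D ∨ (Excep K ℓ ∧ r = e) then 0 else t r

open Classical in
theorem ordProd_split (t : ℕ → K) :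
    S.ordProd K t (D.nroots / 2) =
      S.ordProd K (T.drop t) (D.nroots / 2) * T.zed (t e) (t (topIdx D)) := by
  rw [S.ordProd_central K T.top_lt (fun r t u => T.top_central r t u) t _ _ rfl le_rfl,
    if_pos T.high.half_le, zed, ← mul_assoc]
  congr 1
  by_cases hx : Excep K ℓ
  · rw [if_pos hx, S.ordProd_central K T.e_lt (fun r t u => T.e_central hx r t u) _ _ _ rfl le_rfl,
      if_pos T.e_pos, if_neg (T.e_ne hx.1)]
    congr 1
    refine S.ordProd_congr K fun r _ _ => ?_
    simp only [drop, hx, true_and]
    split_ifs <;> simp_all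
  · rw [if_neg hx, mul_one]
    refine S.ordProd_congr K fun r _ _ => ?_
    simp only [drop, hx, false_and, or_false]

theorem zed_commute (a b : K) {g : GL D.Idx K} (hg : g ∈ D.posUnipotent K) :
    Commute (T.zed a b) g := by
  classical
  refine Commute.mul_left ?_ (S.top_commute_pos K T.high hg b)
  by_cases hx : Excep K ℓ
  · rw [if_pos hx]
    rw [← uSub_univ] at hg
    induction hg using Subgroup.closure_induction with
    | mem x hx' =>
      obtain ⟨r, u, ⟨-, hp⟩, hx'⟩ := hx'
      obtain ⟨h1, h2⟩ := (S.pos_iff r).mp hp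
      rw [S.eq_xG K hx']
      exact T.e_central hx r a u h1 h2
    | one => exact Commute.one_right _
    | mul _ _ _ _ x y => exact x.mul_right y
    | inv _ _ x => exact x.inv_right
  · rw [if_neg hx]; exact Commute.one_left _

theorem zed_mem (a b : K) : T.zed a b ∈ D.posUnipotent K := by
  classical
  rw [← uSub_univ]
  refine mul_mem ?_ (S.xG_mem_uSub K (Set.mem_univ _) T.high.half_le T.top_lt b)
  split_ifs
  · exact S.xG_mem_uSub K (Set.mem_univ _) T.e_pos T.e_lt a
  · exact one_mem _

theorem zed_mul (a b a' b' : K) : T.zed a b * T.zed a' b' = T.zed (a + a') (b + b') := by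
  classical
  by_cases hx : Excep K ℓ
  · simp only [zed, if_pos hx]
    rw [mul_assoc, ← mul_assoc (S.xG K (topIdx D) b),
      (T.top_central e b a' T.e_pos T.e_lt).eq, mul_assoc (S.xG K e a'), ← mul_assoc, S.xG_add,
      S.xG_add]
  · simp only [zed, if_neg hx, one_mul]
    rw [S.xG_add]

theorem gmap_zed (σ : K →+* K) (a b : K) : gmap D σ (T.zed a b) = T.zed (σ a) (σ b) := by
  classical
  by_cases hx : Excep K ℓ
  · simp only [zed, if_pos hx, map_mul, gmap_xG S]
  · simp only [zed, if_neg hx, one_mul, gmap_xG S]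

/-- An element of `U` commuting with every `x_r(1)` is in the central part. -/
theorem central_form {w : GL D.Idx K} (hw : w ∈ D.posUnipotent K)
    (hc : ∀ r, D.nroots / 2 ≤ r → r < D.nroots → Commute w (S.xG K r 1)) :
    ∃ a b, w = T.zed a b := by
  classical
  obtain ⟨h0, hh0⟩ : ∃ h0 : ℤ, ∀ r < D.nroots, S.height r < h0 := by
    refine ⟨(∑ r ∈ Finset.range D.nroots, |S.height r|) + 1, fun r hr => ?_⟩
    have h1 := Finset.single_le_sum (f := fun r => |S.height r|) (fun i _ => abs_nonneg _)
      (Finset.mem_range.mpr hr)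
    have h2 := le_abs_self (S.height r)
    omega
  suffices ∀ (n : ℕ) (h : ℤ), h0 - h ≤ n → ∀ w ∈ uSub D K (S.cut h),
      (∀ r, D.nroots / 2 ≤ r → r < D.nroots → Commute w (S.xG K r 1)) → ∃ a b, w = T.zed a b from
    this (h0 - 1).toNat 1 (Int.self_le_toNat _) w (by rw [S.cut_one K]; exact hw) hc
  intro n
  induction n with
  | zero =>
    intro h hn w hw _
    rw [S.cut_top K (fun r hr _ => lt_of_lt_of_le (hh0 r hr) (by simpa using hn)),
      Subgroup.mem_bot] at hw
    refine ⟨0, 0, ?_⟩
    rw [hw, zed]
    simp [S.xG_zero]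
  | succ n ih =>
    intro h hn w hw hc
    obtain ⟨t, ht, rfl⟩ := S.exists_ordProd_half K (S.closed_cut' h) hw
    set t0 := T.drop t with ht0
    have hsplit := T.ordProd_split t
    have hc0 : ∀ r, D.nroots / 2 ≤ r → r < D.nroots →
        Commute (S.ordProd K t0 (D.nroots / 2)) (S.xG K r 1) := by
      intro r h1 h2
      have hz : Commute (T.zed (t e) (t (topIdx D))) (S.xG K r 1) :=
        T.zed_commute _ _ (by rw [← uSub_univ]; exact S.xG_mem_uSub K (Set.mem_univ r) h1 h2 1)
      have h3 := hc r h1 h2
      rw [hsplit] at h3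
      have := h3.mul_left hz.inv_left
      rwa [mul_inv_cancel_right] at this
    have hlow : ∀ r, D.nroots / 2 ≤ r → r < D.nroots → S.height r < h → t0 r = 0 := by
      intro r h1 h2 h3
      simp only [ht0, drop]
      split_ifs
      · rfl
      · by_contra hne
        exact absurd (ht r hne).1 (not_le.mpr h3)
    have hmem0 : S.ordProd K t0 (D.nroots / 2) ∈ uSub D K (S.cut h) :=
      S.ordProd_mem K t0 le_rfl fun r h1 h2 => by
        rcases lt_or_ge (S.height r) h with h3 | h3
        · exact Or.inr (hlow r h1 h2 h3)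
        · exact Or.inl h3
    have hlev : ∀ a, D.nroots / 2 ≤ a → a < D.nroots → S.height a = h → t0 a = 0 := by
      intro a ha1 ha2 hah
      by_cases hz : a = topIdx D ∨ (Excep K ℓ ∧ a = e)
      · simp only [ht0, drop, if_pos hz]
      set R : Set ℕ := {s | h ≤ S.height s ∧ s ≠ a}
      have hR1 : ∀ s ∈ R, D.nroots / 2 ≤ s → s < D.nroots → h ≤ S.height s := fun s hs _ _ => hs.1
      have hR2 : ∀ s, D.nroots / 2 ≤ s → s < D.nroots → h < S.height s → s ∈ R :=
        fun s _ _ hs => ⟨le_of_lt hs, fun e => by subst e; omega⟩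
      have hclR : S.Closed R := FoldData.closed_cut hR1 hR2
      obtain ⟨d, hd⟩ : ∃ d, (S.xG K a d)⁻¹ * S.ordProd K t0 (D.nroots / 2) ∈ uSub D K R := by
        revert hmem0
        generalize S.ordProd K t0 (D.nroots / 2) = g
        intro hg
        rw [uSub] at hg
        induction hg using Subgroup.closure_induction with
        | mem x hx =>
          obtain ⟨s, u, ⟨hs, hsp⟩, hx⟩ := hx
          obtain ⟨h1, h2⟩ := (S.pos_iff s).mp hsp
          rw [S.eq_xG K hx]
          by_cases hsa : s = a
          · exact ⟨u, by rw [hsa, inv_mul_cancel]; exact one_mem _⟩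
          · exact ⟨0, by rw [S.xG_zero, inv_one, one_mul]
                         exact S.xG_mem_uSub K (P := R) ⟨hs, hsa⟩ h1 h2 u⟩
        | one => exact ⟨0, by simp [S.xG_zero]⟩
        | mul x y hx hy ihx ihy =>
          obtain ⟨d, hd⟩ := ihx
          obtain ⟨d', hd'⟩ := ihy
          refine ⟨d + d', ?_⟩
          have := mul_mem (S.xG_conj_between K hR1 hR2 ha2 ha1 (-d') hd) hd'
          rw [← S.xG_inv] at this
          convert this using 1
          rw [← S.xG_add]
          group
        | inv x hx ihx =>
          obtain ⟨d, hd⟩ := ihx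
          refine ⟨-d, ?_⟩
          have := S.xG_conj_between K hR1 hR2 ha2 ha1 d (inv_mem hd)
          convert this using 1
          rw [← S.xG_inv]
          group
      have hN : ∀ r, D.nroots / 2 ≤ r → r < D.nroots → r ≠ a → (leadN D r a : K) * d = 0 := by
        intro r h1 h2 hra
        unfold leadN
        split
        · simp
        rename_i c rest hcr
        split_ifs with hcond
        swap
        · simp
        simp only [Bool.and_eq_true, beq_iff_eq, List.all_eq_true, Bool.not_eq_true',
          beq_eq_false_iff_ne] at hcond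
        obtain ⟨hc11, hrest⟩ := hcond
        have hcmem : c ∈ D.commTerms r a := by rw [hcr]; exact List.mem_cons_self
        have hk := S.commTerm_pos h2 h1 ha2 ha1 hcmem
        have hk' := S.commTerms_lt h2 ha2 hcmem
        obtain ⟨hi, hj, hvec⟩ := S.commTerms_vec h2 ha2 hcmem
        simp only [Prod.ext_iff] at hc11
        set T' : Set ℕ := {s | h + S.height r ≤ S.height s ∧ s ≠ c.1}
        have hhk : S.height c.1 = h + S.height r := by
          rw [S.height_commTerm h2 ha2 hcmem, hc11.1, hc11.2, hah]
          push_cast; ring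
        have hT1 : ∀ s ∈ T', D.nroots / 2 ≤ s → s < D.nroots → h + S.height r ≤ S.height s :=
          fun s hs _ _ => hs.1
        have hT2 : ∀ s, D.nroots / 2 ≤ s → s < D.nroots → h + S.height r < S.height s → s ∈ T' :=
          fun s _ _ hs => ⟨le_of_lt hs, fun e => by subst e; omega⟩
        have hrpos := FoldData.height_pos (SE := S) h2 h1
        have hterm : ∀ s ∈ R, D.nroots / 2 ≤ s → s < D.nroots → s ≠ r →
            ∀ c' ∈ D.commTerms r s, c'.1 ∈ T' := by
          intro s hs hs1 hs2 _ c' hc'
          obtain ⟨i1, j1, v1⟩ := S.commTerms_vec h2 hs2 hc'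
          have hh := S.height_commTerm h2 hs2 hc'
          have hspos := FoldData.height_pos (SE := S) hs2 hs1
          refine ⟨?_, fun heq => ?_⟩
          · show h + S.height r ≤ S.height c'.1
            rw [hh]; nlinarith [hs.1]
          · rw [heq] at hh
            have e1 : c'.2.2.1 = 1 ∧ c'.2.2.2 = 1 := by
              constructor <;> by_contra hne
              · have : (2 : ℤ) ≤ c'.2.2.1 := by omega
                nlinarith [hs.1]
              · have : (2 : ℤ) ≤ c'.2.2.2 := by omega
                nlinarith [hs.1]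
            refine hs.2 (S.vec_inj s hs2 a ha2 fun m hm => ?_)
            have h4 := v1 m hm
            rw [heq, hvec m hm, hc11.1, hc11.2, e1.1, e1.2] at h4
            push_cast at h4
            linarith
        have hdef := S.conj_defect K h2 h1 (1 : K)
          (fun v hv g hg => S.posUnipotent_conj_between K hT1 hT2 hv hg) hterm hd
        have hcomm := (hc0 r h1 h2).eq
        set g0 := S.ordProd K t0 (D.nroots / 2)
        set ρ := (S.xG K a d)⁻¹ * g0 with hρ
        have hW : S.wG K (D.commWord K r a 1 d) ∈ uSub D K T' := by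
          have e1 := S.xG_comm K h2 ha2 (Ne.symm hra) (fun e => by
            have := (S.neg_half r h2).mpr h1
            omega) 1 d
          have hρ' := uSub_le_posUnipotent K R hd
          have h5 := S.posUnipotent_conj_between K hT1 hT2 hρ' (inv_mem hdef)
          have e2 : S.wG K (D.commWord K r a 1 d) =
              ρ * (ρ⁻¹ * ((S.xG K r 1)⁻¹ * ρ * S.xG K r 1))⁻¹ * ρ⁻¹ := by
            have e3 : (S.xG K r 1)⁻¹ * g0 * S.xG K r 1 = g0 := by
              rw [mul_assoc, hcomm, inv_mul_cancel_left]
            have e4 : S.wG K (D.commWord K r a 1 d) =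
                (S.xG K a d)⁻¹ * ((S.xG K r 1)⁻¹ * S.xG K a d * S.xG K r 1) := by
              rw [e1, inv_mul_cancel_left]
            rw [e4, hρ]
            conv_rhs => rw [show (S.xG K r 1)⁻¹ * ((S.xG K a d)⁻¹ * g0) * S.xG K r 1 =
              ((S.xG K r 1)⁻¹ * S.xG K a d * S.xG K r 1)⁻¹ *
                ((S.xG K r 1)⁻¹ * g0 * S.xG K r 1) by group, e3]
            group
          rw [e2]; exact h5
        have hrest' : ((rest.map fun c' : ℕ × ℤ × ℕ × ℕ =>
            S.xG K c'.1 ((c'.2.1 : K) * (-1) ^ c'.2.2.1 * d ^ c'.2.2.2)).prod) ∈ uSub D K T' := by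
          refine Subgroup.list_prod_mem _ fun x hx => ?_
          simp only [List.mem_map] at hx
          obtain ⟨c', hc', rfl⟩ := hx
          have hm : c' ∈ D.commTerms r a := by rw [hcr]; exact List.mem_cons_of_mem _ hc'
          obtain ⟨i1, j1, -⟩ := S.commTerms_vec h2 ha2 hm
          refine S.xG_mem_uSub K (P := T') ⟨?_, hrest c' hc'⟩ (S.commTerm_pos h2 h1 ha2 ha1 hm)
            (S.commTerms_lt h2 ha2 hm) _
          rw [S.height_commTerm h2 ha2 hm, hah]
          have := FoldData.height_pos (SE := S) ha2 ha1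
          nlinarith
        simp only [ChevalleyDatum.commWord, Sys.wG, hcr, List.map_cons, List.prod_cons,
          List.map_map, hc11.1, hc11.2, pow_one] at hW
        have h6 := mul_mem hW (inv_mem hrest')
        rw [Function.comp_def, mul_inv_cancel_right] at h6
        have h7 := FoldData.eq_zero_of_mem_uSub (FoldData.closed_cut hT1 hT2) hk' hk
          (fun hm => hm.2 rfl) h6
        have h8 : (c.2.1 : K) * d = 0 := by linear_combination -h7
        rcases Int.natAbs_eq c.2.1 with e2 | e2
        · rwa [e2, Int.cast_natCast] at h8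
        · rw [e2, Int.cast_neg, Int.cast_natCast, neg_mul, neg_eq_zero] at h8
          exact h8
      have hd0 : d = 0 := by
        have hg := T.gcd
        simp only [List.all_eq_true, List.mem_range, Bool.or_eq_true, decide_eq_true_eq,
          beq_iff_eq, Bool.and_eq_true] at hg
        have hall : (gcdN D a : K) * d = 0 := by
          have h1 := gcd_cast_eq_zero (L := ((List.range D.nroots).filter fun r =>
            decide (D.nroots / 2 ≤ r) && !(r == a)).map fun r => leadN D r a) (Δ := d) ?_ 0 (by simp)
          · rwa [List.foldl_map] at h1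
          intro m hm
          simp only [List.mem_map, List.mem_filter, List.mem_range, Bool.and_eq_true,
            decide_eq_true_eq, Bool.not_eq_true', beq_eq_false_iff_ne] at hm
          obtain ⟨r, ⟨hr, hr1, hr2⟩, rfl⟩ := hm
          exact hN r hr1 hr hr2
        push Not at hz
        rcases hg a ha2 with ((h1 | h1) | h1) | ⟨h1, h2⟩
        · omega
        · exact absurd h1 hz.1
        · rw [h1, Nat.cast_one, one_mul] at hall; exact hall
        · rw [h2] at hall
          refine (mul_eq_zero.mp hall).resolve_left fun hl => ?_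
          by_cases hl1 : ℓ = 1
          · rw [hl1, Nat.cast_one] at hl; exact one_ne_zero hl
          · exact hz.2 ⟨hl1, hl⟩ h1
      subst hd0
      rw [S.xG_zero, inv_one, one_mul] at hd
      obtain ⟨u, hu, heq⟩ := S.exists_ordProd_half K hclR hd
      have := S.ordProd_inj_half K heq ha1 ha2
      by_contra hne
      exact (hu a (this ▸ hne)).1.2 rfl
    have hnext : S.ordProd K t0 (D.nroots / 2) ∈ uSub D K (S.cut (h + 1)) :=
      S.ordProd_mem K t0 le_rfl fun r h1 h2 => by
        rcases lt_trichotomy (S.height r) h with h3 | h3 | h3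
        · exact Or.inr (hlow r h1 h2 h3)
        · exact Or.inr (hlev r h1 h2 h3)
        · exact Or.inl (show h + 1 ≤ S.height r by omega)
    obtain ⟨a, b, hab⟩ := ih (h + 1) (by push_cast at hn ⊢; omega) _ hnext hc0
    exact ⟨a + t e, b + t (topIdx D), by rw [hsplit, hab, T.zed_mul]⟩

variable {σ : K →+* K} {H : Subgroup (GL D.Idx K)}

/-- `H ∩ U` consists of fixed elements. -/
theorem uni_fixed (hC : Ctx S σ H)
    (hexc : Excep K ℓ → ∀ a b : K, S.xG K e a * S.xG K (topIdx D) b ∈ H → σ a = a ∧ σ b = b)
    {g : GL D.Idx K} (hg : g ∈ H) (hgU : g ∈ D.posUnipotent K) : gmap D σ g = g := by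
  classical
  obtain ⟨h0, hh0⟩ : ∃ h0 : ℤ, ∀ r < D.nroots, S.height r < h0 := by
    refine ⟨(∑ r ∈ Finset.range D.nroots, |S.height r|) + 1, fun r hr => ?_⟩
    have h1 := Finset.single_le_sum (f := fun r => |S.height r|) (fun i _ => abs_nonneg _)
      (Finset.mem_range.mpr hr)
    have h2 := le_abs_self (S.height r)
    omega
  suffices ∀ (n : ℕ) (h : ℤ), h0 - h ≤ n → ∀ g ∈ H, g ∈ uSub D K (S.cut h) →
      gmap D σ g = g from
    this (h0 - 1).toNat 1 (Int.self_le_toNat _) g hg (by rw [S.cut_one K]; exact hgU)
  intro n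
  induction n with
  | zero =>
    intro h hn g _ hg
    rw [S.cut_top K (fun r hr _ => lt_of_lt_of_le (hh0 r hr) (by simpa using hn)),
      Subgroup.mem_bot] at hg
    rw [hg, map_one]
  | succ n ih =>
    intro h hn g hgH hg
    have hgU := uSub_le_posUnipotent K _ hg
    have hσU : gmap D σ g ∈ D.posUnipotent K := by
      rw [← uSub_univ] at hgU ⊢
      exact gmap_mem_uSub S σ hgU
    have hwc : ∀ r, D.nroots / 2 ≤ r → r < D.nroots →
        Commute (gmap D σ g * g⁻¹) (S.xG K r 1) := by
      intro r h1 h2
      have hterm : ∀ s ∈ S.cut h, D.nroots / 2 ≤ s → s < D.nroots → s ≠ r →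
          ∀ c ∈ D.commTerms r s, c.1 ∈ S.cut (h + 1) := by
        intro s hs hs1 hs2 _ c hc
        obtain ⟨i1, j1, -⟩ := S.commTerms_vec h2 hs2 hc
        have a1 := FoldData.height_pos (SE := S) h2 h1
        have a2 := FoldData.height_pos (SE := S) hs2 hs1
        have a3 : h ≤ S.height s := hs
        show h + 1 ≤ S.height c.1
        rw [S.height_commTerm h2 hs2 hc]
        nlinarith
      have hdef := S.conj_defect K h2 h1 (1 : K)
        (fun v hv x hx => S.posUnipotent_conj_between K (h := h + 1) (fun _ hs _ _ => hs)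
          (fun _ _ _ hs => le_of_lt hs) hv hx) hterm hg
      have hx : S.xG K r 1 ∈ H := hC.roots r h2 1 (map_one σ)
      have hfix := ih (h + 1) (by push_cast at hn ⊢; omega) _
        (mul_mem (inv_mem hgH) (mul_mem (mul_mem (inv_mem hx) hgH) hx)) hdef
      simp only [map_mul, map_inv, gmap_xG S, map_one] at hfix
      have e1 : (gmap D σ g)⁻¹ * (S.xG K r 1)⁻¹ * gmap D σ g = g⁻¹ * (S.xG K r 1)⁻¹ * g := by
        have := congrArg (· * (S.xG K r 1)⁻¹) hfix
        simpa [mul_assoc] using this
      have e2 : Commute (gmap D σ g * g⁻¹) (S.xG K r 1)⁻¹ := by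
        show _ = _
        calc gmap D σ g * g⁻¹ * (S.xG K r 1)⁻¹
            = gmap D σ g * (g⁻¹ * (S.xG K r 1)⁻¹ * g) * g⁻¹ := by group
          _ = _ := by rw [← e1]; group
      simpa using e2.inv_right
    obtain ⟨a, b, hab⟩ := T.central_form (mul_mem hσU (inv_mem hgU)) hwc
    obtain ⟨t, -, rfl⟩ := S.exists_ordProd_half K S.closed_univ
      (show g ∈ uSub D K Set.univ by rw [uSub_univ]; exact hgU)
    set m := S.ordProd K (T.drop t) (D.nroots / 2) with hm
    have hmU : m ∈ D.posUnipotent K := by
      rw [← uSub_univ]; exact S.ordProd_mem K _ le_rfl fun r _ _ => Or.inl (Set.mem_univ r)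
    rw [mul_inv_eq_iff_eq_mul, (T.zed_commute a b hgU).eq, T.ordProd_split t, mul_assoc, T.zed_mul,
      map_mul, gmap_ordProd S, T.gmap_zed] at hab
    have hfull : ∀ (f : ℕ → K) (x y : K), (Excep K ℓ → f e = x) → f (topIdx D) = y →
        S.ordProd K (T.drop f) (D.nroots / 2) * T.zed x y = S.ordProd K f (D.nroots / 2) := by
      intro f x y h1 h2
      rw [T.ordProd_split f, h2]
      by_cases hx : Excep K ℓ
      · rw [h1 hx]
      · simp only [zed, if_neg hx]
    have key : ∀ r, D.nroots / 2 ≤ r → r < D.nroots → T.drop t r = σ (T.drop t r) := by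
      intro r h1 h2
      by_cases hz : r = topIdx D ∨ (Excep K ℓ ∧ r = e)
      · simp only [drop, if_pos hz, map_zero]
      let upd : (ℕ → K) → K → K → ℕ → K := fun f x y r => if r = topIdx D then y else
        if Excep K ℓ ∧ r = e then x else f r
      have hupd : ∀ (f : ℕ → K) (x y : K),
          S.ordProd K (T.drop f) (D.nroots / 2) * T.zed x y =
            S.ordProd K (upd f x y) (D.nroots / 2) := by
        intro f x y
        rw [← hfull (upd f x y) x y (fun hx => by simp [upd, hx, T.e_ne hx.1]) (by simp [upd])]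
        congr 1
        refine S.ordProd_congr K fun r _ _ => ?_
        simp only [drop, upd]
        split_ifs <;> tauto
      have hcomm : (fun r => σ (T.drop t r)) = T.drop fun r => σ (t r) := by
        funext r
        simp only [drop, apply_ite σ, map_zero]
      rw [hcomm, hupd, hupd] at hab
      have := S.ordProd_inj_half K hab h1 h2
      simp only [upd] at this
      push Not at hz
      simp only [if_neg hz.1, if_neg (fun h : Excep K ℓ ∧ r = e => hz.2 h.1 h.2)] at this
      have hd : T.drop t r = t r := by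
        simp only [drop]
        rw [if_neg]
        push Not
        exact hz
      rw [hd]
      exact this.symm
    have hmσ : gmap D σ m = m := by
      rw [hm, gmap_ordProd S]
      exact S.ordProd_congr K fun r h1 h2 => (key r h1 h2).symm
    have hmH : m ∈ H := by
      rw [hm]
      refine Subgroup.list_prod_mem _ fun x hx => ?_
      simp only [List.map_map, List.mem_map, Function.comp_apply, List.mem_range'_1] at hx
      obtain ⟨r, ⟨h1, h2⟩, rfl⟩ := hx
      exact hC.roots r (by omega) _ (key r h1 (by omega)).symm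
    have hz : T.zed (t e) (t (topIdx D)) ∈ H := by
      have := mul_mem (inv_mem hmH) hgH
      rwa [T.ordProd_split t, inv_mul_cancel_left] at this
    rw [T.ordProd_split t, map_mul, hmσ, T.gmap_zed]
    congr 1
    by_cases hx : Excep K ℓ
    · simp only [zed, if_pos hx] at hz ⊢
      obtain ⟨h1, h2⟩ := hexc hx _ _ hz
      rw [h1, h2]
    · simp only [zed, if_neg hx, one_mul] at hz ⊢
      rw [hC.top_fix _ hz]

end SubFacts

end CfsgLib.ChevSubfield
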